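import Mathlib
import Cfsg.Agent.Lib.Helper64.AutStmt

/-! S4411 piece `NPS`: if the `p`-elements of `C(H₀)` lie in `H₀` and `N(H₀)/C(H₀)` is
`p`-solvable, then `N(H₀)` is `p`-solvable.  Uses the pieces `Burn` (for `C(H₀)`, whose
`p`-elements are central) and `PSExt` as hypotheses. -/

set_option autoImplicit false

namespace Cfsg.Agent.Lib.Helper63.AutNPS

open Cfsg

universe u

theorem main (hBurn : Cfsg.Agent.Lib.Helper64.AutStmt.Burn.{u})
    (hExt : Cfsg.Agent.Lib.Helper64.AutStmt.PSExt.{u}) :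
    Cfsg.Agent.Lib.Helper64.AutStmt.NPS.{u} := by
  intro p hp G _ _ H₀ hC hQ
  refine hExt p ↥(Subgroup.normalizer (H₀ : Set G))
    ((Subgroup.centralizer (H₀ : Set G)).subgroupOf (Subgroup.normalizer (H₀ : Set G))) ?_ hQ
  refine hBurn p _ ?_
  rintro ⟨⟨x, hxN⟩, hxC⟩ ⟨k, hk⟩ ⟨⟨g, hgN⟩, hgC⟩
  have hxC' : x ∈ Subgroup.centralizer (H₀ : Set G) := hxC
  have hgC' : g ∈ Subgroup.centralizer (H₀ : Set G) := hgC
  have hxk : x ^ (p ^ k) = 1 := by
    have := congrArg (fun z : ↥((Subgroup.centralizer (H₀ : Set G)).subgroupOf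
      (Subgroup.normalizer (H₀ : Set G))) => ((z : ↥(Subgroup.normalizer (H₀ : Set G))) : G)) hk
    simpa using this
  have hxH : x ∈ H₀ := hC x hxC' ⟨k, hxk⟩
  have hcomm : x * g = g * x := (Subgroup.mem_centralizer_iff.mp hgC') x hxH
  apply Subtype.ext
  apply Subtype.ext
  simp only [Subgroup.coe_mul]
  exact hcomm.symm

end Cfsg.Agent.Lib.Helper63.AutNPS
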