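import Mathlib
import Cfsg.Agent.Lib.Helper64.AutStmt

/-! S4411 piece `PSSUB`: subgroups of `p`-solvable groups are `p`-solvable
(intersect the chain with the subgroup). -/

set_option autoImplicit false

namespace Cfsg.Agent.Lib.Helper63.AutPSSUB

open Cfsg

universe u

theorem relIndex_subgroupOf_dvd {G : Type u} [Group G] (A B T : Subgroup G) (hAB : A ≤ B)
    [hA : A.Normal] :
    (A.subgroupOf T).relIndex (B.subgroupOf T) ∣ A.relIndex B := by
  rw [← Subgroup.inf_subgroupOf_right A T, ← Subgroup.inf_subgroupOf_right B T,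
    Subgroup.relIndex_subgroupOf inf_le_right]
  have e1 : A ⊓ T = A ⊓ (B ⊓ T) := by
    rw [← inf_assoc, inf_of_le_left hAB]
  rw [e1, Subgroup.inf_relIndex_right, ← Subgroup.relIndex_sup_right (B ⊓ T) A]
  have h1 := Subgroup.relIndex_mul_relIndex (H := A) (K := (B ⊓ T) ⊔ A) (L := B) le_sup_right
    (sup_le inf_le_left hAB)
  exact Dvd.intro _ h1

theorem main : Cfsg.Agent.Lib.Helper64.AutStmt.PSSub.{u} := by
  intro p hp G _ _ h T
  obtain ⟨n, H, h0, hlast, hmono, hnormal, hstep⟩ := h
  refine ⟨n, fun i => (H i).subgroupOf T, ?_, ?_, ?_, ?_, ?_⟩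
  · simp [h0]
  · simp [hlast]
  · intro i j hij x hx
    exact hmono hij hx
  · intro i
    have := hnormal i
    exact Subgroup.normal_subgroupOf
  · intro i
    have hAB : H i.castSucc ≤ H i.succ := hmono (Fin.castSucc_le_succ i)
    have hnA : (H i.castSucc).Normal := hnormal _
    have hdvd := relIndex_subgroupOf_dvd (H i.castSucc) (H i.succ) T hAB
    rcases hstep i with ⟨m, hm⟩ | hc
    · left
      rw [hm] at hdvd
      obtain ⟨j, -, hj⟩ := (Nat.dvd_prime_pow hp.out).mp hdvd
      exact ⟨j, hj⟩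
    · right
      exact Nat.Coprime.coprime_dvd_left hdvd hc

end Cfsg.Agent.Lib.Helper63.AutPSSUB
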