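import Mathlib

/-!
# Two arithmetic lemmas for S3360 (Huppert, transitive solvable linear groups)

`arith_k2` and `arith_k4`: the primes dividing `p ^ 2 + 1`, `p ^ 4 + 1`, `p ^ 8 + 1` cannot all
divide small numbers `2 ^ c - 1`.
-/

set_option autoImplicit false

namespace Cfsg.Agent.Lib.Helper63.HupArith

/-- a number `≡ 2 mod 4` bigger than `2` has an odd prime factor -/
theorem odd_prime_factor (N : ℕ) (hN : N % 4 = 2) (hN2 : 2 < N) :
    ∃ s : ℕ, s.Prime ∧ s ≠ 2 ∧ s ∣ N := by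
  obtain ⟨m, rfl⟩ : ∃ m, N = 2 * m := ⟨N / 2, by omega⟩
  have hm1 : m ≠ 1 := by omega
  obtain ⟨s, hs, hsm⟩ := Nat.exists_prime_and_dvd hm1
  refine ⟨s, hs, ?_, Dvd.dvd.mul_left hsm 2⟩
  rintro rfl
  obtain ⟨k, rfl⟩ := hsm
  omega

/-- an odd prime dividing `p ^ k + 1` does not divide `p - 1` -/
theorem not_dvd_pred (p s : ℕ) (hp : 1 ≤ p) (hs : s.Prime) (hs2 : s ≠ 2) (k : ℕ)
    (hk : s ∣ p ^ k + 1) : ¬ s ∣ p - 1 := by
  intro h
  have h1 : 1 ≡ p [MOD s] := (Nat.modEq_iff_dvd' hp).mpr h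
  have h2 : 1 ^ k + 1 ≡ p ^ k + 1 [MOD s] := (h1.pow k).add_right 1
  have h3 : p ^ k + 1 ≡ 0 [MOD s] := (Nat.modEq_zero_iff_dvd).mpr hk
  have h4 : 2 ≡ 0 [MOD s] := by
    have : (1 : ℕ) ^ k + 1 = 2 := by rw [one_pow]
    rw [this] at h2
    exact h2.trans h3
  have h5 : s ∣ 2 := (Nat.modEq_zero_iff_dvd).mp h4
  exact hs2 ((Nat.prime_dvd_prime_iff_eq hs Nat.prime_two).mp h5)

/-- `a + 1` divides `a ^ 2 - 1` -/
theorem sq_sub_one_eq (a : ℕ) : a ^ 2 - 1 = (a + 1) * (a - 1) := by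
  rcases a with _ | n
  · rfl
  · apply Nat.sub_eq_of_eq_add
    rw [Nat.add_sub_cancel]
    ring

theorem succ_dvd_sq_sub_one (a : ℕ) : a + 1 ∣ a ^ 2 - 1 := by
  rw [sq_sub_one_eq]
  exact dvd_mul_right _ _

/-- `a - 1` divides `a ^ 2 - 1` -/
theorem pred_dvd_sq_sub_one (a : ℕ) : a - 1 ∣ a ^ 2 - 1 := by
  rw [sq_sub_one_eq]
  exact dvd_mul_left _ _

theorem dvd_four (p : ℕ) : p ^ 2 + 1 ∣ p ^ 4 - 1 := by
  have h := succ_dvd_sq_sub_one (p ^ 2)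
  rw [← pow_mul] at h
  exact h

theorem dvd_sixteen_a (p : ℕ) : p ^ 8 + 1 ∣ p ^ 16 - 1 := by
  have h := succ_dvd_sq_sub_one (p ^ 8)
  rw [← pow_mul] at h
  exact h

theorem dvd_sixteen_b (p : ℕ) : p ^ 4 + 1 ∣ p ^ 16 - 1 := by
  have h1 := succ_dvd_sq_sub_one (p ^ 4)
  rw [← pow_mul] at h1
  have h2 := pred_dvd_sq_sub_one (p ^ 8)
  rw [← pow_mul] at h2
  exact h1.trans h2

/-- the residue of `p ^ k + 1` -/
theorem pow_add_one_mod (p s k : ℕ) : (p ^ k + 1) % s = ((p % s) ^ k + 1) % s := by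
  rw [Nat.add_mod, Nat.pow_mod]
  conv_rhs => rw [Nat.add_mod]

/-- squares of an odd number are `1` mod `4` -/
theorem pow_add_one_mod_four (p k : ℕ) (hp : p % 2 = 1) (_hk : k ≠ 0) :
    (p ^ (2 * k) + 1) % 4 = 2 := by
  have h1 : p ^ 2 % 4 = 1 := by
    have : p % 4 = 1 ∨ p % 4 = 3 := by omega
    rw [Nat.pow_mod]
    rcases this with h | h <;> rw [h]
  have h2 : (p ^ 2) ^ k % 4 = 1 := by
    rw [Nat.pow_mod, h1, one_pow]
    rfl
  rw [pow_mul]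
  omega

/-- the primes dividing some `2 ^ c - 1`, `c ≤ 4` -/
theorem small_primes_four (s c : ℕ) (hs : s.Prime) (hc1 : 1 ≤ c) (hc4 : c ≤ 4)
    (h : s ∣ 2 ^ c - 1) : s = 3 ∨ s = 5 ∨ s = 7 := by
  interval_cases c
  · have h1 : s ∣ 1 := h
    exact absurd (Nat.dvd_one.mp h1) hs.ne_one
  · have h1 : s ∣ 3 := h
    exact Or.inl ((Nat.prime_dvd_prime_iff_eq hs (by norm_num)).mp h1)
  · have h1 : s ∣ 7 := h
    exact Or.inr (Or.inr ((Nat.prime_dvd_prime_iff_eq hs (by norm_num)).mp h1))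
  · have h1 : s ∣ 3 * 5 := h
    rcases hs.dvd_mul.mp h1 with h2 | h2
    · exact Or.inl ((Nat.prime_dvd_prime_iff_eq hs (by norm_num)).mp h2)
    · exact Or.inr (Or.inl ((Nat.prime_dvd_prime_iff_eq hs (by norm_num)).mp h2))

/-- the primes dividing some `2 ^ c - 1`, `c ≤ 8` -/
theorem small_primes_eight (s c : ℕ) (hs : s.Prime) (hc1 : 1 ≤ c) (hc8 : c ≤ 8)
    (h : s ∣ 2 ^ c - 1) : s = 3 ∨ s = 5 ∨ s = 7 ∨ s = 17 ∨ s = 31 ∨ s = 127 := by
  rcases Nat.lt_or_ge c 5 with h5 | h5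
  · rcases small_primes_four s c hs hc1 (by omega) h with h1 | h1 | h1
    · exact Or.inl h1
    · exact Or.inr (Or.inl h1)
    · exact Or.inr (Or.inr (Or.inl h1))
  · interval_cases c
    · have h1 : s ∣ 31 := h
      have := (Nat.prime_dvd_prime_iff_eq hs (by norm_num)).mp h1
      omega
    · have h1 : s ∣ 3 * (3 * 7) := h
      rcases hs.dvd_mul.mp h1 with h2 | h2
      · have := (Nat.prime_dvd_prime_iff_eq hs (by norm_num)).mp h2
        omega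
      · rcases hs.dvd_mul.mp h2 with h3 | h3
        · have := (Nat.prime_dvd_prime_iff_eq hs (by norm_num)).mp h3
          omega
        · have := (Nat.prime_dvd_prime_iff_eq hs (by norm_num)).mp h3
          omega
    · have h1 : s ∣ 127 := h
      have := (Nat.prime_dvd_prime_iff_eq hs (by norm_num)).mp h1
      omega
    · have h1 : s ∣ 3 * (5 * 17) := h
      rcases hs.dvd_mul.mp h1 with h2 | h2
      · have := (Nat.prime_dvd_prime_iff_eq hs (by norm_num)).mp h2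
        omega
      · rcases hs.dvd_mul.mp h2 with h3 | h3
        · have := (Nat.prime_dvd_prime_iff_eq hs (by norm_num)).mp h3
          omega
        · have := (Nat.prime_dvd_prime_iff_eq hs (by norm_num)).mp h3
          omega

/-- no solution of `x ^ k + 1 ≡ 0` mod `s`, from a check of the residues -/
theorem not_dvd_of_residues (p s k : ℕ) (hs : 0 < s)
    (hchk : ∀ r : ℕ, r < s → ((r ^ k + 1) % s ≠ 0)) : ¬ s ∣ p ^ k + 1 := by
  intro h
  have h1 : (p ^ k + 1) % s = 0 := Nat.mod_eq_zero_of_dvd h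
  rw [pow_add_one_mod] at h1
  exact hchk (p % s) (Nat.mod_lt _ hs) h1

theorem chk2_3 : ∀ r : ℕ, r < 3 → ((r ^ 2 + 1) % 3 ≠ 0) := by decide
theorem chk2_7 : ∀ r : ℕ, r < 7 → ((r ^ 2 + 1) % 7 ≠ 0) := by decide
theorem chk4_3 : ∀ r : ℕ, r < 3 → ((r ^ 4 + 1) % 3 ≠ 0) := by decide
theorem chk4_5 : ∀ r : ℕ, r < 5 → ((r ^ 4 + 1) % 5 ≠ 0) := by decide
theorem chk4_7 : ∀ r : ℕ, r < 7 → ((r ^ 4 + 1) % 7 ≠ 0) := by decide
theorem chk4_31 : ∀ r : ℕ, r < 31 → ((r ^ 4 + 1) % 31 ≠ 0) := by decide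
theorem chk4_127 : ∀ r : ℕ, r < 127 → ((r ^ 4 + 1) % 127 ≠ 0) := by decide
theorem chk8_3 : ∀ r : ℕ, r < 3 → ((r ^ 8 + 1) % 3 ≠ 0) := by decide
theorem chk8_5 : ∀ r : ℕ, r < 5 → ((r ^ 8 + 1) % 5 ≠ 0) := by decide
theorem chk8_7 : ∀ r : ℕ, r < 7 → ((r ^ 8 + 1) % 7 ≠ 0) := by decide
theorem chk8_31 : ∀ r : ℕ, r < 31 → ((r ^ 8 + 1) % 31 ≠ 0) := by decide
theorem chk8_127 : ∀ r : ℕ, r < 127 → ((r ^ 8 + 1) % 127 ≠ 0) := by decide
theorem chk17 : ∀ r : ℕ, r < 17 → (r ^ 4 + 1) % 17 = 0 → (r ^ 8 + 1) % 17 ≠ 0 := by decide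

/-- [PD] -/
theorem arith_k2 (p : ℕ) (hp : p.Prime) (hodd : p ≠ 2)
    (h : ∀ s : ℕ, s.Prime → s ∣ p ^ 4 - 1 → ¬ s ∣ p - 1 → ∃ c, 1 ≤ c ∧ c ≤ 4 ∧ s ∣ 2 ^ c - 1)
    (h25 : ¬ 5 ∣ p - 1 → ¬ 25 ∣ p ^ 4 - 1) : p = 3 := by
  have hp2 : 2 ≤ p := hp.two_le
  have hp3 : 3 ≤ p := by omega
  have hpodd : p % 2 = 1 := by
    rcases hp.eq_two_or_odd with h2 | h2
    · exact absurd h2 hodd
    · exact h2
  have hN4 : (p ^ 2 + 1) % 4 = 2 := by
    have := pow_add_one_mod_four p 1 hpodd one_ne_zero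
    rwa [mul_one] at this
  -- every odd prime factor of `p ^ 2 + 1` is `5`
  have hfive : ∀ s : ℕ, s.Prime → s ≠ 2 → s ∣ p ^ 2 + 1 → s = 5 := by
    intro s hs hs2 hsN
    have h1 : ¬ s ∣ p - 1 := not_dvd_pred p s (by omega) hs hs2 2 hsN
    obtain ⟨c, hc1, hc4, hc⟩ := h s hs (hsN.trans (dvd_four p)) h1
    rcases small_primes_four s c hs hc1 hc4 hc with rfl | rfl | rfl
    · exact absurd hsN (not_dvd_of_residues p 3 2 (by norm_num) chk2_3)
    · rfl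
    · exact absurd hsN (not_dvd_of_residues p 7 2 (by norm_num) chk2_7)
  -- `25` does not divide `p ^ 2 + 1`
  have h25' : ¬ 25 ∣ p ^ 2 + 1 := by
    intro h1
    have h5 : (5 : ℕ) ∣ p ^ 2 + 1 := (by norm_num : (5 : ℕ) ∣ 25).trans h1
    have h2 : ¬ 5 ∣ p - 1 := not_dvd_pred p 5 (by omega) (by norm_num) (by norm_num) 2 h5
    exact h25 h2 (h1.trans (dvd_four p))
  -- write `p ^ 2 + 1 = 2 * m`
  obtain ⟨m, hm⟩ : ∃ m, p ^ 2 + 1 = 2 * m := ⟨(p ^ 2 + 1) / 2, by omega⟩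
  have hmodd : m % 2 = 1 := by omega
  have hm5 : ∀ s : ℕ, s.Prime → s ∣ m → s = 5 := by
    intro s hs hsm
    apply hfive s hs
    · rintro rfl
      obtain ⟨k, rfl⟩ := hsm
      omega
    · rw [hm]
      exact Dvd.dvd.mul_left hsm 2
  have hm15 : m = 1 ∨ m = 5 := by
    by_cases hm1 : m = 1
    · exact Or.inl hm1
    · right
      obtain ⟨s, hs, hsm⟩ := Nat.exists_prime_and_dvd hm1
      have hs5 := hm5 s hs hsm
      subst hs5
      obtain ⟨m', rfl⟩ := hsm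
      by_cases hm'1 : m' = 1
      · rw [hm'1]
      · exfalso
        obtain ⟨s', hs', hsm'⟩ := Nat.exists_prime_and_dvd hm'1
        have hs'5 := hm5 s' hs' (Dvd.dvd.mul_left hsm' 5)
        subst hs'5
        apply h25'
        rw [hm]
        obtain ⟨m'', rfl⟩ := hsm'
        exact ⟨2 * m'', by ring⟩
  rcases hm15 with rfl | rfl
  · have : p ^ 2 = 1 := by omega
    nlinarith
  · have h9 : p ^ 2 = 9 := by omega
    nlinarith

/-- [PE] -/
theorem arith_k4 (p : ℕ) (hp : p.Prime) (hodd : p ≠ 2)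
    (h : ∀ s : ℕ, s.Prime → s ∣ p ^ 16 - 1 → ¬ s ∣ p - 1 → ∃ c, 1 ≤ c ∧ c ≤ 8 ∧ s ∣ 2 ^ c - 1) :
    False := by
  have hp2 : 2 ≤ p := hp.two_le
  have hp3 : 3 ≤ p := by omega
  have hpodd : p % 2 = 1 := by
    rcases hp.eq_two_or_odd with h2 | h2
    · exact absurd h2 hodd
    · exact h2
  have hA4 : (p ^ 4 + 1) % 4 = 2 := pow_add_one_mod_four p 2 hpodd two_ne_zero
  have hB4 : (p ^ 8 + 1) % 4 = 2 := pow_add_one_mod_four p 4 hpodd (by norm_num)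
  have hA2 : 2 < p ^ 4 + 1 := by
    have : 1 < p ^ 4 := Nat.one_lt_pow (by norm_num) (by omega)
    omega
  have hB2 : 2 < p ^ 8 + 1 := by
    have : 1 < p ^ 8 := Nat.one_lt_pow (by norm_num) (by omega)
    omega
  obtain ⟨s', hs', hs'2, hs'A⟩ := odd_prime_factor _ hA4 hA2
  obtain ⟨s, hs, hs2, hsB⟩ := odd_prime_factor _ hB4 hB2
  have h1' : ¬ s' ∣ p - 1 := not_dvd_pred p s' (by omega) hs' hs'2 4 hs'A
  have h1 : ¬ s ∣ p - 1 := not_dvd_pred p s (by omega) hs hs2 8 hsB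
  obtain ⟨c', hc'1, hc'8, hc'⟩ := h s' hs' (hs'A.trans (dvd_sixteen_b p)) h1'
  obtain ⟨c, hc1, hc8, hc⟩ := h s hs (hsB.trans (dvd_sixteen_a p)) h1
  have e' : s' = 17 := by
    rcases small_primes_eight s' c' hs' hc'1 hc'8 hc' with rfl | rfl | rfl | rfl | rfl | rfl
    · exact absurd hs'A (not_dvd_of_residues p 3 4 (by norm_num) chk4_3)
    · exact absurd hs'A (not_dvd_of_residues p 5 4 (by norm_num) chk4_5)
    · exact absurd hs'A (not_dvd_of_residues p 7 4 (by norm_num) chk4_7)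
    · rfl
    · exact absurd hs'A (not_dvd_of_residues p 31 4 (by norm_num) chk4_31)
    · exact absurd hs'A (not_dvd_of_residues p 127 4 (by norm_num) chk4_127)
  have e : s = 17 := by
    rcases small_primes_eight s c hs hc1 hc8 hc with rfl | rfl | rfl | rfl | rfl | rfl
    · exact absurd hsB (not_dvd_of_residues p 3 8 (by norm_num) chk8_3)
    · exact absurd hsB (not_dvd_of_residues p 5 8 (by norm_num) chk8_5)
    · exact absurd hsB (not_dvd_of_residues p 7 8 (by norm_num) chk8_7)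
    · rfl
    · exact absurd hsB (not_dvd_of_residues p 31 8 (by norm_num) chk8_31)
    · exact absurd hsB (not_dvd_of_residues p 127 8 (by norm_num) chk8_127)
  subst e' e
  have hA : (p ^ 4 + 1) % 17 = 0 := Nat.mod_eq_zero_of_dvd hs'A
  have hB : (p ^ 8 + 1) % 17 = 0 := Nat.mod_eq_zero_of_dvd hsB
  rw [pow_add_one_mod] at hA hB
  exact chk17 (p % 17) (Nat.mod_lt _ (by norm_num)) hA hB

end Cfsg.Agent.Lib.Helper63.HupArith
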