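import Mathlib
import Cfsg.Agent.Lib.Lead.MaxStmt

/-!
# Piece [AUB] of S2245: case II, degree at least 9, gives a unique maximal subgroup of the
alternating group
-/

set_option autoImplicit false

namespace Cfsg.Agent.Lib.Helper63.MaxAUB

open Equiv MulAction Cfsg.Agent.Lib.Lead.MaxStmt Cfsg.Agent.Lib.Lead.SylTwoSym
open scoped Pointwise

/-- membership in the stabilizer of a singleton, inside the alternating group -/
theorem mem_stab_alt {Ω : Type} [DecidableEq Ω] [Fintype Ω] (u : Ω) (g : ↥(alternatingGroup Ω)) :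
    g ∈ stabilizer ↥(alternatingGroup Ω) ({u} : Set Ω) ↔ (g : Perm Ω) u = u := by
  rw [mem_stabilizer_iff, Set.smul_set_singleton]
  constructor
  · intro h
    have h1 : g • u ∈ ({u} : Set Ω) := by rw [← h]; exact Set.mem_singleton _
    exact h1
  · intro h
    have h1 : g • u = u := h
    rw [h1]

/-- a point outside a small finite set -/
theorem exists_notMem_finset {Ω : Type} [Fintype Ω] [DecidableEq Ω] (s : Finset Ω)
    (h : s.card < Fintype.card Ω) : ∃ r, r ∉ s := by
  by_contra hno
  push Not at hno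
  have h1 : s = Finset.univ := Finset.eq_univ_iff_forall.mpr hno
  rw [h1, Finset.card_univ] at h
  exact lt_irrefl _ h

theorem main : Cfsg.Agent.Lib.Lead.MaxStmt.AltUniqueBig := by
  intro hTT hPrim hTCI Ω _ _ Q ι u hι hII h9 R hR
  have hcard : Nat.card Ω = Fintype.card Ω := Nat.card_eq_fintype_card
  -- the stabilizer of `u`
  have hM0 : IsCoatom (stabilizer ↥(alternatingGroup Ω) ({u} : Set Ω)) := by
    apply alternatingGroup.isCoatom_stabilizer (Set.singleton_nonempty u)
    · rw [Set.nonempty_compl]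
      intro h
      have h1 : Fintype.card Ω ≤ 1 := by
        rw [Fintype.card_le_one_iff]
        intro a b
        have ha : a ∈ ({u} : Set Ω) := by rw [h]; trivial
        have hb : b ∈ ({u} : Set Ω) := by rw [h]; trivial
        rw [Set.mem_singleton_iff] at ha hb
        rw [ha, hb]
      omega
    · rw [Set.ncard_singleton, hcard]
      omega
  have hR0 : R ≤ stabilizer ↥(alternatingGroup Ω) ({u} : Set Ω) := fun g hg =>
    (mem_stab_alt u g).mpr (hII.1 _ ((hR g).mp hg))
  refine ⟨_, ⟨hM0, hR0⟩, ?_⟩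
  rintro M ⟨hM, hRM⟩
  by_contra hne
  -- some element of `M` moves `u`
  have hex : ∃ m ∈ M, (m : Perm Ω) u ≠ u := by
    by_contra hno
    push Not at hno
    have hle : M ≤ stabilizer ↥(alternatingGroup Ω) ({u} : Set Ω) := fun g hg =>
      (mem_stab_alt u g).mpr (hno g hg)
    rcases eq_or_lt_of_le hle with h | h
    · exact hne h
    · exact hM0.1 (hM.2 _ h)
  -- the image of `M` in the symmetric group
  set M' : Subgroup (Perm Ω) := M.map (alternatingGroup Ω).subtype with hM'
  have hex' : ∃ m ∈ M', m u ≠ u := by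
    obtain ⟨m, hm, hmu⟩ := hex
    exact ⟨(m : Perm Ω), ⟨m, hm, rfl⟩, hmu⟩
  -- even elements of `Q` lie in `M'`
  have heven : ∀ g ∈ Q, Perm.sign g = 1 → g ∈ M' := by
    intro g hg hs
    have hgA : g ∈ alternatingGroup Ω := Perm.mem_alternatingGroup.mpr hs
    exact ⟨⟨g, hgA⟩, hRM ((hR ⟨g, hgA⟩).mpr hg), rfl⟩
  -- `ι` fixes `u` only
  have hιu : ι u = u := by
    by_contra h
    have h1 := hι.swap_mem u h
    have h2 := hII.1 _ h1
    rw [Equiv.swap_apply_left] at h2
    exact h h2
  have hfix : ∀ x, ι x = x ↔ x = u := by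
    intro x
    constructor
    · intro h
      exact hι.fix_unique x u h hιu
    · rintro rfl
      exact hιu
  have hsw : ∀ p, p ≠ u → swap p (ι p) ∈ Q ∧ Perm.sign (swap p (ι p)) = -1 := by
    intro p hp
    have h1 : ι p ≠ p := fun h => hp ((hfix p).mp h)
    exact ⟨hι.swap_mem p h1, Perm.sign_swap (Ne.symm h1)⟩
  -- transitivity of the stabilizer of `u` in `M'` on the other points
  have htrans : ∀ p q, p ≠ u → q ≠ u → ∃ g ∈ M', g u = u ∧ g p = q := by
    intro p q hp hq
    obtain ⟨g0, hg0, hg0p⟩ := hII.2 p q hp hq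
    rcases Int.units_eq_one_or (Perm.sign g0) with hs | hs
    · exact ⟨g0, heven g0 hg0 hs, hII.1 g0 hg0, hg0p⟩
    · obtain ⟨r, hr⟩ := exists_notMem_finset ({u, q, ι q} : Finset Ω)
        (lt_of_le_of_lt Finset.card_le_three (by omega))
      simp only [Finset.mem_insert, Finset.mem_singleton, not_or] at hr
      obtain ⟨hru, hrq, hrιq⟩ := hr
      obtain ⟨hsQ, hss⟩ := hsw r hru
      have hιr_u : ι r ≠ u := by
        intro h
        apply hru
        have := hι.invol r
        rw [h, hιu] at this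
        exact this.symm
      have hιr_q : ι r ≠ q := by
        intro h
        apply hrιq
        have := hι.invol r
        rw [h] at this
        exact this.symm
      refine ⟨swap r (ι r) * g0, heven _ (Q.mul_mem hsQ hg0) ?_, ?_, ?_⟩
      · rw [Perm.sign_mul, hss, hs]
        rfl
      · rw [Perm.mul_apply, hII.1 g0 hg0]
        exact Equiv.swap_apply_of_ne_of_ne (Ne.symm hru) (Ne.symm hιr_u)
      · rw [Perm.mul_apply, hg0p]
        exact Equiv.swap_apply_of_ne_of_ne (Ne.symm hrq) (Ne.symm hιr_q)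
  have hTC : TwoTransC M' := hTT Ω M' u htrans hex'
  have hprim : IsPreprimitive M' Ω := hPrim Ω M' hTC (by omega)
  -- a 3-cycle in `M'`
  obtain ⟨g, hgM', hg3⟩ := hTCI Ω M' ι u hι.invol hfix h9 (by
    intro p q hp hq _ _
    obtain ⟨h1, h2⟩ := hsw p hp
    obtain ⟨h3, h4⟩ := hsw q hq
    apply heven _ (Q.mul_mem h1 h3)
    rw [Perm.sign_mul, h2, h4]
    rfl) hex'
  have hle : alternatingGroup Ω ≤ M' :=
    Equiv.Perm.alternatingGroup_le_of_isPreprimitive_of_isThreeCycle_mem hprim hg3 hgM'
  apply hM.1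
  rw [eq_top_iff]
  intro x _
  obtain ⟨y, hy, hyx⟩ := hle x.2
  have : y = x := Subtype.ext hyx
  rw [← this]
  exact hy

end Cfsg.Agent.Lib.Helper63.MaxAUB
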