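import Mathlib
import Cfsg.Agent.Lib.Lead.MaxStmt

/-!
# Piece [SU] of S2245: case II gives a unique maximal subgroup of the symmetric group
-/

set_option autoImplicit false

namespace Cfsg.Agent.Lib.Helper63.MaxSU

open Equiv MulAction Cfsg.Agent.Lib.Lead.MaxStmt Cfsg.Agent.Lib.Lead.SylTwoSym
open scoped Pointwise

/-- membership in the stabilizer of a singleton -/
theorem mem_stab_singleton {Ω : Type} [DecidableEq Ω] (u : Ω) (g : Perm Ω) :
    g ∈ stabilizer (Perm Ω) ({u} : Set Ω) ↔ g u = u := by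
  rw [mem_stabilizer_iff, Set.smul_set_singleton]
  constructor
  · intro h
    have : g • u ∈ ({u} : Set Ω) := by rw [← h]; exact Set.mem_singleton _
    simpa using this
  · intro h
    rw [Perm.smul_def, h]

/-- a subgroup of `Perm Ω` containing one transposition and 2-transitive is everything -/
theorem eq_top_of_twoTrans_swap {Ω : Type} [DecidableEq Ω] [Fintype Ω] (M : Subgroup (Perm Ω))
    (hM : TwoTransC M) (p q : Ω) (hpq : p ≠ q) (hsw : swap p q ∈ M) : M = ⊤ := by
  rw [eq_top_iff, ← Equiv.Perm.closure_isSwap, Subgroup.closure_le]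
  rintro σ ⟨a, b, hab, rfl⟩
  obtain ⟨g, hg, hga, hgb⟩ := hM p q a b hpq hab
  have h1 : g * swap p q * g⁻¹ ∈ M := M.mul_mem (M.mul_mem hg hsw) (M.inv_mem hg)
  have h2 : g * swap p q * g⁻¹ = swap a b := by
    rw [← Equiv.swap_apply_apply, hga, hgb]
  rw [← h2]
  exact h1

theorem main : Cfsg.Agent.Lib.Lead.MaxStmt.SymUnique := by
  intro hTT Ω _ _ Q ι u hι hII h5
  have hcard : Nat.card Ω = Fintype.card Ω := Nat.card_eq_fintype_card
  -- the stabilizer of `u`
  have hM0 : IsCoatom (stabilizer (Perm Ω) ({u} : Set Ω)) := by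
    apply Equiv.Perm.isCoatom_stabilizer (Set.singleton_nonempty u)
    · rw [Set.nonempty_compl]
      intro h
      have h1 : Fintype.card Ω ≤ 1 := by
        rw [Fintype.card_le_one_iff]
        intro a b
        have ha : a ∈ ({u} : Set Ω) := by rw [h]; trivial
        have hb : b ∈ ({u} : Set Ω) := by rw [h]; trivial
        rw [Set.mem_singleton_iff] at ha hb
        rw [ha, hb]
      omega
    · rw [Set.ncard_singleton, hcard]
      omega
  have hQ0 : Q ≤ stabilizer (Perm Ω) ({u} : Set Ω) := fun g hg =>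
    (mem_stab_singleton u g).mpr (hII.1 g hg)
  refine ⟨_, ⟨hM0, hQ0⟩, ?_⟩
  rintro M ⟨hM, hQM⟩
  by_contra hne
  -- some element of `M` moves `u`
  have hex : ∃ m ∈ M, m u ≠ u := by
    by_contra hno
    push Not at hno
    have hle : M ≤ stabilizer (Perm Ω) ({u} : Set Ω) := fun g hg =>
      (mem_stab_singleton u g).mpr (hno g hg)
    rcases eq_or_lt_of_le hle with h | h
    · exact hne h
    · exact hM0.1 (hM.2 _ h)
  have hTC : TwoTransC M := by
    apply hTT Ω M u _ hex
    intro p q hp hq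
    obtain ⟨g, hg, hgp⟩ := hII.2 p q hp hq
    exact ⟨g, hQM hg, hII.1 g hg, hgp⟩
  -- `ι` fixes `u`
  have hιu : ι u = u := by
    by_contra h
    have h1 := hι.swap_mem u h
    have h2 := hII.1 _ h1
    rw [Equiv.swap_apply_left] at h2
    exact h h2
  -- a point different from `u`
  obtain ⟨p, hp⟩ : ∃ p : Ω, p ≠ u := by
    have : 1 < Fintype.card Ω := by omega
    exact Fintype.exists_ne_of_one_lt_card this u
  have hιp : ι p ≠ p := fun h => hp (hι.fix_unique p u h hιu)
  have hsw : swap p (ι p) ∈ M := hQM (hι.swap_mem p hιp)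
  exact hM.1 (eq_top_of_twoTrans_swap M hTC p (ι p) (Ne.symm hιp) hsw)

end Cfsg.Agent.Lib.Helper63.MaxSU
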