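import Mathlib
import Cfsg.Agent.Lib.Helper75.OTStmt
import Cfsg.Agent.Lib.Helper75.BlockRed

/-!
helper63: piece `BRD` of S4889 (for helper75): the centre of the reduced block `ē F[G]` has
dimension at least the number of characters of the block.  Proof: the centre of `F[G]` has
dimension at least the class number `= |Irr G|`, it is the sum of the centres of `ē F[G]` and
`(1 - ē) F[G]`, and the latter has dimension at most `|Bᶜ|`.
-/

set_option autoImplicit false
set_option linter.style.haveILetI false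
set_option linter.unusedSectionVars false

namespace Cfsg.Agent.Lib.Helper63.OtBRD

open Cfsg Module Cfsg.Agent.Lib.Helper77.LocalRing Cfsg.Agent.Lib.Helper77.CentralChar
  Cfsg.Agent.Lib.Helper77.ClassSum Cfsg.Agent.Lib.Helper77.BlockIdem
  Cfsg.Agent.Lib.Helper75.GrpAlg
  Cfsg.Agent.Lib.Helper75.TwoChar Cfsg.Agent.Lib.Helper75.BlockAlg
  Cfsg.Agent.Lib.Helper75.BlockRed
open scoped ComplexConjugate

universe u

theorem main : Cfsg.Agent.Lib.Helper75.OTStmt.BRD.{u} := by
  intro G _ _ M hMp F _ q hqs B ê hê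
  classical
  letI : Fintype G := Fintype.ofFinite G
  haveI := Cfsg.Agent.Lib.CT.Wedderburn.finite_irrCharacter G
  haveI : Module.Finite F (MonoidAlgebra F G) :=
    Module.Finite.equiv (MonoidAlgebra.coeffLinearEquiv (R := F) (S := F) (M := G)).symm
  have hinj := incl_injective (G := G) hMp
  have hec : blockIdem B ∈ Zc G := blockIdem_mem_center B
  have h1 : ê * ê = ê :=
    hinj (by rw [map_mul, hê, Cfsg.Agent.Lib.Helper17.BrBridge.blockIdem_mul_self])
  have h4 : ∀ g : G, ê * MonoidAlgebra.single g 1 = MonoidAlgebra.single g 1 * ê := by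
    intro g
    apply hinj
    rw [map_mul, map_mul, hê, incl_single_one]
    exact ((Subalgebra.mem_center_iff.1 hec) _).symm
  obtain ⟨ē, hēdef⟩ : ∃ ē, ē = MonoidAlgebra.mapRingHom G q ê := ⟨_, rfl⟩
  have hē : ē * ē = ē := by rw [hēdef, ← map_mul, h1]
  have hēc : ∀ x, ē * x = x * ē :=
    central_of_comm_single ē fun g => by
      rw [hēdef, ← mapRingHom_single_one q g, ← map_mul, h4 g, map_mul]
  -- the complementary idempotent
  have hê' : incl hMp (1 - ê) = blockIdem Bᶜ := by
    rw [map_sub, map_one, hê, Cfsg.Agent.Lib.CT.PrincipalSection.blockIdem_compl]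
  have h5 := finrank_centE_le hMp q hqs Bᶜ (1 - ê) hê'
  have h5' : MonoidAlgebra.mapRingHom G q (1 - ê) = 1 - ē := by
    rw [map_sub, map_one, hēdef]
  rw [h5'] at h5
  rw [← hēdef]
  -- the centre is the sum of the two parts
  have hle : centE F (1 : MonoidAlgebra F G) ≤ centE F ē ⊔ centE F (1 - ē) := by
    intro w hw
    obtain ⟨hwc, _⟩ := hw
    have hsplit : w = ē * w + (1 - ē) * w := by
      rw [sub_mul, one_mul]; abel
    rw [hsplit]
    apply Submodule.add_mem_sup
    · refine ⟨fun x => ?_, ?_⟩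
      · rw [mul_assoc, hwc x, ← mul_assoc, hēc x, mul_assoc]
      · rw [← mul_assoc, hē]
    · refine ⟨fun x => ?_, ?_⟩
      · have hc' : ∀ y, (1 - ē) * y = y * (1 - ē) := by
          intro y
          rw [sub_mul, mul_sub, one_mul, mul_one, hēc y]
        rw [mul_assoc, hwc x, ← mul_assoc, hc' x, mul_assoc]
      · have hidem : (1 - ē) * (1 - ē) = 1 - ē := by
          rw [sub_mul, one_mul, mul_sub, mul_one, hē, sub_self, sub_zero]
        rw [← mul_assoc, hidem]
  have h6 : Module.finrank F ↥(centE F (1 : MonoidAlgebra F G)) ≤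
      Module.finrank F ↥(centE F ē ⊔ centE F (1 - ē)) := Submodule.finrank_mono hle
  have h7 : Module.finrank F ↥(centE F ē ⊔ centE F (1 - ē)) ≤
      Module.finrank F ↥(centE F ē) + Module.finrank F ↥(centE F (1 - ē)) :=
    Submodule.finrank_add_le_finrank_add_finrank _ _
  have h8 : Nat.card (ConjClasses G) ≤ Module.finrank F ↥(centE F (1 : MonoidAlgebra F G)) :=
    card_conjClasses_le
  have h9 : Nat.card (IrrCharacter G) = Nat.card (ConjClasses G) :=
    Cfsg.Agent.Lib.CT.Orth.card_irrCharacter
  have h10 : Nat.card B + Nat.card ↥Bᶜ = Nat.card (IrrCharacter G) := by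
    rw [Nat.card_coe_set_eq, Nat.card_coe_set_eq]
    exact Set.ncard_add_ncard_compl B
  omega

end Cfsg.Agent.Lib.Helper63.OtBRD
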