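import Mathlib
import Cfsg.Agent.Lib.Helper67.ClassSize

/-!
# Groups all of whose p-elements are p-central: reduction to simple groups

`HypP p G`: every element of `p`-power order has class size prime to `p`.

`comm_of_normal`: if `N` is a normal subgroup of `G` such that the `p`-subgroups of `N` are
abelian and the `p`-subgroups of `G` are abelian modulo `N`, then under `HypP p G` the Sylow
`p`-subgroups of `G` are abelian.

`simple_of_minimal`: the resulting simplicity statement for a "minimal" group with `HypP` and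
non-abelian Sylow `p`-subgroups.
-/

set_option autoImplicit false

namespace Cfsg.Agent.Lib.Helper63.PCentral

open scoped Pointwise

set_option linter.unusedSectionVars false

variable {G : Type*} [Group G] {p : ℕ} [Fact p.Prime]

/-- every element of `p`-power order has class size prime to `p` -/
def HypP (p : ℕ) (G : Type*) [Group G] : Prop :=
  ∀ x : G, (∃ k : ℕ, orderOf x = p ^ k) →
    ¬ p ∣ (Subgroup.centralizer ({x} : Set G)).index

theorem isPGroup_zpowers (y : G) (k : ℕ) (hy : y ^ (p ^ k) = 1) :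
    IsPGroup p (Subgroup.zpowers y) := by
  rintro ⟨w, hw⟩
  obtain ⟨j, rfl⟩ := Subgroup.mem_zpowers_iff.mp hw
  refine ⟨k, Subtype.ext ?_⟩
  simp only [Subgroup.coe_pow, Subgroup.coe_one]
  rw [← zpow_natCast, ← zpow_mul, mul_comm, zpow_mul, zpow_natCast, hy, one_zpow]

theorem isP_of_isPGroup {Q : Subgroup G} (hQ : IsPGroup p Q) {x : G} (hx : x ∈ Q) :
    ∃ k : ℕ, orderOf x = p ^ k := by
  obtain ⟨k, hk⟩ := hQ ⟨x, hx⟩
  have hk' : x ^ (p ^ k) = 1 := by simpa using congrArg Subtype.val hk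
  obtain ⟨j, _, hj⟩ := (Nat.dvd_prime_pow Fact.out).mp (orderOf_dvd_of_pow_eq_one hk')
  exact ⟨j, hj⟩

theorem mem_smul_iff {P : Sylow p G} {c y : G} : y ∈ c • P ↔ c⁻¹ * y * c ∈ P := by
  constructor
  · intro h
    have h1 : y ∈ MulAut.conj c • (P : Subgroup G) := h
    rw [Subgroup.mem_pointwise_smul_iff_inv_smul_mem] at h1
    have h2 : c⁻¹ * y * c ∈ (P : Subgroup G) := by simpa [MulAut.smul_def] using h1
    exact h2
  · intro h
    have h1 : y ∈ MulAut.conj c • (P : Subgroup G) := by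
      rw [Subgroup.mem_pointwise_smul_iff_inv_smul_mem]
      have h2 : c⁻¹ * y * c ∈ (P : Subgroup G) := h
      simpa [MulAut.smul_def] using h2
    exact h1

theorem comm_of_le_centralizer {Q : Subgroup G} {x : G}
    (hQ : Q ≤ Subgroup.centralizer ({x} : Set G)) {q : G} (hq : q ∈ Q) : x * q = q * x := by
  have := hQ hq
  rw [Subgroup.mem_centralizer_iff] at this
  exact this x rfl

theorem mem_centralizer_singleton {x g : G} (h : x * g = g * x) :
    g ∈ Subgroup.centralizer ({x} : Set G) := by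
  rw [Subgroup.mem_centralizer_iff]
  intro y hy
  rw [Set.mem_singleton_iff] at hy
  rw [hy]; exact h

/-- a `p`-element normalizing a Sylow `p`-subgroup lies in it -/
theorem mem_of_mem_normalizer (Q : Sylow p G) {u : G} (k : ℕ) (hu : u ^ (p ^ k) = 1)
    (hn : u ∈ Subgroup.normalizer ((Q : Subgroup G) : Set G)) : u ∈ Q := by
  have hz : IsPGroup p (Subgroup.zpowers u) := isPGroup_zpowers u k hu
  have hsup : IsPGroup p ((Q : Subgroup G) ⊔ Subgroup.zpowers u : Subgroup G) :=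
    IsPGroup.to_sup_of_normal_left' Q.isPGroup' hz (Subgroup.zpowers_le.mpr hn)
  have h1 := Q.is_maximal' hsup le_sup_left
  have h2 : u ∈ (Q : Subgroup G) ⊔ Subgroup.zpowers u :=
    (le_sup_right : Subgroup.zpowers u ≤ _) (Subgroup.mem_zpowers u)
  rw [h1] at h2
  exact h2

/-- a `p`-element centralized by a Sylow `p`-subgroup lies in it -/
theorem mem_of_le_centralizer (Q : Sylow p G) {x : G} (hx : ∃ k : ℕ, orderOf x = p ^ k)
    (hQ : (Q : Subgroup G) ≤ Subgroup.centralizer ({x} : Set G)) : x ∈ Q := by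
  obtain ⟨k, hk⟩ := hx
  refine mem_of_mem_normalizer Q k (by rw [← hk]; exact pow_orderOf_eq_one x) ?_
  refine (Subgroup.centralizer_le_normalizer _) ?_
  rw [Subgroup.mem_centralizer_iff]
  intro q hq
  exact (comm_of_le_centralizer hQ hq).symm

/-- a centralizer of index prime to `p` contains a Sylow `p`-subgroup -/
theorem exists_sylow_le [Finite G] {x : G}
    (h : ¬ p ∣ (Subgroup.centralizer ({x} : Set G)).index) :
    ∃ Q : Sylow p G, (Q : Subgroup G) ≤ Subgroup.centralizer ({x} : Set G) := by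
  obtain ⟨P⟩ : Nonempty (Sylow p G) := inferInstance
  have hfix := P.isPGroup'.nonempty_fixed_point_of_prime_not_dvd_card
    (G ⧸ Subgroup.centralizer ({x} : Set G)) h
  obtain ⟨q, hq⟩ := hfix
  induction q using QuotientGroup.induction_on with
  | H g =>
    have key : ∀ y ∈ P, g⁻¹ * y * g ∈ Subgroup.centralizer ({x} : Set G) := by
      intro y hy
      have h1 := hq ⟨y⁻¹, P.1.inv_mem hy⟩
      have h2 : ((y⁻¹ * g : G) : G ⧸ Subgroup.centralizer ({x} : Set G)) = (g : G ⧸ _) := h1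
      rw [QuotientGroup.eq] at h2
      have e : (y⁻¹ * g)⁻¹ * g = g⁻¹ * y * g := by group
      rw [e] at h2
      exact h2
    refine ⟨g⁻¹ • P, ?_⟩
    intro y hy
    have h1 := mem_smul_iff.mp hy
    have h2 := key _ h1
    have e : g⁻¹ * (g⁻¹⁻¹ * y * g⁻¹) * g = y := by group
    rw [e] at h2
    exact h2

/-- a `p`-subgroup of a centralizer of index prime to `p` lies in a Sylow `p`-subgroup of `G`
contained in that centralizer -/
theorem exists_sylow_ge [Finite G] {x : G}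
    (h : ¬ p ∣ (Subgroup.centralizer ({x} : Set G)).index) (A : Subgroup G)
    (hA : IsPGroup p A) (hAC : A ≤ Subgroup.centralizer ({x} : Set G)) :
    ∃ S : Sylow p G, A ≤ (S : Subgroup G) ∧
      (S : Subgroup G) ≤ Subgroup.centralizer ({x} : Set G) := by
  obtain ⟨T₀, hT₀⟩ := exists_sylow_le h
  obtain ⟨R, hR⟩ := (hA.comap_subtype (K := Subgroup.centralizer ({x} : Set G))).exists_le_sylow
  obtain ⟨c, hc⟩ := MulAction.exists_smul_eq (Subgroup.centralizer ({x} : Set G))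
    (T₀.subtype hT₀) R
  have key : ∀ a ∈ A, (c : G)⁻¹ * a * (c : G) ∈ T₀ := by
    intro a ha
    have h1 : (⟨a, hAC ha⟩ : Subgroup.centralizer ({x} : Set G)) ∈ R := hR ha
    rw [← hc] at h1
    have h2 := mem_smul_iff.mp h1
    have this : _ ∈ (T₀ : Subgroup G).subgroupOf _ := h2
    rw [Subgroup.mem_subgroupOf] at this
    have this' : (c : G)⁻¹ * a * (c : G) ∈ (T₀ : Subgroup G) := by simpa using this
    exact this'
  refine ⟨(c : G) • T₀, ?_, ?_⟩
  · intro a ha
    exact mem_smul_iff.mpr (key a ha)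
  · intro y hy
    have h1 := hT₀ (mem_smul_iff.mp hy)
    have h2 := (Subgroup.centralizer ({x} : Set G)).mul_mem
      ((Subgroup.centralizer ({x} : Set G)).mul_mem c.2 h1)
      ((Subgroup.centralizer ({x} : Set G)).inv_mem c.2)
    have e : (c : G) * ((c : G)⁻¹ * y * (c : G)) * (c : G)⁻¹ = y := by group
    rw [e] at h2
    exact h2

/-- a `p`-subgroup `R` of `M` is `M`-conjugate into any subgroup `C ≤ M` of index prime to `p` -/
theorem exists_conj_le [Finite G] (R C M : Subgroup G) (hR : IsPGroup p R) (hRM : R ≤ M)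
    (hCM : C ≤ M) (hidx : ¬ p ∣ C.index) : ∃ m ∈ M, ∀ r ∈ R, m⁻¹ * r * m ∈ C := by
  have hcard : ¬ p ∣ Nat.card (M ⧸ C.subgroupOf M) := by
    intro hdvd
    exact hidx (dvd_trans hdvd (Dvd.intro _ (Subgroup.relIndex_mul_index hCM)))
  obtain ⟨q, hq⟩ := (hR.comap_subtype (K := M)).nonempty_fixed_point_of_prime_not_dvd_card
    (M ⧸ C.subgroupOf M) hcard
  induction q using QuotientGroup.induction_on with
  | H m =>
    refine ⟨m, m.2, ?_⟩
    intro r hr
    have hr' := R.inv_mem hr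
    have h3 := hq ⟨⟨r⁻¹, hRM hr'⟩, Subgroup.mem_subgroupOf.mpr hr'⟩
    have h4 : (((⟨r⁻¹, hRM hr'⟩ : M) * m : M) : M ⧸ C.subgroupOf M) =
        (m : M ⧸ C.subgroupOf M) := h3
    rw [QuotientGroup.eq, Subgroup.mem_subgroupOf] at h4
    have e : ((((⟨r⁻¹, hRM hr'⟩ : M) * m)⁻¹ * m : M) : G) = (m : G)⁻¹ * r * (m : G) := by
      simp
    rw [e] at h4
    exact h4

/-- (a): under the hypotheses, `S ∩ N` is central in every Sylow `p`-subgroup `S` -/
theorem central_of_normal [Finite G] (hH : HypP p G) (N : Subgroup G) [hN : N.Normal]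
    (h1 : ∀ R : Subgroup G, IsPGroup p R → ∀ a ∈ R, a ∈ N → ∀ b ∈ R, b ∈ N → a * b = b * a)
    (S : Sylow p G) {x t : G} (hx : x ∈ S) (ht : t ∈ S) (htN : t ∈ N) : x * t = t * x := by
  have hxp := isP_of_isPGroup S.isPGroup' hx
  have hidx := hH x hxp
  have hxC : x ∈ Subgroup.centralizer ({x} : Set G) := mem_centralizer_singleton rfl
  have hRS : Subgroup.zpowers x ⊔ Subgroup.zpowers t ≤ (S : Subgroup G) :=
    sup_le (Subgroup.zpowers_le.mpr hx) (Subgroup.zpowers_le.mpr ht)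
  have hR : IsPGroup p (Subgroup.zpowers x ⊔ Subgroup.zpowers t : Subgroup G) :=
    S.isPGroup'.to_le hRS
  have hRM : Subgroup.zpowers x ⊔ Subgroup.zpowers t ≤
      N ⊔ Subgroup.centralizer ({x} : Set G) :=
    sup_le (Subgroup.zpowers_le.mpr ((le_sup_right : _ ≤ N ⊔ _) hxC))
      (Subgroup.zpowers_le.mpr ((le_sup_left : N ≤ N ⊔ _) htN))
  obtain ⟨m, hmM, key⟩ := exists_conj_le _ _ _ hR hRM le_sup_right hidx
  · obtain ⟨n, hn, c, hc, hnc⟩ := Subgroup.mem_sup_of_normal_left.mp hmM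
    have key' : ∀ r ∈ Subgroup.zpowers x ⊔ Subgroup.zpowers t,
        n⁻¹ * r * n ∈ Subgroup.centralizer ({x} : Set G) := by
      intro r hr
      have h3 := key r hr
      rw [← hnc] at h3
      have h4 := (Subgroup.centralizer ({x} : Set G)).mul_mem
        ((Subgroup.centralizer ({x} : Set G)).mul_mem hc h3)
        ((Subgroup.centralizer ({x} : Set G)).inv_mem hc)
      have e : c * ((n * c)⁻¹ * r * (n * c)) * c⁻¹ = n⁻¹ * r * n := by group
      rw [e] at h4
      exact h4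
    have hxR : x ∈ Subgroup.zpowers x ⊔ Subgroup.zpowers t :=
      (le_sup_left : Subgroup.zpowers x ≤ _) (Subgroup.mem_zpowers x)
    have htR : t ∈ Subgroup.zpowers x ⊔ Subgroup.zpowers t :=
      (le_sup_right : Subgroup.zpowers t ≤ _) (Subgroup.mem_zpowers t)
    -- the p-group generated by the conjugate of R and x
    have hR1 : IsPGroup p ((Subgroup.zpowers x ⊔ Subgroup.zpowers t).map
        (MulAut.conj n⁻¹).toMonoidHom) := hR.map _
    obtain ⟨k, hk⟩ := hxp
    have hz : IsPGroup p (Subgroup.zpowers x) :=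
      isPGroup_zpowers x k (by rw [← hk]; exact pow_orderOf_eq_one x)
    have hmem : ∀ r ∈ Subgroup.zpowers x ⊔ Subgroup.zpowers t,
        n⁻¹ * r * n ∈ (Subgroup.zpowers x ⊔ Subgroup.zpowers t).map
          (MulAut.conj n⁻¹).toMonoidHom := by
      intro r hr
      exact ⟨r, hr, by simp⟩
    have hnorm : Subgroup.zpowers x ≤ Subgroup.normalizer
        (((Subgroup.zpowers x ⊔ Subgroup.zpowers t).map
          (MulAut.conj n⁻¹).toMonoidHom : Subgroup G) : Set G) := by
      refine le_trans ?_ (Subgroup.centralizer_le_normalizer _)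
      rw [Subgroup.zpowers_le, Subgroup.mem_centralizer_iff]
      rintro _ ⟨r, hr, rfl⟩
      have h3 := key' r hr
      rw [Subgroup.mem_centralizer_iff] at h3
      have h4 := h3 x rfl
      simp only [MulEquiv.toMonoidHom_eq_coe, MonoidHom.coe_coe, MulAut.conj_apply, inv_inv]
      exact h4.symm
    have hR2 := IsPGroup.to_sup_of_normal_left' hR1 hz hnorm
    have hx'C := key' x hxR
    have ht'C := key' t htR
    rw [Subgroup.mem_centralizer_iff] at hx'C ht'C
    have e1 : x * (n⁻¹ * x * n) = (n⁻¹ * x * n) * x := hx'C x rfl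
    have e2 : x * (n⁻¹ * t * n) = (n⁻¹ * t * n) * x := ht'C x rfl
    -- c' = x⁻¹ * (n⁻¹ x n) ∈ N
    have hc'N : x⁻¹ * (n⁻¹ * x * n) ∈ N := by
      have h3 : x⁻¹ * n⁻¹ * x⁻¹⁻¹ ∈ N := hN.conj_mem _ (N.inv_mem hn) x⁻¹
      have h4 := N.mul_mem h3 hn
      have e : x⁻¹ * n⁻¹ * x⁻¹⁻¹ * n = x⁻¹ * (n⁻¹ * x * n) := by group
      rw [e] at h4
      exact h4
    have ht'N : n⁻¹ * t * n ∈ N := by
      have h3 := hN.conj_mem _ htN n⁻¹
      simpa using h3
    have hc'R : x⁻¹ * (n⁻¹ * x * n) ∈ ((Subgroup.zpowers x ⊔ Subgroup.zpowers t).map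
        (MulAut.conj n⁻¹).toMonoidHom ⊔ Subgroup.zpowers x : Subgroup G) :=
      Subgroup.mul_mem _
        ((le_sup_right : Subgroup.zpowers x ≤ _) (Subgroup.inv_mem _ (Subgroup.mem_zpowers x)))
        ((le_sup_left : _ ≤ (_ ⊔ Subgroup.zpowers x : Subgroup G)) (hmem x hxR))
    have ht'R : n⁻¹ * t * n ∈ ((Subgroup.zpowers x ⊔ Subgroup.zpowers t).map
        (MulAut.conj n⁻¹).toMonoidHom ⊔ Subgroup.zpowers x : Subgroup G) :=
      (le_sup_left : _ ≤ (_ ⊔ Subgroup.zpowers x : Subgroup G)) (hmem t htR)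
    have e3 := h1 _ hR2 _ hc'R hc'N _ ht'R ht'N
    have e4 : (n⁻¹ * x * n) * (n⁻¹ * t * n) = (n⁻¹ * t * n) * (n⁻¹ * x * n) := by
      calc (n⁻¹ * x * n) * (n⁻¹ * t * n)
          = x * ((x⁻¹ * (n⁻¹ * x * n)) * (n⁻¹ * t * n)) := by group
        _ = x * ((n⁻¹ * t * n) * (x⁻¹ * (n⁻¹ * x * n))) := by rw [e3]
        _ = (x * (n⁻¹ * t * n)) * (x⁻¹ * (n⁻¹ * x * n)) := by group
        _ = ((n⁻¹ * t * n) * x) * (x⁻¹ * (n⁻¹ * x * n)) := by rw [e2]
        _ = (n⁻¹ * t * n) * (n⁻¹ * x * n) := by group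
    calc x * t = n * ((n⁻¹ * x * n) * (n⁻¹ * t * n)) * n⁻¹ := by group
      _ = n * ((n⁻¹ * t * n) * (n⁻¹ * x * n)) * n⁻¹ := by rw [e4]
      _ = t * x := by group

/-- in a finite group, one-sided normalization suffices -/
theorem mem_normalizer_of_conj_mem [Finite G] (g : G) (B : Subgroup G)
    (h : ∀ b ∈ B, g * b * g⁻¹ ∈ B) : g ∈ Subgroup.normalizer (B : Set G) := by
  rw [Subgroup.mem_normalizer_iff]
  intro x
  refine ⟨h x, fun hx => ?_⟩
  let φ : B → B := fun b => ⟨g * b * g⁻¹, h b b.2⟩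
  have hinj : Function.Injective φ := by
    intro b c hbc
    have h1 : g * (b : G) * g⁻¹ = g * (c : G) * g⁻¹ := congrArg Subtype.val hbc
    apply Subtype.ext
    exact mul_left_cancel (mul_right_cancel h1)
  obtain ⟨b, hb⟩ := Finite.surjective_of_injective hinj ⟨g * x * g⁻¹, hx⟩
  have h1 : g * (b : G) * g⁻¹ = g * x * g⁻¹ := congrArg Subtype.val hb
  have h2 : (b : G) = x := mul_left_cancel (mul_right_cancel h1)
  rw [← h2]; exact b.2

/-- main lemma: a normal subgroup with abelian `p`-subgroups and abelian `p`-subgroups in the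
quotient forces abelian Sylow `p`-subgroups under `HypP` -/
theorem comm_of_normal [Finite G] (hH : HypP p G) (N : Subgroup G) [hN : N.Normal]
    (h1 : ∀ R : Subgroup G, IsPGroup p R → ∀ a ∈ R, a ∈ N → ∀ b ∈ R, b ∈ N → a * b = b * a)
    (h2 : ∀ R : Subgroup G, IsPGroup p R → ∀ a ∈ R, ∀ b ∈ R, a⁻¹ * b * a * b⁻¹ ∈ N)
    (P : Sylow p G) : ∀ x ∈ P, ∀ y ∈ P, x * y = y * x := by
  intro x hx y hy
  obtain ⟨z, hz⟩ : ∃ z : G, z = x⁻¹ * y⁻¹ * x * y := ⟨_, rfl⟩
  have hzP : z ∈ P := by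
    rw [hz]
    exact P.1.mul_mem (P.1.mul_mem (P.1.mul_mem (P.1.inv_mem hx) (P.1.inv_mem hy)) hx) hy
  have hzN : z ∈ N := by
    have h3 := h2 P P.isPGroup' x hx y⁻¹ (P.1.inv_mem hy)
    rw [inv_inv] at h3
    rw [hz]; exact h3
  have hconj : y⁻¹ * x * y = x * z := by rw [hz]; group
  have hzx : x * z = z * x := central_of_normal hH N h1 P hx hzP hzN
  have hzy : y * z = z * y := central_of_normal hH N h1 P hy hzP hzN
  have hzy' : y⁻¹ * z * y = z := by
    calc y⁻¹ * z * y = y⁻¹ * (z * y) := by group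
      _ = y⁻¹ * (y * z) := by rw [hzy]
      _ = z := by group
  have hxp := isP_of_isPGroup P.isPGroup' hx
  obtain ⟨S, hAS, hSC⟩ := exists_sylow_ge (hH x hxp)
    (Subgroup.zpowers x ⊔ Subgroup.zpowers z)
    (P.isPGroup'.to_le (sup_le (Subgroup.zpowers_le.mpr hx) (Subgroup.zpowers_le.mpr hzP)))
    (sup_le (Subgroup.zpowers_le.mpr (mem_centralizer_singleton rfl))
      (Subgroup.zpowers_le.mpr (mem_centralizer_singleton hzx)))
  have hxS : x ∈ S := hAS ((le_sup_left : Subgroup.zpowers x ≤ _) (Subgroup.mem_zpowers x))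
  have hzS : z ∈ S := hAS ((le_sup_right : Subgroup.zpowers z ≤ _) (Subgroup.mem_zpowers z))
  have hzc : ∀ s ∈ S, s * z = z * s := fun s hs => central_of_normal hH N h1 S hs hzS hzN
  have hSK : (S : Subgroup G) ≤
      Subgroup.centralizer ({x} : Set G) ⊓ Subgroup.centralizer ({z} : Set G) :=
    fun s hs => Subgroup.mem_inf.mpr ⟨hSC hs, mem_centralizer_singleton (hzc s hs).symm⟩
  have hS'K : ((y⁻¹ • S : Sylow p G) : Subgroup G) ≤
      Subgroup.centralizer ({x} : Set G) ⊓ Subgroup.centralizer ({z} : Set G) := by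
    intro s hs
    have h3 := mem_smul_iff.mp hs
    rw [inv_inv] at h3
    have h4 := comm_of_le_centralizer hSC h3
    have h5 := hzc _ h3
    have h6 : z * s = s * z := by
      calc z * s = (y⁻¹ * z * y) * s := by rw [hzy']
        _ = y⁻¹ * (z * (y * s * y⁻¹)) * y := by group
        _ = y⁻¹ * ((y * s * y⁻¹) * z) * y := by rw [h5]
        _ = s * (y⁻¹ * z * y) := by group
        _ = s * z := by rw [hzy']
    have h7 : (x * s) * z = (s * x) * z := by
      calc (x * s) * z = x * (s * z) := by group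
        _ = x * (z * s) := by rw [h6]
        _ = (x * z) * s := by group
        _ = (y⁻¹ * x * y) * s := by rw [hconj]
        _ = y⁻¹ * (x * (y * s * y⁻¹)) * y := by group
        _ = y⁻¹ * ((y * s * y⁻¹) * x) * y := by rw [h4]
        _ = s * (y⁻¹ * x * y) := by group
        _ = s * (x * z) := by rw [hconj]
        _ = (s * x) * z := by group
    exact Subgroup.mem_inf.mpr ⟨mem_centralizer_singleton (mul_right_cancel h7),
      mem_centralizer_singleton h6⟩
  obtain ⟨c, hc⟩ := MulAction.exists_smul_eq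
    (Subgroup.centralizer ({x} : Set G) ⊓ Subgroup.centralizer ({z} : Set G) : Subgroup G)
    ((y⁻¹ • S : Sylow p G).subtype hS'K) (S.subtype hSK)
  have hcx : x * (c : G) = (c : G) * x :=
    comm_of_le_centralizer (inf_le_left : _ ≤ Subgroup.centralizer ({x} : Set G)) c.2
  have hcz : z * (c : G) = (c : G) * z :=
    comm_of_le_centralizer (inf_le_right : _ ≤ Subgroup.centralizer ({z} : Set G)) c.2
  obtain ⟨n, hn⟩ : ∃ n : G, n = (c : G) * y⁻¹ := ⟨_, rfl⟩
  have hnS : ∀ s ∈ S, n * s * n⁻¹ ∈ S := by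
    intro s hs
    have h3 : y⁻¹ * s * y ∈ (y⁻¹ • S : Sylow p G) := by
      apply mem_smul_iff.mpr
      have e : y⁻¹⁻¹ * (y⁻¹ * s * y) * y⁻¹ = s := by group
      rw [e]; exact hs
    have hmemK := (Subgroup.centralizer ({x} : Set G) ⊓
      Subgroup.centralizer ({z} : Set G) : Subgroup G).mul_mem
      ((Subgroup.centralizer ({x} : Set G) ⊓
        Subgroup.centralizer ({z} : Set G) : Subgroup G).mul_mem c.2 (hS'K h3))
      ((Subgroup.centralizer ({x} : Set G) ⊓
        Subgroup.centralizer ({z} : Set G) : Subgroup G).inv_mem c.2)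
    have h4 : (⟨(c : G) * (y⁻¹ * s * y) * (c : G)⁻¹, hmemK⟩ :
        (Subgroup.centralizer ({x} : Set G) ⊓ Subgroup.centralizer ({z} : Set G) :
          Subgroup G)) ∈ c • ((y⁻¹ • S : Sylow p G).subtype hS'K) := by
      apply mem_smul_iff.mpr
      have h5 : (c⁻¹ * ⟨(c : G) * (y⁻¹ * s * y) * (c : G)⁻¹, hmemK⟩ * c :
          (Subgroup.centralizer ({x} : Set G) ⊓ Subgroup.centralizer ({z} : Set G) :
            Subgroup G)) = ⟨y⁻¹ * s * y, hS'K h3⟩ := by
        apply Subtype.ext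
        simp only [Subgroup.coe_mul, Subgroup.coe_inv]
        group
      rw [h5]
      show (⟨y⁻¹ * s * y, hS'K h3⟩ : (Subgroup.centralizer ({x} : Set G) ⊓
        Subgroup.centralizer ({z} : Set G) : Subgroup G)) ∈
        ((y⁻¹ • S : Sylow p G) : Subgroup G).subgroupOf _
      rw [Subgroup.mem_subgroupOf]
      exact h3
    rw [hc] at h4
    have h5 : (⟨(c : G) * (y⁻¹ * s * y) * (c : G)⁻¹, hmemK⟩ :
        (Subgroup.centralizer ({x} : Set G) ⊓ Subgroup.centralizer ({z} : Set G) :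
          Subgroup G)) ∈ (S : Subgroup G).subgroupOf _ := h4
    rw [Subgroup.mem_subgroupOf] at h5
    have e : n * s * n⁻¹ = (c : G) * (y⁻¹ * s * y) * (c : G)⁻¹ := by rw [hn]; group
    rw [e]; exact h5
  have hnN : n ∈ Subgroup.normalizer ((S : Subgroup G) : Set G) :=
    mem_normalizer_of_conj_mem n _ hnS
  have hnx : n * x * n⁻¹ = x * z := by
    calc n * x * n⁻¹ = (c : G) * (y⁻¹ * x * y) * (c : G)⁻¹ := by rw [hn]; group
      _ = (c : G) * (x * z) * (c : G)⁻¹ := by rw [hconj]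
      _ = ((c : G) * x) * z * (c : G)⁻¹ := by group
      _ = (x * (c : G)) * z * (c : G)⁻¹ := by rw [hcx]
      _ = x * ((c : G) * z) * (c : G)⁻¹ := by group
      _ = x * (z * (c : G)) * (c : G)⁻¹ := by rw [hcz]
      _ = x * z := by group
  have hnz : n * z * n⁻¹ = z := by
    calc n * z * n⁻¹ = (c : G) * (y⁻¹ * z * y) * (c : G)⁻¹ := by rw [hn]; group
      _ = (c : G) * z * (c : G)⁻¹ := by rw [hzy']
      _ = (z * (c : G)) * (c : G)⁻¹ := by rw [hcz]
      _ = z := by group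
  have hpow : ∀ k : ℕ, n ^ k * x * (n ^ k)⁻¹ = x * z ^ k := by
    intro k
    induction k with
    | zero => simp
    | succ k ih =>
      calc n ^ (k + 1) * x * (n ^ (k + 1))⁻¹ = n * (n ^ k * x * (n ^ k)⁻¹) * n⁻¹ := by
            rw [pow_succ']; group
        _ = n * (x * z ^ k) * n⁻¹ := by rw [ih]
        _ = (n * x * n⁻¹) * (n * z ^ k * n⁻¹) := by group
        _ = (n * x * n⁻¹) * (n * z * n⁻¹) ^ k := by rw [conj_pow]
        _ = (x * z) * z ^ k := by rw [hnx, hnz]
        _ = x * z ^ (k + 1) := by rw [pow_succ']; group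
  have hn0 : orderOf n ≠ 0 := (orderOf_pos n).ne'
  obtain ⟨e, m, hm, hem⟩ := Nat.exists_eq_pow_mul_and_not_dvd hn0 p (Fact.out : p.Prime).ne_one
  have hu : n ^ m ∈ S := by
    apply mem_of_mem_normalizer S e
    · rw [← pow_mul, mul_comm, ← hem]; exact pow_orderOf_eq_one _
    · exact Subgroup.pow_mem _ hnN m
  have h7 := comm_of_le_centralizer hSC hu
  have h8 := hpow m
  have h9 : z ^ m = 1 := by
    have h10 : n ^ m * x * (n ^ m)⁻¹ = x := by rw [← h7]; group
    rw [h10] at h8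
    exact mul_eq_left.mp h8.symm
  obtain ⟨j, hj⟩ := isP_of_isPGroup P.isPGroup' hzP
  have h10 : orderOf z ∣ m := orderOf_dvd_of_pow_eq_one h9
  have h11 : z = 1 := by
    rw [hj] at h10
    cases j with
    | zero =>
      rw [pow_zero] at hj
      exact orderOf_eq_one_iff.mp hj
    | succ j => exact absurd (dvd_trans (dvd_pow_self p (Nat.succ_ne_zero j)) h10) hm
  rw [h11, mul_one] at hconj
  calc x * y = y * (y⁻¹ * x * y) := by group
    _ = y * x := by rw [hconj]

theorem h1_of_sylow (N : Subgroup G)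
    (hc : ∀ Q : Sylow p N, ∀ a ∈ Q, ∀ b ∈ Q, a * b = b * a) :
    ∀ R : Subgroup G, IsPGroup p R → ∀ a ∈ R, a ∈ N → ∀ b ∈ R, b ∈ N → a * b = b * a := by
  intro R hR a ha haN b hb hbN
  obtain ⟨Q, hQ⟩ := (hR.comap_subtype (K := N)).exists_le_sylow
  have h3 := hc Q ⟨a, haN⟩ (hQ (Subgroup.mem_subgroupOf.mpr ha)) ⟨b, hbN⟩
    (hQ (Subgroup.mem_subgroupOf.mpr hb))
  exact congrArg Subtype.val h3

theorem h2_of_sylow (N : Subgroup G) [N.Normal]
    (hc : ∀ Q : Sylow p (G ⧸ N), ∀ a ∈ Q, ∀ b ∈ Q, a * b = b * a) :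
    ∀ R : Subgroup G, IsPGroup p R → ∀ a ∈ R, ∀ b ∈ R, a⁻¹ * b * a * b⁻¹ ∈ N := by
  intro R hR a ha b hb
  obtain ⟨Q, hQ⟩ := (hR.map (QuotientGroup.mk' N)).exists_le_sylow
  have h3 : (QuotientGroup.mk a : G ⧸ N) * QuotientGroup.mk b =
      QuotientGroup.mk b * QuotientGroup.mk a :=
    hc Q _ (hQ (Subgroup.mem_map_of_mem _ ha)) _ (hQ (Subgroup.mem_map_of_mem _ hb))
  rw [← QuotientGroup.eq_one_iff]
  simp only [QuotientGroup.mk_mul, QuotientGroup.mk_inv]
  rw [mul_assoc ((QuotientGroup.mk a : G ⧸ N)⁻¹), ← h3]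
  group

/-- a `p`-element of a quotient lifts to a `p`-element -/
theorem exists_p_lift [Finite G] (N : Subgroup G) [N.Normal] (u : G ⧸ N) (k : ℕ)
    (hu : orderOf u = p ^ k) : ∃ x : G, (∃ j : ℕ, orderOf x = p ^ j) ∧ (x : G ⧸ N) = u := by
  obtain ⟨w, rfl⟩ := QuotientGroup.mk_surjective u
  have hw : orderOf w ≠ 0 := (orderOf_pos w).ne'
  obtain ⟨e, m, hm, hem⟩ := Nat.exists_eq_pow_mul_and_not_dvd hw p (Fact.out : p.Prime).ne_one
  have hcop : Nat.Coprime m (orderOf (w : G ⧸ N)) := by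
    rw [hu]
    exact Nat.Coprime.pow_right _
      (Nat.coprime_comm.mp ((Nat.Prime.coprime_iff_not_dvd Fact.out).mpr hm))
  obtain ⟨b, hb⟩ := exists_pow_eq_self_of_coprime hcop
  refine ⟨(w ^ m) ^ b, ?_, ?_⟩
  · have h0 : m * (b * p ^ e) = orderOf w * b := by rw [hem]; ring
    have h1 : ((w ^ m) ^ b) ^ (p ^ e) = 1 := by
      rw [← pow_mul, ← pow_mul, h0, pow_mul, pow_orderOf_eq_one, one_pow]
    obtain ⟨j, _, hj⟩ := (Nat.dvd_prime_pow Fact.out).mp (orderOf_dvd_of_pow_eq_one h1)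
    exact ⟨j, hj⟩
  · rw [QuotientGroup.mk_pow, QuotientGroup.mk_pow]
    exact hb

/-- a group with `HypP` and non-abelian Sylow `p`-subgroups, minimal with respect to normal
subgroups and quotients, is simple -/
theorem simple_of_minimal [Finite G]
    (h : (∃ P : Sylow p G, ¬ IsMulCommutative P) ∧ HypP p G)
    (hmin : ∀ (N : Subgroup G) [N.Normal], N ≠ ⊥ → N ≠ ⊤ →
      ¬ ((∃ P : Sylow p N, ¬ IsMulCommutative P) ∧ HypP p N) ∧
      ¬ ((∃ P : Sylow p (G ⧸ N), ¬ IsMulCommutative P) ∧ HypP p (G ⧸ N))) :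
    IsSimpleGroup G := by
  obtain ⟨⟨P, hP⟩, hH⟩ := h
  have hnt : Nontrivial G := by
    by_contra hnt
    rw [not_nontrivial_iff_subsingleton] at hnt
    exact hP ⟨⟨fun a b => Subsingleton.elim _ _⟩⟩
  refine { toNontrivial := hnt, eq_bot_or_eq_top_of_normal := fun N hN => ?_ }
  by_contra hne
  rw [not_or] at hne
  obtain ⟨hb, ht⟩ := hne
  obtain ⟨hmN, hmQ⟩ := @hmin N hN hb ht
  apply hP
  have hHN : HypP p N := by
    intro x hx
    have h3 := hH (x : G) (by
      obtain ⟨k, hk⟩ := hx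
      exact ⟨k, by rw [Subgroup.orderOf_coe]; exact hk⟩)
    exact fun hd => h3 (dvd_trans hd
      (Cfsg.Agent.Lib.Helper67.ClassSize.index_centralizer_subgroup_dvd N x))
  have hHQ : HypP p (G ⧸ N) := by
    intro u hu
    obtain ⟨k, hk⟩ := hu
    obtain ⟨x, hx, rfl⟩ := exists_p_lift N u k hk
    exact fun hd => hH x hx (dvd_trans hd
      (Cfsg.Agent.Lib.Helper67.ClassSize.index_centralizer_quotient_dvd N x))
  have hcN : ∀ Q : Sylow p N, ∀ a ∈ Q, ∀ b ∈ Q, a * b = b * a := by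
    intro Q a ha b hb
    by_contra hab
    exact hmN ⟨⟨Q, fun hcomm => hab (congrArg Subtype.val
      (hcomm.is_comm.comm ⟨a, ha⟩ ⟨b, hb⟩))⟩, hHN⟩
  have hcQ : ∀ Q : Sylow p (G ⧸ N), ∀ a ∈ Q, ∀ b ∈ Q, a * b = b * a := by
    intro Q a ha b hb
    by_contra hab
    exact hmQ ⟨⟨Q, fun hcomm => hab (congrArg Subtype.val
      (hcomm.is_comm.comm ⟨a, ha⟩ ⟨b, hb⟩))⟩, hHQ⟩
  have key := comm_of_normal hH N (h1_of_sylow N hcN) (h2_of_sylow N hcQ) P
  exact ⟨⟨fun a b => Subtype.ext (key a.1 a.2 b.1 b.2)⟩⟩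

end Cfsg.Agent.Lib.Helper63.PCentral
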