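import Mathlib
import Cfsg.Agent.Lib.Helper70.PNilp
import Cfsg.Agent.Lib.Helper67.ClassSize
import Cfsg.Agent.Lib.Helper34.PComplement
import Cfsg.Agent.Lib.Helper69.PNil
import Cfsg.Agent.Lib.Helper69.PElem
import Cfsg.Agent.Lib.Helper9.SS4

/-!
Cossey–Wang type criterion (helper63): if `p` is the least prime divisor of `|G|` and no class
size of `G` is divisible by `p²`, then `G` has a normal `p`-complement.
-/

set_option autoImplicit false

namespace Cfsg.Agent.Lib.Helper63.SFNilp

open Subgroup
open Cfsg.Agent.Lib.Helper70.PNilp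

variable {G : Type*} [Group G]

/-- `CS p G`: no class size of `G` is divisible by `p²`. -/
def CS (p : ℕ) (G : Type*) [Group G] : Prop :=
  ∀ x : G, ¬ p ^ 2 ∣ (centralizer ({x} : Set G)).index

/-- In a `p`-group `Q`, a subgroup `T` of index at most `p` contains all commutators. -/
theorem commutator_mem_of_card_dvd [Finite G] {p : ℕ} [hp : Fact p.Prime] (Q T : Subgroup G)
    (hQ : IsPGroup p Q) (hTQ : T ≤ Q) (hcard : Nat.card Q ∣ p * Nat.card T) :
    ∀ a ∈ Q, ∀ b ∈ Q, a * b * a⁻¹ * b⁻¹ ∈ T := by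
  have h0 := Cfsg.Agent.Lib.Helper67.ClassSize.card_eq_card_mul_relIndex hTQ
  have h1 : T.relIndex Q ∣ p := by
    rw [← h0, mul_comm p] at hcard
    exact Nat.dvd_of_mul_dvd_mul_left Nat.card_pos hcard
  rcases (Nat.dvd_prime hp.out).1 h1 with h2 | h2
  · intro a ha b hb
    have : Q ≤ T := relIndex_eq_one.1 h2
    exact this (Q.mul_mem (Q.mul_mem (Q.mul_mem ha hb) (Q.inv_mem ha)) (Q.inv_mem hb))
  · have hQcard : (Nat.card Q).minFac = p := by
      obtain ⟨k, hk⟩ := IsPGroup.iff_card.1 hQ
      have hk0 : k ≠ 0 := by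
        rintro rfl
        rw [pow_zero] at hk
        rw [hk] at h0
        have : T.relIndex Q = 1 := Nat.eq_one_of_mul_eq_one_left h0
        rw [this] at h2
        exact hp.out.one_lt.ne h2
      rw [hk]
      exact hp.out.pow_minFac hk0
    have hidx : (T.subgroupOf Q).index = (Nat.card Q).minFac := by
      rw [hQcard]; exact h2
    have : (T.subgroupOf Q).Normal := normal_of_index_eq_minFac_card hidx
    have hc : Nat.card (Q ⧸ T.subgroupOf Q) = p := by
      rw [← index_eq_card]; exact h2
    have : IsCyclic (Q ⧸ T.subgroupOf Q) := isCyclic_of_prime_card hc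
    intro a ha b hb
    have h3 : ((⟨a, ha⟩ * ⟨b, hb⟩ * (⟨a, ha⟩ : Q)⁻¹ * (⟨b, hb⟩ : Q)⁻¹ : Q) : Q ⧸ T.subgroupOf Q)
        = 1 := by
      have hcomm : ∀ u v : Q ⧸ T.subgroupOf Q, u * v = v * u := fun u v =>
        (IsCyclic.isMulCommutative (α := Q ⧸ T.subgroupOf Q)).is_comm.comm u v
      simp only [QuotientGroup.mk_mul, QuotientGroup.mk_inv]
      rw [hcomm ((⟨a, ha⟩ : Q) : Q ⧸ T.subgroupOf Q)]
      simp
    rw [QuotientGroup.eq_one_iff, mem_subgroupOf] at h3
    simpa using h3

/-- Every element centralizes a `p`-subgroup of index at most `p` in a Sylow `p`-subgroup, which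
may be chosen to contain a given `p`-subgroup of the centralizer. -/
theorem exists_large_pSubgroup [Finite G] {p : ℕ} [hp : Fact p.Prime] (hcs : CS p G)
    (S : Sylow p G) (x : G) (U : Subgroup G) (hU : IsPGroup p U)
    (hUx : U ≤ centralizer ({x} : Set G)) :
    ∃ T : Subgroup G, IsPGroup p T ∧ U ≤ T ∧ T ≤ centralizer ({x} : Set G) ∧
      Nat.card S ∣ p * Nat.card T := by
  set C := centralizer ({x} : Set G) with hC
  obtain ⟨Q, hQ⟩ := (hU.comap_subtype (K := C)).exists_le_sylow
  refine ⟨(Q : Subgroup C).map C.subtype, Q.2.map _, ?_, ?_, ?_⟩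
  · intro u hu
    exact ⟨⟨u, hUx hu⟩, hQ (mem_subgroupOf.2 hu), rfl⟩
  · exact map_subtype_le _
  · have h1 : Nat.card ((Q : Subgroup C).map C.subtype) = Nat.card Q :=
      card_map_of_injective C.subtype_injective
    rw [h1, Sylow.card_eq_multiplicity, Sylow.card_eq_multiplicity, ← pow_succ']
    apply pow_dvd_pow
    have h2 : Nat.card G = C.index * Nat.card C := (index_mul_card C).symm
    have hi0 : C.index ≠ 0 := index_ne_zero_of_finite
    rw [h2, Nat.factorization_mul hi0 Nat.card_pos.ne']
    have h3 : ¬ 2 ≤ C.index.factorization p := by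
      rw [← hp.out.pow_dvd_iff_le_factorization hi0]
      exact hcs x
    simp only [Finsupp.coe_add, Pi.add_apply]
    omega

/-- Commutators of a Sylow `p`-subgroup are central when no class size is divisible by `p²`. -/
theorem sylow_commutator_mem_center [Finite G] {p : ℕ} [hp : Fact p.Prime] (hcs : CS p G)
    (S : Sylow p G) : ∀ a ∈ S, ∀ b ∈ S, a * b * a⁻¹ * b⁻¹ ∈ center G := by
  set K : Set G := {c | ∃ a ∈ S, ∃ b ∈ S, c = a * b * a⁻¹ * b⁻¹} with hK
  have htop : centralizer K = ⊤ := by
    apply Cfsg.Agent.Lib.Helper69.PNil.eq_top_of_forall_conj_mem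
    intro x
    obtain ⟨T, hT, -, hTx, hTc⟩ := exists_large_pSubgroup hcs S x ⊥ IsPGroup.of_bot bot_le
    obtain ⟨Q, hQ⟩ := hT.exists_le_sylow
    obtain ⟨g, hg⟩ := MulAction.exists_smul_eq G S Q
    refine ⟨g⁻¹, ?_⟩
    rw [mem_centralizer_iff]
    rintro c ⟨a, ha, b, hb, rfl⟩
    have hcardQ : Nat.card Q = Nat.card S := by
      rw [Sylow.card_eq_multiplicity, Sylow.card_eq_multiplicity]
    have ha' : g * a * g⁻¹ ∈ (Q : Subgroup G) := by
      rw [← hg, Cfsg.Agent.Lib.Helper69.PElem.mem_smul_sylow]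
      have : g⁻¹ * (g * a * g⁻¹) * g = a := by group
      rw [this]; exact ha
    have hb' : g * b * g⁻¹ ∈ (Q : Subgroup G) := by
      rw [← hg, Cfsg.Agent.Lib.Helper69.PElem.mem_smul_sylow]
      have : g⁻¹ * (g * b * g⁻¹) * g = b := by group
      rw [this]; exact hb
    have h1 := commutator_mem_of_card_dvd (Q : Subgroup G) T Q.2 hQ (hcardQ ▸ hTc)
      _ ha' _ hb'
    have h2 := hTx h1
    rw [mem_centralizer_iff] at h2
    have h3 := h2 x rfl
    -- h3 : x * (g a g⁻¹ g b g⁻¹ (g a g⁻¹)⁻¹ (g b g⁻¹)⁻¹) = ... * x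
    have h4 : g * a * g⁻¹ * (g * b * g⁻¹) * (g * a * g⁻¹)⁻¹ * (g * b * g⁻¹)⁻¹ =
        g * (a * b * a⁻¹ * b⁻¹) * g⁻¹ := by group
    rw [h4] at h3
    calc a * b * a⁻¹ * b⁻¹ * (g⁻¹ * x * g⁻¹⁻¹)
        = g⁻¹ * (g * (a * b * a⁻¹ * b⁻¹) * g⁻¹ * x) * g := by group
      _ = g⁻¹ * (x * (g * (a * b * a⁻¹ * b⁻¹) * g⁻¹)) * g := by rw [h3]
      _ = g⁻¹ * x * g⁻¹⁻¹ * (a * b * a⁻¹ * b⁻¹) := by group
  intro a ha b hb
  rw [mem_center_iff]
  intro g
  have hg : g ∈ centralizer K := by rw [htop]; exact mem_top g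
  rw [mem_centralizer_iff] at hg
  exact (hg _ ⟨a, ha, b, hb, rfl⟩).symm

/-- If moreover no nontrivial `p`-element is central, the Sylow `p`-subgroups are abelian. -/
theorem sylow_abelian [Finite G] {p : ℕ} [hp : Fact p.Prime] (hcs : CS p G)
    (hZ : ∀ t ∈ center G, ∀ k : ℕ, t ^ p ^ k = 1 → t = 1)
    (S : Sylow p G) : ∀ a ∈ S, ∀ b ∈ S, a * b = b * a := by
  intro a ha b hb
  have h1 := sylow_commutator_mem_center hcs S a ha b hb
  have h2 : a * b * a⁻¹ * b⁻¹ ∈ (S : Subgroup G) :=
    mul_mem (mul_mem (mul_mem ha hb) (inv_mem ha)) (inv_mem hb)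
  obtain ⟨k, hk⟩ := S.2 ⟨_, h2⟩
  have h3 : (a * b * a⁻¹ * b⁻¹) ^ p ^ k = 1 := by
    have := congrArg Subtype.val hk
    simpa using this
  have h4 := hZ _ h1 k h3
  calc a * b = a * b * a⁻¹ * b⁻¹ * (b * a) := by group
    _ = b * a := by rw [h4, one_mul]

/-- Lifting a normal `p`-complement through a central `p`-subgroup. -/
theorem npc_of_central_quotient [Finite G] {p : ℕ} [hp : Fact p.Prime] (Z : Subgroup G)
    [Z.Normal] (hZc : Z ≤ center G) (hZp : IsPGroup p Z) (h : NPC p (G ⧸ Z)) : NPC p G := by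
  obtain ⟨Kb, hKn, hcop, k, hk⟩ := h
  set C := Kb.comap (QuotientGroup.mk' Z) with hC
  have hZC : Z ≤ C := by
    intro z hz
    rw [hC, mem_comap]
    have : (QuotientGroup.mk' Z) z = 1 := (QuotientGroup.eq_one_iff z).mpr hz
    rw [this]; exact one_mem _
  have hcardC : Nat.card C = Nat.card Z * Nat.card Kb :=
    Cfsg.Agent.Lib.Helper9.SS4.card_comap_mk' Z Kb
  have hidx : (Z.subgroupOf C).index = Nat.card Kb := by
    have h0 := Cfsg.Agent.Lib.Helper67.ClassSize.card_eq_card_mul_relIndex hZC
    rw [hcardC] at h0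
    exact Nat.eq_of_mul_eq_mul_left Nat.card_pos h0
  have hnd : ¬ p ∣ (Z.subgroupOf C).index := by
    rw [hidx]
    intro hd
    exact hp.out.one_lt.ne' (Nat.Coprime.eq_one_of_dvd hcop.symm hd)
  let Zs : Sylow p C := (hZp.comap_subtype (K := C)).toSylow hnd
  have h1 : ∀ g : G, (orderOf g).Coprime p → g ∈ C := by
    intro g hg
    rw [hC, mem_comap]
    have := hKn
    rw [NPC_mem_iff Kb hcop hk]
    exact Nat.Coprime.coprime_dvd_left (orderOf_map_dvd _ g) hg
  have hZs : ∀ z ∈ Zs, ∀ c : C, z * c = c * z := by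
    intro z hz c
    have hz' : (z : G) ∈ Z := mem_subgroupOf.1 hz
    have := hZc hz'
    rw [mem_center_iff] at this
    apply Subtype.ext
    simpa using (this (c : G)).symm
  have h2 := Cfsg.Agent.Lib.Helper34.PComplement.exists_normal_complement_of_central_sylow
    C h1 Zs hZs
  obtain ⟨P, K, hKn', hKc⟩ := h2
  exact npc_iff.1 ⟨P, K, hKn', hKc⟩

/-- With abelian Sylow `p`-subgroups, the hypothesis passes to centralizers of `p`-elements. -/
theorem cs_centralizer [Finite G] {p : ℕ} [hp : Fact p.Prime] (hcs : CS p G)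
    (hab : ∀ S : Sylow p G, ∀ a ∈ S, ∀ b ∈ S, a * b = b * a) (t : G)
    (ht : IsPGroup p (zpowers t)) : CS p (centralizer ({t} : Set G)) := by
  intro x hx
  obtain ⟨S⟩ : Nonempty (Sylow p G) := inferInstance
  have hUx : zpowers t ≤ centralizer ({(x : G)} : Set G) := by
    rw [zpowers_le, mem_centralizer_iff]
    intro h hh
    rw [Set.mem_singleton_iff] at hh; subst hh
    have := x.2
    rw [mem_centralizer_iff] at this
    exact (this t rfl).symm
  obtain ⟨T, hT, hUT, hTx, hTc⟩ := exists_large_pSubgroup hcs S (x : G) (zpowers t) ht hUx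
  obtain ⟨Q, hQ⟩ := hT.exists_le_sylow
  have hTL : T ≤ centralizer ({t} : Set G) := by
    intro u hu
    rw [mem_centralizer_iff]
    intro h hh
    rw [Set.mem_singleton_iff] at hh; subst hh
    exact hab Q h (hQ (hUT (mem_zpowers h))) u (hQ hu)
  have h1 : centralizer ({x} : Set (centralizer ({t} : Set G))) =
      (centralizer ({(x : G)} : Set G)).subgroupOf (centralizer ({t} : Set G)) := by
    ext y
    rw [mem_subgroupOf, mem_centralizer_iff, mem_centralizer_iff]
    simp only [Set.mem_singleton_iff, forall_eq]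
    constructor
    · intro h
      have := congrArg Subtype.val h
      simpa using this
    · intro h
      exact Subtype.ext (by simpa using h)
  rw [h1] at hx
  have h2 : Nat.card T ∣ Nat.card ((centralizer ({(x : G)} : Set G)).subgroupOf
      (centralizer ({t} : Set G))) := by
    have e : Nat.card (T.subgroupOf (centralizer ({t} : Set G))) = Nat.card T :=
      Nat.card_congr (subgroupOfEquivOfLe hTL).toEquiv
    rw [← e]
    apply card_dvd_of_le
    intro y hy
    rw [mem_subgroupOf] at hy ⊢
    exact hTx hy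
  have h3 : p ^ 2 * Nat.card T ∣ Nat.card (centralizer ({t} : Set G)) := by
    rw [← index_mul_card ((centralizer ({(x : G)} : Set G)).subgroupOf
      (centralizer ({t} : Set G)))]
    exact mul_dvd_mul hx h2
  have h4 : p ^ 2 * Nat.card T ∣ Nat.card G := h3.trans (card_subgroup_dvd_card _)
  obtain ⟨j, hj⟩ := IsPGroup.iff_card.1 hT
  rw [hj, ← pow_add] at h4
  have h5 := S.pow_dvd_card_of_pow_dvd_card h4
  have h6 := h5.trans hTc
  rw [hj, ← pow_succ'] at h6
  have := (Nat.pow_dvd_pow_iff_le_right hp.out.one_lt).1 h6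
  omega

/-- If `S` is an abelian Sylow `p`-subgroup, `t ∈ S` and the centralizer of `t` has a normal
`p`-complement, then the elements of the normalizer of `S` commuting with `t` centralize `S`. -/
theorem mem_centralizer_of_normalizer_of_npc [Finite G] {p : ℕ} [hp : Fact p.Prime]
    (S : Sylow p G) (hab : ∀ a ∈ S, ∀ b ∈ S, a * b = b * a) (t : G) (ht : t ∈ S)
    (hnpc : NPC p (centralizer ({t} : Set G))) (n : G) (hn : n ∈ normalizer (S : Set G))
    (hnt : n * t = t * n) : n ∈ centralizer (S : Set G) := by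
  set L := centralizer ({t} : Set G) with hL
  obtain ⟨K, hKn, hcop, k, hk⟩ := hnpc
  have hSL : (S : Subgroup G) ≤ L := by
    intro u hu
    rw [hL, mem_centralizer_iff]
    intro h hh
    rw [Set.mem_singleton_iff] at hh; subst hh
    exact hab h ht u hu
  have hnL : n ∈ L := by
    rw [hL, mem_centralizer_iff]
    intro h hh
    rw [Set.mem_singleton_iff] at hh; subst hh
    exact hnt.symm
  have hcardSL : Nat.card ((S : Subgroup G).subgroupOf L) = p ^ k := by
    have : Nat.card ((S : Subgroup G).subgroupOf L) = Nat.card (S.subtype hSL) := rfl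
    rw [this, Sylow.card_eq_multiplicity]
    have hLcard : Nat.card L = Nat.card K * p ^ k := by rw [← hk, card_mul_index]
    rw [hLcard, Nat.factorization_mul Nat.card_pos.ne' (pow_ne_zero _ hp.out.ne_zero)]
    have h1 : (Nat.card K).factorization p = 0 := by
      apply Nat.factorization_eq_zero_of_not_dvd
      exact fun h => hp.out.one_lt.ne' (Nat.Coprime.eq_one_of_dvd hcop.symm h)
    simp [h1, hp.out.factorization_pow]
  have hc : IsComplement' K ((S : Subgroup G).subgroupOf L) := by
    apply isComplement'_of_coprime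
    · rw [hcardSL, ← hk, card_mul_index]
    · rw [hcardSL]; exact Nat.Coprime.pow_right k hcop
  obtain ⟨⟨⟨h, hh⟩, ⟨s, hs⟩⟩, hmul⟩ := hc.2 ⟨n, hnL⟩
  have hsS : (s : G) ∈ (S : Subgroup G) := mem_subgroupOf.1 hs
  have hn' : n = (h : G) * (s : G) := by
    have := congrArg Subtype.val hmul
    simpa using this.symm
  rw [mem_centralizer_iff]
  intro u hu
  have hu' : u ∈ (S : Subgroup G) := hu
  have hhN : (h : G) * u * (h : G)⁻¹ ∈ (S : Subgroup G) := by
    have h1 : (h : G) * u * (h : G)⁻¹ = n * ((s : G)⁻¹ * u * (s : G)) * n⁻¹ := by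
      rw [hn']; group
    rw [h1]
    have h2 : (s : G)⁻¹ * u * (s : G) ∈ (S : Subgroup G) :=
      mul_mem (mul_mem (inv_mem hsS) hu') hsS
    exact (mem_normalizer_iff.1 hn _).1 h2
  set c : L := h * ⟨u, hSL hu'⟩ * h⁻¹ * (⟨u, hSL hu'⟩ : L)⁻¹ with hc_def
  have hcK : c ∈ K := by
    have h1 := hKn.conj_mem h⁻¹ (K.inv_mem hh) ⟨u, hSL hu'⟩
    have h2 := K.mul_mem hh h1
    have h3 : c = h * ((⟨u, hSL hu'⟩ : L) * h⁻¹ * (⟨u, hSL hu'⟩ : L)⁻¹) := by
      rw [hc_def]; group
    rw [h3]; exact h2
  have hcG : (c : G) = (h : G) * u * (h : G)⁻¹ * u⁻¹ := by rw [hc_def]; simp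
  have hcS : (c : G) ∈ (S : Subgroup G) := by
    rw [hcG]; exact mul_mem hhN (inv_mem hu')
  have hc1 : (c : G) = 1 := by
    apply Cfsg.Agent.Lib.Helper69.PNil.eq_one_of_pElem_of_coprime (p := p) (c : G)
      (Cfsg.Agent.Lib.Helper69.PNil.pElem_of_mem_isPGroup S S.2 _ hcS) (Nat.card K) hcop
    have h1 : orderOf c ∣ Nat.card K := Subgroup.orderOf_dvd_natCard K hcK
    have h2 : c ^ Nat.card K = 1 := orderOf_dvd_iff_pow_eq_one.1 h1
    have := congrArg Subtype.val h2
    simpa using this
  rw [hcG] at hc1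
  have hhu : (h : G) * u = u * (h : G) := by
    calc (h : G) * u = (h : G) * u * (h : G)⁻¹ * u⁻¹ * (u * (h : G)) := by group
      _ = u * (h : G) := by rw [hc1, one_mul]
  have hsu : (s : G) * u = u * (s : G) := hab _ hsS _ hu'
  rw [hn']
  calc u * ((h : G) * (s : G)) = (u * (h : G)) * (s : G) := by group
    _ = (h : G) * u * (s : G) := by rw [hhu]
    _ = (h : G) * ((s : G) * u) := by rw [mul_assoc, hsu]
    _ = (h : G) * (s : G) * u := by group

section Count

variable [Fintype G] [DecidableEq G]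

/-- Number of elements commuting with `t`. -/
noncomputable def cz (t : G) : ℕ := (Finset.univ.filter (fun x : G => t * x = x * t)).card

theorem cz_eq_card (t : G) : cz t = Nat.card (centralizer ({t} : Set G)) := by
  classical
  rw [cz]
  symm
  apply Nat.subtype_card
  intro x
  simp [mem_centralizer_iff]

theorem cz_conj {u t : G} (h : IsConj u t) : cz u = cz t := by
  classical
  obtain ⟨g, hg⟩ := isConj_iff.1 h
  rw [cz, cz]
  apply Finset.card_bij (fun x _ => g * x * g⁻¹)
  · intro x hx
    simp only [Finset.mem_filter, Finset.mem_univ, true_and] at hx ⊢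
    rw [← hg]
    calc g * u * g⁻¹ * (g * x * g⁻¹) = g * (u * x) * g⁻¹ := by group
      _ = g * (x * u) * g⁻¹ := by rw [hx]
      _ = g * x * g⁻¹ * (g * u * g⁻¹) := by group
  · intro x _ y _ hxy
    simpa using hxy
  · intro y hy
    simp only [Finset.mem_filter, Finset.mem_univ, true_and] at hy
    refine ⟨g⁻¹ * y * g, ?_, by group⟩
    simp only [Finset.mem_filter, Finset.mem_univ, true_and]
    rw [← hg] at hy
    calc u * (g⁻¹ * y * g) = g⁻¹ * (g * u * g⁻¹ * y) * g := by group
      _ = g⁻¹ * (y * (g * u * g⁻¹)) * g := by rw [hy]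
      _ = g⁻¹ * y * g * u := by group

theorem sum_conj_cz (u : G) :
    ∑ t : G, (if IsConj u t then cz t else 0) = Nat.card G := by
  classical
  rw [← Finset.sum_filter]
  have h1 : ∀ t ∈ Finset.univ.filter (fun t : G => IsConj u t), cz t = cz u := by
    intro t ht
    rw [Finset.mem_filter] at ht
    exact (cz_conj ht.2).symm
  rw [Finset.sum_congr rfl h1, Finset.sum_const, smul_eq_mul]
  have h2 : (Finset.univ.filter (fun t : G => IsConj u t)).card =
      (centralizer ({u} : Set G)).index := by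
    rw [← Cfsg.Agent.Lib.Helper67.ClassSize.ncard_carrier_eq_index, Set.ncard_eq_toFinset_card']
    congr 1
    ext t
    rw [Finset.mem_filter, Set.mem_toFinset, ConjClasses.mem_carrier_iff_mk_eq,
      ConjClasses.mk_eq_mk_iff_isConj]
    exact ⟨fun h => h.2.symm, fun h => ⟨Finset.mem_univ _, h.symm⟩⟩
  rw [h2, cz_eq_card, index_mul_card]

end Count

/-- The counting step: under the hypotheses, `N_G(S) ≤ C_G(S)`. -/
theorem normalizer_le_centralizer_of_count [Finite G] {p : ℕ} [hp : Fact p.Prime]
    (hmin : ∀ q : ℕ, q.Prime → q ∣ Nat.card G → p ≤ q) (hcs : CS p G) (S : Sylow p G)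
    (hab : ∀ a ∈ S, ∀ b ∈ S, a * b = b * a)
    (hreg : ∀ t ∈ S, t ≠ 1 → ∀ n ∈ normalizer (S : Set G), n * t = t * n →
      n ∈ centralizer (S : Set G)) :
    normalizer (S : Set G) ≤ centralizer (S : Set G) := by
  classical
  have := Fintype.ofFinite G
  by_contra hNC
  have hSC : (S : Subgroup G) ≤ centralizer (S : Set G) := by
    intro u hu
    rw [mem_centralizer_iff]
    intro v hv
    exact hab v hv u hu
  set a := (centralizer (S : Set G)).relIndex (normalizer (S : Set G)) with ha
  have ha1 : a ≠ 1 := fun h => hNC (relIndex_eq_one.1 h)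
  have ha0 : a ≠ 0 := by
    rw [ha]
    exact index_ne_zero_of_finite (H := (centralizer (S : Set G)).subgroupOf (normalizer (S : Set G)))
  have hpa : ¬ p ∣ a := by
    intro hd
    have h1 : (centralizer (S : Set G)).relIndex (normalizer (S : Set G)) ∣
        (S : Subgroup G).relIndex (normalizer (S : Set G)) := relIndex_dvd_of_le_left _ hSC
    have h2 : (S : Subgroup G).relIndex (normalizer (S : Set G)) ∣ (S : Subgroup G).index :=
      relIndex_dvd_index_of_le le_normalizer
    exact S.not_dvd_index (hd.trans (h1.trans h2))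
  have hadvd : a ∣ Nat.card G := (relIndex_dvd_card _ _).trans (card_subgroup_dvd_card _)
  have hap : p + 1 ≤ a := by
    have hq := Nat.minFac_prime ha1
    have h1 := hmin _ hq ((Nat.minFac_dvd a).trans hadvd)
    have h2 : a.minFac ≠ p := fun h => hpa (h ▸ Nat.minFac_dvd a)
    have h3 : a.minFac ≤ a := Nat.minFac_le (Nat.pos_of_ne_zero ha0)
    omega
  -- orbit lemma
  have horb : ∀ t ∈ S, t ≠ 1 →
      a ≤ (Finset.univ.filter (fun u : G => u ∈ S ∧ u ≠ 1 ∧ IsConj u t)).card := by
    intro t ht ht1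
    have e : a = Nat.card (normalizer (S : Set G) ⧸
        (centralizer (S : Set G)).subgroupOf (normalizer (S : Set G))) := by
      rw [ha, ← index_eq_card]; rfl
    let f : normalizer (S : Set G) ⧸
        (centralizer (S : Set G)).subgroupOf (normalizer (S : Set G)) → G :=
      fun q => (q.out : G) * t * (q.out : G)⁻¹
    have hf : Function.Injective f := by
      intro q₁ q₂ h
      have h0 : (q₁.out : G) * t * (q₁.out : G)⁻¹ = (q₂.out : G) * t * (q₂.out : G)⁻¹ := h
      have h1 : ((q₁.out⁻¹ * q₂.out : normalizer (S : Set G)) : G) * t =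
          t * ((q₁.out⁻¹ * q₂.out : normalizer (S : Set G)) : G) := by
        push_cast
        calc (q₁.out : G)⁻¹ * (q₂.out : G) * t
            = (q₁.out : G)⁻¹ * ((q₂.out : G) * t * (q₂.out : G)⁻¹) * (q₂.out : G) := by group
          _ = (q₁.out : G)⁻¹ * ((q₁.out : G) * t * (q₁.out : G)⁻¹) * (q₂.out : G) := by rw [h0]
          _ = t * ((q₁.out : G)⁻¹ * (q₂.out : G)) := by group
      have h2 := hreg t ht ht1 _ (q₁.out⁻¹ * q₂.out).2 h1
      rw [← QuotientGroup.out_eq' q₁, ← QuotientGroup.out_eq' q₂]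
      exact QuotientGroup.eq.2 (mem_subgroupOf.2 h2)
    have h3 : Nat.card (normalizer (S : Set G) ⧸
        (centralizer (S : Set G)).subgroupOf (normalizer (S : Set G))) ≤
        Nat.card {u : G // u ∈ S ∧ u ≠ 1 ∧ IsConj u t} := by
      refine Nat.card_le_card_of_injective (fun q => ⟨f q, ?_, ?_, ?_⟩)
        (fun q₁ q₂ h => hf (congrArg Subtype.val h))
      · exact (mem_normalizer_iff.1 q.out.2 t).1 ht
      · intro h
        apply ht1
        have h' : (q.out : G) * t * (q.out : G)⁻¹ = 1 := h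
        calc t = (q.out : G)⁻¹ * ((q.out : G) * t * (q.out : G)⁻¹) * (q.out : G) := by group
          _ = 1 := by rw [h']; group
      · exact isConj_iff.2 ⟨(q.out : G)⁻¹, by simp only [f]; group⟩
    rw [e]
    rwa [Nat.subtype_card (Finset.univ.filter (fun u : G => u ∈ S ∧ u ≠ 1 ∧ IsConj u t))
      (by simp)] at h3
  have horb' : ∀ t : G, t ≠ 1 → IsPGroup p (zpowers t) →
      a ≤ (Finset.univ.filter (fun u : G => u ∈ S ∧ u ≠ 1 ∧ IsConj u t)).card := by
    intro t ht1 htp
    obtain ⟨Q, hQ⟩ := htp.exists_le_sylow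
    obtain ⟨g, hg⟩ := MulAction.exists_smul_eq G S Q
    have ht' : g⁻¹ * t * g ∈ (S : Subgroup G) := by
      rw [← Cfsg.Agent.Lib.Helper69.PElem.mem_smul_sylow, hg]; exact hQ (mem_zpowers t)
    have hne : g⁻¹ * t * g ≠ 1 := by
      intro h
      apply ht1
      calc t = g * (g⁻¹ * t * g) * g⁻¹ := by group
        _ = 1 := by rw [h]; group
    have h1 := horb (g⁻¹ * t * g) ht' hne
    have hconj : IsConj (g⁻¹ * t * g) t := isConj_iff.2 ⟨g, by group⟩
    have h2 : Finset.univ.filter (fun u : G => u ∈ S ∧ u ≠ 1 ∧ IsConj u (g⁻¹ * t * g)) =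
        Finset.univ.filter (fun u : G => u ∈ S ∧ u ≠ 1 ∧ IsConj u t) := by
      apply Finset.filter_congr
      intro u _
      exact ⟨fun h => ⟨h.1, h.2.1, h.2.2.trans hconj⟩, fun h => ⟨h.1, h.2.1, h.2.2.trans hconj.symm⟩⟩
    rwa [h2] at h1
  -- the sets
  set Pset : Finset G := Finset.univ.filter (fun t : G => t ≠ 1 ∧ IsPGroup p (zpowers t))
    with hPset
  set S1 : Finset G := Finset.univ.filter (fun u : G => u ∈ S ∧ u ≠ 1) with hS1
  set s := Nat.card S with hs
  set n := Nat.card G with hn
  have hS1card : S1.card + 1 = s := by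
    have h1 : (Finset.univ.filter (fun u : G => u ∈ S)).card = s := by
      rw [hs]; symm
      exact Nat.subtype_card _ (fun x => by
        rw [Finset.mem_filter]; exact ⟨fun h => h.2, fun h => ⟨Finset.mem_univ _, h⟩⟩)
    have h2 : S1 = (Finset.univ.filter (fun u : G => u ∈ S)).erase 1 := by
      ext u
      simp [hS1, and_comm]
    rw [h2, Finset.card_erase_of_mem (by simp [one_mem]), h1]
    have : 0 < s := Nat.card_pos
    omega
  have hS1P : S1 ⊆ Pset := by
    intro u hu
    rw [hS1, Finset.mem_filter] at hu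
    rw [hPset, Finset.mem_filter]
    exact ⟨Finset.mem_univ _, hu.2.2, Cfsg.Agent.Lib.Helper69.PNil.isPGroup_zpowers u
      (Cfsg.Agent.Lib.Helper69.PNil.pElem_of_mem_isPGroup S S.2 u hu.2.1)⟩
  -- upper bound
  have hupper : a * ∑ t ∈ Pset, cz t ≤ S1.card * n := by
    have h1 : a * ∑ t ∈ Pset, cz t ≤
        ∑ t ∈ Pset, ∑ u ∈ S1, (if IsConj u t then cz t else 0) := by
      rw [Finset.mul_sum]
      apply Finset.sum_le_sum
      intro t ht
      rw [hPset, Finset.mem_filter] at ht
      have h2 := horb' t ht.2.1 ht.2.2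
      have h3 : ∑ u ∈ S1, (if IsConj u t then cz t else 0) =
          (Finset.univ.filter (fun u : G => u ∈ S ∧ u ≠ 1 ∧ IsConj u t)).card * cz t := by
        rw [← Finset.sum_filter, Finset.sum_const, smul_eq_mul, hS1, Finset.filter_filter]
        congr 2
        apply Finset.filter_congr
        intro u _
        tauto
      rw [h3]
      exact Nat.mul_le_mul_right _ h2
    have h4 : ∑ t ∈ Pset, ∑ u ∈ S1, (if IsConj u t then cz t else 0) ≤
        ∑ u ∈ S1, ∑ t : G, (if IsConj u t then cz t else 0) := by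
      rw [Finset.sum_comm]
      apply Finset.sum_le_sum
      intro u _
      apply Finset.sum_le_sum_of_subset_of_nonneg (Finset.subset_univ _)
      intro _ _ _
      exact Nat.zero_le _
    have h5 : ∑ u ∈ S1, ∑ t : G, (if IsConj u t then cz t else 0) = S1.card * n := by
      rw [Finset.sum_congr rfl (fun u _ => sum_conj_cz u), Finset.sum_const, smul_eq_mul]
    exact h1.trans (h4.trans h5.le)
  -- lower bound
  have hlower : p * s + (n - 1) * s ≤ p * ∑ t ∈ Pset, cz t + p * n := by
    have h1 : ∑ t ∈ Pset, cz t =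
        ∑ x : G, (Pset.filter (fun t => t * x = x * t)).card := by
      have : ∀ t : G, cz t = ∑ x : G, (if t * x = x * t then 1 else 0) := by
        intro t; rw [cz, Finset.card_filter]
      rw [Finset.sum_congr rfl (fun t _ => this t), Finset.sum_comm]
      apply Finset.sum_congr rfl
      intro x _
      rw [Finset.card_filter]
    have hF : ∀ x : G, s ≤ p * (Pset.filter (fun t => t * x = x * t)).card + p := by
      intro x
      obtain ⟨T, hT, -, hTx, hTc⟩ := exists_large_pSubgroup hcs S x ⊥ IsPGroup.of_bot bot_le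
      have h2 : ((Finset.univ.filter (fun u : G => u ∈ T)).erase 1) ⊆
          Pset.filter (fun t => t * x = x * t) := by
        intro u hu
        rw [Finset.mem_erase, Finset.mem_filter] at hu
        rw [Finset.mem_filter, hPset, Finset.mem_filter]
        refine ⟨⟨Finset.mem_univ _, hu.1, Cfsg.Agent.Lib.Helper69.PNil.isPGroup_zpowers u
          (Cfsg.Agent.Lib.Helper69.PNil.pElem_of_mem_isPGroup T hT u hu.2.2)⟩, ?_⟩
        have := hTx hu.2.2
        rw [mem_centralizer_iff] at this
        exact (this x rfl).symm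
      have h3 : (Finset.univ.filter (fun u : G => u ∈ T)).card = Nat.card T := by
        symm
        exact Nat.subtype_card _ (by simp)
      have h4 := Finset.card_le_card h2
      rw [Finset.card_erase_of_mem (by simp [one_mem]), h3] at h4
      have h5 : s ≤ p * Nat.card T := Nat.le_of_dvd (Nat.mul_pos hp.out.pos Nat.card_pos) hTc
      have h6 : 0 < Nat.card T := Nat.card_pos
      calc s ≤ p * Nat.card T := h5
        _ = p * (Nat.card T - 1) + p := by
            have : Nat.card T = Nat.card T - 1 + 1 := by omega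
            conv_lhs => rw [this]
            ring
        _ ≤ p * (Pset.filter (fun t => t * x = x * t)).card + p := by
            have := Nat.mul_le_mul_left p h4
            omega
    have hF1 : S1.card ≤ (Pset.filter (fun t => t * (1 : G) = 1 * t)).card := by
      apply Finset.card_le_card
      intro u hu
      rw [Finset.mem_filter]
      exact ⟨hS1P hu, by simp⟩
    rw [h1, ← Finset.add_sum_erase Finset.univ _ (Finset.mem_univ (1 : G)), mul_add,
      Finset.mul_sum]
    have h7 : (n - 1) * s ≤ ∑ x ∈ Finset.univ.erase (1 : G),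
        (p * (Pset.filter (fun t => t * x = x * t)).card + p) := by
      have h8 : ∑ _x ∈ Finset.univ.erase (1 : G), s ≤ ∑ x ∈ Finset.univ.erase (1 : G),
          (p * (Pset.filter (fun t => t * x = x * t)).card + p) :=
        Finset.sum_le_sum (fun x _ => hF x)
      rw [Finset.sum_const, smul_eq_mul, Finset.card_erase_of_mem (Finset.mem_univ _),
        Finset.card_univ, ← Nat.card_eq_fintype_card] at h8
      exact h8
    rw [Finset.sum_add_distrib, Finset.sum_const, smul_eq_mul,
      Finset.card_erase_of_mem (Finset.mem_univ _), Finset.card_univ,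
      ← Nat.card_eq_fintype_card, ← hn] at h7
    have h9 : p * S1.card ≤ p * (Pset.filter (fun t => t * (1 : G) = 1 * t)).card :=
      Nat.mul_le_mul_left p hF1
    have h10 : p * s = p * S1.card + p := by rw [← hS1card]; ring
    have hn1 : (n - 1) * p + p = p * n := by
      have : 0 < n := Nat.card_pos
      have : n = n - 1 + 1 := by omega
      conv_rhs => rw [this]
      ring
    omega
  -- conclusion
  obtain ⟨j, hj⟩ := IsPGroup.iff_card.1 S.2
  have hjs : s = p ^ j := hj
  have hp2 := hp.out.two_le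
  have hn0 : 0 < n := Nat.card_pos
  rcases Nat.lt_or_ge j 2 with hj2 | hj2
  · -- s = 1 or s = p
    have hs_le : s ≤ p := by
      rw [hjs]
      interval_cases j
      · simp; omega
      · simp
    by_cases hS1e : S1.card = 0
    · -- S = ⊥
      apply hNC
      intro g _
      rw [mem_centralizer_iff]
      intro u hu
      have : u = 1 := by
        by_contra hu1
        have : u ∈ S1 := by rw [hS1, Finset.mem_filter]; exact ⟨Finset.mem_univ _, hu, hu1⟩
        rw [Finset.card_eq_zero] at hS1e
        rw [hS1e] at this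
        exact absurd this (Finset.notMem_empty _)
      rw [this]; simp
    · obtain ⟨t, ht⟩ := Finset.card_pos.1 (Nat.pos_of_ne_zero hS1e)
      rw [hS1, Finset.mem_filter] at ht
      have h1 := horb t ht.2.1 ht.2.2
      have h2 : (Finset.univ.filter (fun u : G => u ∈ S ∧ u ≠ 1 ∧ IsConj u t)).card ≤ S1.card := by
        apply Finset.card_le_card
        intro u hu
        rw [Finset.mem_filter] at hu
        rw [hS1, Finset.mem_filter]
        exact ⟨Finset.mem_univ _, hu.2.1, hu.2.2.1⟩
      omega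
  · have hs_ge : p ^ 2 ≤ s := by
      rw [hjs]; exact Nat.pow_le_pow_right hp.out.pos hj2
    have hA : (p + 1) * ∑ t ∈ Pset, cz t ≤ S1.card * n :=
      (Nat.mul_le_mul_right _ hap).trans hupper
    set sig := ∑ t ∈ Pset, cz t with hsig
    have hA' : ((p : ℤ) + 1) * (sig : ℤ) ≤ ((s : ℤ) - 1) * (n : ℤ) := by
      have : (S1.card : ℤ) = (s : ℤ) - 1 := by
        have := hS1card; push_cast [← this]; ring
      rw [← this]
      exact_mod_cast hA
    have hB' : (p : ℤ) * (s : ℤ) + ((n : ℤ) - 1) * (s : ℤ) ≤ (p : ℤ) * (sig : ℤ) + (p : ℤ) * (n : ℤ) := by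
      have : ((n - 1 : ℕ) : ℤ) = (n : ℤ) - 1 := by
        have : 1 ≤ n := hn0
        push_cast [Nat.cast_sub this]; ring
      rw [← this]
      exact_mod_cast hlower
    have hp0 : (0 : ℤ) ≤ (p : ℤ) := by positivity
    have hs2 : ((p : ℤ)) ^ 2 ≤ (s : ℤ) := by exact_mod_cast hs_ge
    have hpz : (2 : ℤ) ≤ (p : ℤ) := by exact_mod_cast hp2
    have hnz : (0 : ℤ) < (n : ℤ) := by exact_mod_cast hn0
    nlinarith [mul_le_mul_of_nonneg_left hA' hp0,
      mul_le_mul_of_nonneg_left hB' (by linarith : (0 : ℤ) ≤ (p : ℤ) + 1),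
      mul_nonneg hnz.le (sub_nonneg.2 hs2), mul_pos (by linarith : (0 : ℤ) < (s : ℤ))
        (by nlinarith : (0 : ℤ) < (p : ℤ) ^ 2 - 1)]

universe u

theorem npc_of_cs_aux (p : ℕ) [hp : Fact p.Prime] (n : ℕ) :
    ∀ (X : Type u) [Group X] [Finite X], Nat.card X = n →
      (∀ q : ℕ, q.Prime → q ∣ Nat.card X → p ≤ q) → CS p X → NPC p X := by
  induction n using Nat.strong_induction_on with
  | _ n ih =>
    intro X _ _ hn hmin hcs
    by_cases hZ : ∃ t ∈ center X, t ≠ 1 ∧ ∃ k : ℕ, t ^ p ^ k = 1
    · obtain ⟨t, htc, ht1, k, hk⟩ := hZ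
      have hZle : zpowers t ≤ center X := zpowers_le.2 htc
      have : (zpowers t).Normal := ⟨fun z hz g => by
        have := hZle hz
        rw [mem_center_iff] at this
        rw [this g, mul_inv_cancel_right]
        exact hz⟩
      have hZp : IsPGroup p (zpowers t) :=
        Cfsg.Agent.Lib.Helper69.PNil.isPGroup_zpowers t
          (((Nat.dvd_prime_pow hp.out).1 (orderOf_dvd_of_pow_eq_one hk)).imp fun _ h => h.2)
      apply npc_of_central_quotient (zpowers t) hZle hZp
      apply ih (Nat.card (X ⧸ zpowers t)) ?_ (X ⧸ zpowers t) rfl ?_ ?_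
      · rw [← hn, ← index_eq_card]
        have h0 := card_mul_index (zpowers t)
        have h1 : 1 < Nat.card (zpowers t) := by
          rw [Nat.card_zpowers]
          have h2 : orderOf t ≠ 1 := fun h => ht1 (orderOf_eq_one_iff.1 h)
          have h3 : 0 < orderOf t := orderOf_pos t
          omega
        have h4 : 0 < (zpowers t).index := Nat.pos_of_ne_zero index_ne_zero_of_finite
        nlinarith
      · intro q hq hd
        exact hmin q hq (hd.trans (card_quotient_dvd_card _))
      · intro x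
        obtain ⟨y, rfl⟩ := QuotientGroup.mk_surjective x
        intro hd
        exact hcs y (hd.trans
          (Cfsg.Agent.Lib.Helper67.ClassSize.index_centralizer_quotient_dvd (zpowers t) y))
    · push Not at hZ
      have hZ' : ∀ t ∈ center X, ∀ k : ℕ, t ^ p ^ k = 1 → t = 1 := by
        intro t ht k hk
        by_contra h1
        exact hZ t ht h1 k hk
      have hab := fun S => sylow_abelian hcs hZ' S
      obtain ⟨S⟩ : Nonempty (Sylow p X) := inferInstance
      apply npc_iff.1
      apply Cfsg.Agent.Lib.Helper2.PComp.hasNormalPComplement_of_normalizer_le_centralizer S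
      apply normalizer_le_centralizer_of_count hmin hcs S (hab S)
      intro t ht ht1 m hm hmt
      apply mem_centralizer_of_normalizer_of_npc S (hab S) t ht ?_ m hm hmt
      have htp : IsPGroup p (zpowers t) :=
        Cfsg.Agent.Lib.Helper69.PNil.isPGroup_zpowers t
          (Cfsg.Agent.Lib.Helper69.PNil.pElem_of_mem_isPGroup S S.2 t ht)
      apply ih (Nat.card (centralizer ({t} : Set X))) ?_ _ rfl ?_ (cs_centralizer hcs hab t htp)
      · rw [← hn]
        apply lt_of_le_of_ne (card_le_card_group _)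
        intro h
        have htop := eq_top_of_card_eq _ h
        apply ht1
        obtain ⟨k, hk⟩ := S.2 ⟨t, ht⟩
        have hk' : t ^ p ^ k = 1 := by
          have := congrArg Subtype.val hk
          simpa using this
        refine hZ' t ?_ k hk'
        rw [mem_center_iff]
        intro g
        have hg : g ∈ centralizer ({t} : Set X) := by rw [htop]; exact mem_top g
        rw [mem_centralizer_iff] at hg
        exact (hg t rfl).symm
      · intro q hq hd
        exact hmin q hq (hd.trans (card_subgroup_dvd_card _))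

/-- **Cossey–Wang type criterion.** If every prime divisor of `|G|` is at least `p` and no class
size of `G` is divisible by `p²`, then `G` has a normal `p`-complement. -/
theorem npc_of_cs {X : Type u} [Group X] [Finite X] (p : ℕ) [hp : Fact p.Prime]
    (hmin : ∀ q : ℕ, q.Prime → q ∣ Nat.card X → p ≤ q) (hcs : CS p X) : NPC p X :=
  npc_of_cs_aux p (Nat.card X) X rfl hmin hcs

end Cfsg.Agent.Lib.Helper63.SFNilp
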