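import Mathlib
import Cfsg.Agent.Lib.Helper63.SFNilp
import Cfsg.Agent.Lib.Helper64.MinNonClosed
import Cfsg.Agent.Lib.Helper69.ItoA
import Cfsg.Agent.H9.Supersolvable

/-!
Groups all of whose class sizes are squarefree (helper63): solvability, the commutator maps
`a ↦ a⁻¹ * (g a g⁻¹)` on an abelian normal subgroup, a normal subgroup of prime order and
supersolvability.
-/

set_option autoImplicit false

namespace Cfsg.Agent.Lib.Helper63.SFSolv

open Subgroup
open Cfsg.Agent.Lib.Helper70.PNilp
open Cfsg.Agent.Lib.Helper63.SFNilp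

universe u

/-- `SF G`: every class size of `G` is squarefree. -/
def SF (G : Type*) [Group G] : Prop :=
  ∀ x : G, Squarefree (centralizer ({x} : Set G)).index

section Basic

variable {G : Type*} [Group G]

theorem SF.cs (h : SF G) (p : ℕ) [hp : Fact p.Prime] : CS p G := by
  intro x hd
  have := h x p (by rwa [← sq])
  exact hp.out.one_lt.ne' (Nat.isUnit_iff.1 this)

theorem SF.subgroup [Finite G] (h : SF G) (N : Subgroup G) [N.Normal] : SF N := fun x =>
  Squarefree.squarefree_of_dvd
    (Cfsg.Agent.Lib.Helper67.ClassSize.index_centralizer_subgroup_dvd N x) (h x)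

theorem SF.quotient [Finite G] (h : SF G) (N : Subgroup G) [N.Normal] : SF (G ⧸ N) := by
  intro x
  obtain ⟨y, rfl⟩ := QuotientGroup.mk_surjective x
  exact Squarefree.squarefree_of_dvd
    (Cfsg.Agent.Lib.Helper67.ClassSize.index_centralizer_quotient_dvd N y) (h y)

end Basic

theorem SF.solvable_aux (n : ℕ) :
    ∀ (X : Type u) [Group X] [Finite X], Nat.card X = n → SF X → Group.IsSolvable X := by
  induction n using Nat.strong_induction_on with
  | _ n ih =>
    intro X _ _ hn hsf
    by_cases h1 : Nat.card X = 1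
    · have : Subsingleton X := (Nat.card_eq_one_iff_unique.1 h1).1
      infer_instance
    · have hp : (Nat.card X).minFac.Prime := Nat.minFac_prime h1
      have : Fact (Nat.card X).minFac.Prime := ⟨hp⟩
      obtain ⟨K, hKn, hcop, k, hk⟩ := npc_of_cs (Nat.card X).minFac
        (fun q hq hd => Nat.minFac_le_of_dvd hq.two_le hd) (hsf.cs _)
      have hlt : Nat.card K < n := by
        rw [← hn]
        apply lt_of_le_of_ne (card_le_card_group _)
        intro h
        rw [h] at hcop
        have := Nat.Coprime.eq_one_of_dvd hcop.symm (Nat.minFac_dvd _)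
        exact hp.one_lt.ne' this
      have := hKn
      have : Group.IsSolvable K := ih _ hlt K rfl (hsf.subgroup K)
      have : Group.IsSolvable (X ⧸ K) := by
        have hq : IsPGroup (Nat.card X).minFac (X ⧸ K) :=
          IsPGroup.of_card (n := k) (by rw [← index_eq_card, hk])
        have := hq.isNilpotent
        infer_instance
      exact Group.isSolvable_of_ker_le_range K.subtype (QuotientGroup.mk' K) (by simp)

/-- A finite group with squarefree class sizes is solvable. -/
theorem SF.solvable {X : Type u} [Group X] [Finite X] (h : SF X) : Group.IsSolvable X :=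
  SF.solvable_aux (Nat.card X) X rfl h

section Abstract

/-- A subgroup of order at most `p` meeting a subgroup of prime order `p` nontrivially equals
it. -/
theorem eq_of_prime_card_of_mem {B : Type*} [Group B] [Finite B] {p : ℕ} (hp : p.Prime)
    (R R' : Subgroup B) (hR : Nat.card R = p) (hR' : Nat.card R' ≤ p) (x : B) (hx : x ∈ R)
    (hx' : x ∈ R') (hx1 : x ≠ 1) : R' = R := by
  have h1 : zpowers x ≤ R := zpowers_le.2 hx
  have h2 : zpowers x ≤ R' := zpowers_le.2 hx'
  have h3 : Nat.card (zpowers x) = p := by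
    have hd : Nat.card (zpowers x) ∣ p := hR ▸ card_dvd_of_le h1
    rcases (Nat.dvd_prime hp).1 hd with h | h
    · rw [Nat.card_zpowers, orderOf_eq_one_iff] at h
      exact absurd h hx1
    · exact h
  have h4 : zpowers x = R := eq_of_le_of_card_ge h1 (by rw [hR, h3])
  have h5 : zpowers x = R' := eq_of_le_of_card_ge h2 (by rw [h3]; exact hR')
  rw [← h5, h4]

/-- Core lemma: if `f₃ = f₁ * f₂` pointwise, the ranges of `f₁`, `f₂` have prime order `p` and
are different, and the range of `f₃` has order at most `p`, then `f₁`, `f₂` have the same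
kernel. -/
theorem ker_eq_of_range_ne {A B : Type*} [Group A] [Group B] [Finite A] [Finite B] {p : ℕ}
    (hp : p.Prime) (f₁ f₂ f₃ : A →* B) (h3 : ∀ a, f₃ a = f₁ a * f₂ a)
    (h1 : Nat.card f₁.range = p) (h2 : Nat.card f₂.range = p) (h3c : Nat.card f₃.range ≤ p)
    (hne : f₁.range ≠ f₂.range) : f₁.ker = f₂.ker := by
  by_contra hk
  have hc1 : Nat.card f₁.ker * p = Nat.card A := by
    rw [← h1, ← index_ker, card_mul_index]
  have hc2 : Nat.card f₂.ker * p = Nat.card A := by
    rw [← h2, ← index_ker, card_mul_index]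
  have hcard : Nat.card f₁.ker = Nat.card f₂.ker :=
    Nat.eq_of_mul_eq_mul_right hp.pos (hc1.trans hc2.symm)
  have hn12 : ¬ f₁.ker ≤ f₂.ker := fun h => hk (eq_of_le_of_card_ge h hcard.ge)
  have hn21 : ¬ f₂.ker ≤ f₁.ker := fun h => hk (eq_of_le_of_card_ge h hcard.le).symm
  obtain ⟨a, ha1, ha2⟩ := SetLike.not_le_iff_exists.1 hn12
  obtain ⟨b, hb2, hb1⟩ := SetLike.not_le_iff_exists.1 hn21
  rw [MonoidHom.mem_ker] at ha1 ha2 hb1 hb2
  have e2 : f₃.range = f₂.range := by
    apply eq_of_prime_card_of_mem hp f₂.range f₃.range h2 h3c (f₂ a) ⟨a, rfl⟩ ?_ ha2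
    exact ⟨a, by rw [h3, ha1, one_mul]⟩
  have e1 : f₃.range = f₁.range := by
    apply eq_of_prime_card_of_mem hp f₁.range f₃.range h1 h3c (f₁ b) ⟨b, rfl⟩ ?_ hb1
    exact ⟨b, by rw [h3, hb2, mul_one]⟩
  exact hne (e1.symm.trans e2)

/-- Abstract dichotomy. -/
theorem dichotomy {I α β : Type*} (R : I → α) (K : I → β)
    (h : ∀ i j, R i = R j ∨ K i = K j) : (∀ i j, R i = R j) ∨ (∀ i j, K i = K j) := by
  by_contra hcon
  push Not at hcon
  obtain ⟨⟨i, j, hij⟩, ⟨k, l, hkl⟩⟩ := hcon
  have hKij : K i = K j := (h i j).resolve_left hij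
  have hk : K k = K i := by
    rcases h k i with h1 | h1
    · rcases h k j with h2 | h2
      · exact absurd (h1.symm.trans h2) hij
      · exact h2.trans hKij.symm
    · exact h1
  have hl : K l = K i := by
    rcases h l i with h1 | h1
    · rcases h l j with h2 | h2
      · exact absurd (h1.symm.trans h2) hij
      · exact h2.trans hKij.symm
    · exact h1
  exact hkl (hk.trans hl.symm)

end Abstract

section Phi

variable {G : Type*} [Group G]

/-- The commutator map `a ↦ a⁻¹ * (g a g⁻¹)` on an abelian normal subgroup. -/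
def phi (A : Subgroup G) [hA : A.Normal] (hab : ∀ a ∈ A, ∀ b ∈ A, a * b = b * a) (g : G) :
    A →* A where
  toFun a := ⟨(a : G)⁻¹ * (g * a * g⁻¹), A.mul_mem (A.inv_mem a.2) (hA.conj_mem a a.2 g)⟩
  map_one' := by
    apply Subtype.ext
    simp
  map_mul' a b := by
    apply Subtype.ext
    have h1 := hab _ (A.inv_mem b.2) _ (A.mul_mem (A.inv_mem a.2) (hA.conj_mem a a.2 g))
    simp only [Subgroup.coe_mul]
    calc ((a : G) * b)⁻¹ * (g * ((a : G) * b) * g⁻¹)
        = (b : G)⁻¹ * ((a : G)⁻¹ * (g * a * g⁻¹)) * (g * b * g⁻¹) := by group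
      _ = (a : G)⁻¹ * (g * a * g⁻¹) * (b : G)⁻¹ * (g * b * g⁻¹) := by rw [h1]
      _ = (a : G)⁻¹ * (g * a * g⁻¹) * ((b : G)⁻¹ * (g * b * g⁻¹)) := by group

variable (A : Subgroup G) [hA : A.Normal] (hab : ∀ a ∈ A, ∀ b ∈ A, a * b = b * a)

theorem phi_coe (g : G) (a : A) :
    ((phi A hab g a : A) : G) = (a : G)⁻¹ * (g * a * g⁻¹) := rfl

theorem mem_ker_phi (g : G) (a : A) : a ∈ (phi A hab g).ker ↔ g * (a : G) = a * g := by
  rw [MonoidHom.mem_ker, ← Subtype.coe_inj, phi_coe, OneMemClass.coe_one]
  constructor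
  · intro h
    calc g * (a : G) = a * ((a : G)⁻¹ * (g * a * g⁻¹)) * g := by group
      _ = a * g := by rw [h, mul_one]
  · intro h
    rw [h]; group

theorem ker_phi (g : G) : (phi A hab g).ker = (centralizer ({g} : Set G)).subgroupOf A := by
  ext a
  rw [mem_ker_phi, mem_subgroupOf, mem_centralizer_iff]
  simp

theorem card_range_phi [Finite G] (g : G) :
    Nat.card (phi A hab g).range = (centralizer ({g} : Set G)).relIndex A := by
  rw [← index_ker, ker_phi]; rfl

theorem card_range_phi_dvd [Finite G] (g : G) :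
    Nat.card (phi A hab g).range ∣ (centralizer ({g} : Set G)).index := by
  rw [card_range_phi]
  exact Cfsg.Agent.Lib.Helper67.ClassSize.relIndex_dvd_index_of_normal_right A _

theorem card_ker_mul_card_range [Finite G] (g : G) :
    Nat.card (phi A hab g).ker * Nat.card (phi A hab g).range = Nat.card A := by
  rw [← index_ker, card_mul_index]

theorem card_range_phi_of_sf [Finite G] {p : ℕ} [hp : Fact p.Prime] (hsf : SF G)
    (hAp : IsPGroup p A) (g : G) :
    Nat.card (phi A hab g).range = 1 ∨ Nat.card (phi A hab g).range = p := by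
  obtain ⟨k, hk⟩ := IsPGroup.iff_card.1 hAp
  have h1 : Nat.card (phi A hab g).range ∣ p ^ k := hk ▸ card_subgroup_dvd_card _
  obtain ⟨j, -, hj⟩ := (Nat.dvd_prime_pow hp.out).1 h1
  have h2 : Squarefree (Nat.card (phi A hab g).range) :=
    Squarefree.squarefree_of_dvd (card_range_phi_dvd A hab g) (hsf g)
  rw [hj] at h2 ⊢
  rcases Nat.lt_or_ge j 2 with h | h
  · interval_cases j <;> simp
  · exfalso
    have : p * p ∣ p ^ j := by rw [← sq]; exact pow_dvd_pow p h
    exact hp.out.one_lt.ne' (Nat.isUnit_iff.1 (h2 p this))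

theorem phi_mul (g h : G) (a : A) :
    phi A hab (g * h) a = phi A hab g (MulAut.conjNormal h a) * phi A hab h a := by
  apply Subtype.ext
  simp only [phi_coe, Subgroup.coe_mul, MulAut.conjNormal_apply]
  have h1 := hab ((h * (a : G) * h⁻¹)⁻¹ * (g * (h * a * h⁻¹) * g⁻¹))
    (A.mul_mem (A.inv_mem (hA.conj_mem a a.2 h)) (hA.conj_mem _ (hA.conj_mem a a.2 h) g))
    ((a : G)⁻¹ * (h * a * h⁻¹)) (A.mul_mem (A.inv_mem a.2) (hA.conj_mem a a.2 h))
  rw [h1]; group

theorem phi_conj (x g : G) (a : A) :
    ((phi A hab (x * g * x⁻¹) (MulAut.conjNormal x a) : A) : G) =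
      x * (phi A hab g a : A) * x⁻¹ := by
  simp only [phi_coe, MulAut.conjNormal_apply]; group

/-- Pairwise alternative: equal ranges or equal kernels. -/
theorem range_eq_or_ker_eq [Finite G] {p : ℕ} (hp : p.Prime) (g h : G)
    (hg : Nat.card (phi A hab g).range = p) (hh : Nat.card (phi A hab h).range = p)
    (hgh : Nat.card (phi A hab (g * h)).range ≤ p) :
    (phi A hab g).range = (phi A hab h).range ∨ (phi A hab g).ker = (phi A hab h).ker := by
  by_cases hne : (phi A hab g).range = (phi A hab h).range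
  · exact Or.inl hne
  · right
    set f₁ : A →* A := (phi A hab g).comp (MulAut.conjNormal h : MulAut A).toMonoidHom with hf₁
    have hr : f₁.range = (phi A hab g).range := by
      ext b
      constructor
      · rintro ⟨a, rfl⟩; exact ⟨_, rfl⟩
      · rintro ⟨a, rfl⟩
        exact ⟨(MulAut.conjNormal h : MulAut A).symm a, by simp [hf₁]⟩
    have key := ker_eq_of_range_ne hp f₁ (phi A hab h) (phi A hab (g * h))
      (fun a => phi_mul A hab g h a) (hr ▸ hg) hh hgh (hr ▸ hne)
    have hle : (phi A hab h).ker ≤ (phi A hab g).ker := by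
      intro a ha
      have ha' : a ∈ f₁.ker := key ▸ ha
      rw [MonoidHom.mem_ker] at ha'
      have h1 : (MulAut.conjNormal h : MulAut A) a = a := by
        apply Subtype.ext
        rw [MulAut.conjNormal_apply]
        have := (mem_ker_phi A hab h a).1 ha
        rw [this]; group
      rw [MonoidHom.mem_ker]
      rw [hf₁] at ha'
      simpa [h1] using ha'
    have hc1 := card_ker_mul_card_range A hab g
    have hc2 := card_ker_mul_card_range A hab h
    rw [hg] at hc1
    rw [hh] at hc2
    exact (eq_of_le_of_card_ge hle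
      (Nat.eq_of_mul_eq_mul_right hp.pos (hc1.trans hc2.symm)).le).symm

/-- Global dichotomy: all nontrivial commutator maps have the same range, or all have the same
kernel. -/
theorem exists_dichotomy [Finite G] {p : ℕ} (hp : p.Prime)
    (HP : ∀ g, Nat.card (phi A hab g).range = 1 ∨ Nat.card (phi A hab g).range = p) :
    (∀ g h, Nat.card (phi A hab g).range = p → Nat.card (phi A hab h).range = p →
      (phi A hab g).range = (phi A hab h).range) ∨
    (∀ g h, Nat.card (phi A hab g).range = p → Nat.card (phi A hab h).range = p →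
      (phi A hab g).ker = (phi A hab h).ker) := by
  have := dichotomy (I := {g : G // Nat.card (phi A hab g).range = p})
    (fun i => (phi A hab i.1).range) (fun i => (phi A hab i.1).ker)
    (fun i j => range_eq_or_ker_eq A hab hp i.1 j.1 i.2 j.2 (by
      rcases HP (i.1 * j.1) with h | h
      · rw [h]; exact hp.one_lt.le
      · rw [h]))
  rcases this with h | h
  · left; intro g h' hg hh; exact h ⟨g, hg⟩ ⟨h', hh⟩
  · right; intro g h' hg hh; exact h ⟨g, hg⟩ ⟨h', hh⟩

theorem card_range_phi_conj [Finite G] {p : ℕ} (hp : p.Prime)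
    (HP : ∀ g, Nat.card (phi A hab g).range = 1 ∨ Nat.card (phi A hab g).range = p)
    (x g : G) (hg : Nat.card (phi A hab g).range = p) :
    Nat.card (phi A hab (x * g * x⁻¹)).range = p := by
  rcases HP (x * g * x⁻¹) with h | h
  · exfalso
    have h1 : (phi A hab (x * g * x⁻¹)).range = ⊥ := eq_bot_of_card_eq _ h
    have h2 : (phi A hab g).range = ⊥ := by
      rw [eq_bot_iff]
      rintro _ ⟨a, rfl⟩
      rw [mem_bot]
      have h3 : phi A hab (x * g * x⁻¹) (MulAut.conjNormal x a) = 1 := by
        have : phi A hab (x * g * x⁻¹) (MulAut.conjNormal x a) ∈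
            (phi A hab (x * g * x⁻¹)).range := ⟨_, rfl⟩
        rw [h1, mem_bot] at this; exact this
      have h4 := phi_conj A hab x g a
      rw [h3] at h4
      apply Subtype.ext
      have h5 : ((phi A hab g a : A) : G) = x⁻¹ * (x * (phi A hab g a : A) * x⁻¹) * x := by
        group
      rw [h5, ← h4]; simp
    rw [h2, card_bot] at hg
    exact hp.one_lt.ne hg
  · exact h

theorem range_normal [Finite G] {p : ℕ} (hp : p.Prime)
    (HP : ∀ g, Nat.card (phi A hab g).range = 1 ∨ Nat.card (phi A hab g).range = p)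
    (g₀ : G) (hg₀ : Nat.card (phi A hab g₀).range = p)
    (hall : ∀ g h, Nat.card (phi A hab g).range = p → Nat.card (phi A hab h).range = p →
      (phi A hab g).range = (phi A hab h).range) :
    ((phi A hab g₀).range.map A.subtype).Normal := by
  constructor
  rintro _ ⟨b, ⟨a, rfl⟩, rfl⟩ x
  have h1 := hall (x * g₀ * x⁻¹) g₀ (card_range_phi_conj A hab hp HP x g₀ hg₀) hg₀
  refine ⟨phi A hab (x * g₀ * x⁻¹) (MulAut.conjNormal x a), ?_, ?_⟩
  · rw [SetLike.mem_coe, ← h1]; exact ⟨_, rfl⟩
  · exact phi_conj A hab x g₀ a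

theorem ker_normal [Finite G] {p : ℕ} (hp : p.Prime)
    (HP : ∀ g, Nat.card (phi A hab g).range = 1 ∨ Nat.card (phi A hab g).range = p)
    (g₀ : G) (hg₀ : Nat.card (phi A hab g₀).range = p)
    (hall : ∀ g h, Nat.card (phi A hab g).range = p → Nat.card (phi A hab h).range = p →
      (phi A hab g).ker = (phi A hab h).ker) :
    ((phi A hab g₀).ker.map A.subtype).Normal := by
  constructor
  rintro _ ⟨a, ha, rfl⟩ x
  have h1 := hall (x * g₀ * x⁻¹) g₀ (card_range_phi_conj A hab hp HP x g₀ hg₀) hg₀
  refine ⟨MulAut.conjNormal x a, ?_, MulAut.conjNormal_apply x a⟩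
  rw [SetLike.mem_coe, ← h1, MonoidHom.mem_ker]
  apply Subtype.ext
  rw [phi_conj, MonoidHom.mem_ker.1 ha]
  simp

end Phi

section LemmaB

variable {G : Type*} [Group G]

/-- A nontrivial finite group with squarefree class sizes has a normal subgroup of prime
order. -/
theorem exists_normal_prime_card [Finite G] [Nontrivial G] (hsf : SF G) :
    ∃ L : Subgroup G, L.Normal ∧ (Nat.card L).Prime := by
  have hsolv : Group.IsSolvable G := hsf.solvable
  obtain ⟨N, hNn, hN1, -, hmin⟩ :=
    Cfsg.Agent.Lib.Helper64.MinNonClosed.exists_minimal_normal_le (⊤ : Subgroup G)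
      inferInstance top_ne_bot
  have hab : ∀ a ∈ N, ∀ b ∈ N, a * b = b * a := by
    have h1 : ⁅N, N⁆ < N := Group.IsSolvable.commutator_lt_of_ne_bot hN1
    have h2 : ⁅N, N⁆ = ⊥ := (hmin _ inferInstance h1.le).resolve_right h1.ne
    have h3 := commutator_eq_bot_iff_le_centralizer.1 h2
    intro a ha b hb
    exact ((mem_centralizer_iff.1 (h3 ha)) b hb).symm
  have hN1' : Nat.card N ≠ 1 := fun h => hN1 (eq_bot_of_card_eq _ h)
  obtain ⟨p, hp, hpd⟩ := Nat.exists_prime_and_dvd hN1'
  have : Fact p.Prime := ⟨hp⟩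
  have hNp : IsPGroup p N := by
    have hΩn : (Cfsg.Agent.Lib.Helper69.ItoA.sPart p N hab).Normal := ⟨fun w hw g => by
      obtain ⟨hwN, k, hk⟩ := hw
      exact ⟨hNn.conj_mem w hwN g, k, by rw [conj_pow, hk]; simp⟩⟩
    have hΩle : Cfsg.Agent.Lib.Helper69.ItoA.sPart p N hab ≤ N := fun w hw => hw.1
    have hΩcard := Cfsg.Agent.Lib.Helper69.ItoA.card_sPart p N hab
    have hΩ1 : Cfsg.Agent.Lib.Helper69.ItoA.sPart p N hab ≠ ⊥ := by
      intro h
      rw [h, card_bot] at hΩcard
      have hv : 0 < (Nat.card N).factorization p :=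
        hp.factorization_pos_of_dvd Nat.card_pos.ne' hpd
      have := Nat.one_lt_pow hv.ne' hp.one_lt
      omega
    have hΩN : Cfsg.Agent.Lib.Helper69.ItoA.sPart p N hab = N :=
      (hmin _ hΩn hΩle).resolve_left hΩ1
    rintro ⟨w, hw⟩
    have hw' : w ∈ Cfsg.Agent.Lib.Helper69.ItoA.sPart p N hab := by rw [hΩN]; exact hw
    obtain ⟨_, k, hk⟩ := hw'
    exact ⟨k, Subtype.ext (by simpa using hk)⟩
  have HP := fun g => card_range_phi_of_sf N hab hsf hNp g
  by_cases hall1 : ∀ g, Nat.card (phi N hab g).range = 1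
  · obtain ⟨x, hx⟩ := exists_prime_orderOf_dvd_card' p hpd
    refine ⟨zpowers (x : G), ?_, ?_⟩
    · constructor
      intro z hz g
      have hxc : g * (x : G) = x * g := by
        have h1 : (phi N hab g).range = ⊥ := eq_bot_of_card_eq _ (hall1 g)
        have h2 : phi N hab g x ∈ (phi N hab g).range := ⟨x, rfl⟩
        rw [h1, mem_bot] at h2
        exact (mem_ker_phi N hab g x).1 (MonoidHom.mem_ker.2 h2)
      obtain ⟨i, rfl⟩ := mem_zpowers_iff.1 hz
      have hc : Commute g (x : G) := hxc
      have h3 : g * (x : G) ^ i * g⁻¹ = (x : G) ^ i := by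
        rw [(hc.zpow_right i).eq]; group
      rw [h3]; exact zpow_mem (mem_zpowers _) i
    · rw [Nat.card_zpowers, Subgroup.orderOf_coe, hx]; exact hp
  · push Not at hall1
    obtain ⟨g₀, hg₀⟩ := hall1
    have hg₀p : Nat.card (phi N hab g₀).range = p := (HP g₀).resolve_left hg₀
    have hcard := card_ker_mul_card_range N hab g₀
    rw [hg₀p] at hcard
    rcases exists_dichotomy N hab hp HP with hR | hK
    · refine ⟨(phi N hab g₀).range.map N.subtype, range_normal N hab hp HP g₀ hg₀p hR, ?_⟩
      rw [card_map_of_injective N.subtype_injective, hg₀p]; exact hp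
    · have hKn := ker_normal N hab hp HP g₀ hg₀p hK
      have hKle : (phi N hab g₀).ker.map N.subtype ≤ N := map_subtype_le _
      rcases hmin _ hKn hKle with h | h
      · refine ⟨N, hNn, ?_⟩
        have h1 : (phi N hab g₀).ker = ⊥ := by
          rw [eq_bot_iff]
          intro a ha
          have h2 : (a : G) ∈ (phi N hab g₀).ker.map N.subtype := ⟨a, ha, rfl⟩
          rw [h, mem_bot] at h2
          exact mem_bot.2 (Subtype.ext h2)
        rw [h1, card_bot, one_mul] at hcard
        rw [← hcard]; exact hp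
      · exfalso
        have h1 : (phi N hab g₀).ker = ⊤ := by
          rw [eq_top_iff]
          intro a _
          have h2 : (a : G) ∈ (phi N hab g₀).ker.map N.subtype := by rw [h]; exact a.2
          obtain ⟨b, hb, hba⟩ := h2
          have h3 : b = a := Subtype.ext hba
          exact h3 ▸ hb
        rw [h1, card_top] at hcard
        have h4 : 0 < Nat.card N := Nat.card_pos
        have h5 : p = 1 := by nlinarith
        exact hp.one_lt.ne' h5

end LemmaB

theorem SF.supersolvable_aux (n : ℕ) :
    ∀ (X : Type u) [Group X] [Finite X], Nat.card X = n → SF X → Cfsg.IsSupersolvable X := by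
  induction n using Nat.strong_induction_on with
  | _ n ih =>
    intro X _ _ hn hsf
    by_cases h1 : Subsingleton X
    · exact Cfsg.Agent.H9.isSupersolvable_of_subsingleton
    · have : Nontrivial X := not_subsingleton_iff_nontrivial.1 h1
      obtain ⟨L, hLn, hLp⟩ := exists_normal_prime_card hsf
      have := hLn
      have : Fact (Nat.card L).Prime := ⟨hLp⟩
      have hcyc : IsCyclic L := isCyclic_of_prime_card (p := Nat.card L) rfl
      apply Cfsg.Agent.H9.isSupersolvable_of_cyclic_normal L hcyc
      apply ih (Nat.card (X ⧸ L)) ?_ (X ⧸ L) rfl (hsf.quotient L)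
      rw [← hn, ← index_eq_card]
      have h2 := card_mul_index L
      have h3 := hLp.one_lt
      have h4 : 0 < L.index := Nat.pos_of_ne_zero index_ne_zero_of_finite
      nlinarith

/-- A finite group with squarefree class sizes is supersolvable. -/
theorem SF.supersolvable {X : Type u} [Group X] [Finite X] (h : SF X) :
    Cfsg.IsSupersolvable X :=
  SF.supersolvable_aux (Nat.card X) X rfl h

end Cfsg.Agent.Lib.Helper63.SFSolv
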