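import Mathlib
import Cfsg.Agent.Lib.Helper63.SFSolv
import Cfsg.Agent.Lib.Helper9.SSHall
import Cfsg.Agent.Lib.Helper20.Transfer

/-!
Groups all of whose class sizes are squarefree (helper63): the order of the derived subgroup is
squarefree.
-/

set_option autoImplicit false

namespace Cfsg.Agent.Lib.Helper63.SFDerived

open Subgroup
open Cfsg.Agent.Lib.Helper63.SFNilp
open Cfsg.Agent.Lib.Helper63.SFSolv

universe u

section Basic

variable {G : Type*} [Group G]

theorem relIndex_centralizer_of_sf [Finite G] {p : ℕ} [hp : Fact p.Prime] (hsf : SF G)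
    (P : Subgroup G) [P.Normal] (hP : IsPGroup p P) (u : G) :
    (centralizer ({u} : Set G)).relIndex P = 1 ∨ (centralizer ({u} : Set G)).relIndex P = p := by
  obtain ⟨k, hk⟩ := IsPGroup.iff_card.1 hP
  have h1 : (centralizer ({u} : Set G)).relIndex P ∣ p ^ k := hk ▸ relIndex_dvd_card _ _
  obtain ⟨j, -, hj⟩ := (Nat.dvd_prime_pow hp.out).1 h1
  have h2 : Squarefree ((centralizer ({u} : Set G)).relIndex P) :=
    Squarefree.squarefree_of_dvd
      (Cfsg.Agent.Lib.Helper67.ClassSize.relIndex_dvd_index_of_normal_right P _) (hsf u)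
  rw [hj] at h2 ⊢
  rcases Nat.lt_or_ge j 2 with h | h
  · interval_cases j <;> simp
  · exfalso
    have : p * p ∣ p ^ j := by rw [← sq]; exact pow_dvd_pow p h
    exact hp.out.one_lt.ne' (Nat.isUnit_iff.1 (h2 p this))

/-- Focal subgroup bound: if all commutators `[x, u]` with `x ∈ P` lie in `Z`, then
`|G' ∩ P| ≤ |Z|`. -/
theorem card_commutator_inf_le_of_forall [Finite G] {p : ℕ} [Fact p.Prime] (P : Sylow p G)
    (Z : Subgroup G) (hZ : ∀ x ∈ P, ∀ u : G, x * u * x⁻¹ * u⁻¹ ∈ Z) :
    Nat.card ↥(commutator G ⊓ (P : Subgroup G)) ≤ Nat.card Z := by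
  apply card_le_of_le
  rw [Subgroup.commutator_inf_eq_focalSubgroup, focalSubgroup_def, closure_le]
  rintro g ⟨-, x, hx, u, rfl⟩
  exact hZ x hx u

open scoped IsMulCommutative in
/-- A central element of an abelian Sylow subgroup lying in the derived subgroup is trivial. -/
theorem eq_one_of_mem_center_of_mem_commutator [Finite G] {p : ℕ} [hp : Fact p.Prime]
    (P : Sylow p G) (hab : ∀ a ∈ P, ∀ b ∈ P, a * b = b * a) (z : G) (hzP : z ∈ P)
    (hzc : z ∈ center G) (hz : z ∈ commutator G) : z = 1 := by
  have : IsMulCommutative P := ⟨⟨fun a b => Subtype.ext (hab a a.2 b b.2)⟩⟩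
  have h1 := MonoidHom.transfer_eq_pow (MonoidHom.id P) z (fun k g₀ _ => by
    have := mem_center_iff.1 ((center G).pow_mem hzc k) g₀
    rw [mul_assoc, ← this]; group)
  have h2 : MonoidHom.transfer (MonoidHom.id P) z = 1 :=
    MonoidHom.mem_ker.1 (Abelianization.commutator_subset_ker _ hz)
  rw [h2] at h1
  have h3 : z ^ (P : Subgroup G).index = 1 := by
    have := congrArg Subtype.val h1
    simpa using this.symm
  exact Cfsg.Agent.Lib.Helper69.PNil.eq_one_of_pElem_of_coprime z
    (Cfsg.Agent.Lib.Helper69.PNil.pElem_of_mem_isPGroup P P.2 z hzP) _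
    ((Nat.Prime.coprime_iff_not_dvd hp.out).2 P.not_dvd_index).symm h3

end Basic

section Kappa

variable {Q : Type*} [Group Q] (hc : ∀ a b : Q, a * b * a⁻¹ * b⁻¹ ∈ center Q)

/-- The commutator map `b ↦ a b a⁻¹ b⁻¹` in a group with central commutators. -/
def kappa (a : Q) : Q →* Q where
  toFun b := a * b * a⁻¹ * b⁻¹
  map_one' := by group
  map_mul' b c := by
    have h := mem_center_iff.1 (hc a c) b⁻¹
    calc a * (b * c) * a⁻¹ * (b * c)⁻¹ = a * b * a⁻¹ * ((a * c * a⁻¹ * c⁻¹) * b⁻¹) := by group
      _ = a * b * a⁻¹ * (b⁻¹ * (a * c * a⁻¹ * c⁻¹)) := by rw [h]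
      _ = a * b * a⁻¹ * b⁻¹ * (a * c * a⁻¹ * c⁻¹) := by group

theorem kappa_apply (a b : Q) : kappa hc a b = a * b * a⁻¹ * b⁻¹ := rfl

theorem ker_kappa (a : Q) : (kappa hc a).ker = centralizer ({a} : Set Q) := by
  ext b
  rw [MonoidHom.mem_ker, kappa_apply, mem_centralizer_iff]
  simp only [Set.mem_singleton_iff, forall_eq]
  constructor
  · intro h
    calc a * b = a * b * a⁻¹ * b⁻¹ * (b * a) := by group
      _ = b * a := by rw [h, one_mul]
  · intro h
    rw [h]; group

theorem card_range_kappa (a : Q) :
    Nat.card (kappa hc a).range = (centralizer ({a} : Set Q)).index := by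
  rw [← index_ker, ker_kappa]

theorem kappa_mul (a b c : Q) : kappa hc (a * b) c = kappa hc a c * kappa hc b c := by
  simp only [kappa_apply]
  have h1 := mem_center_iff.1 (hc b c) a
  have h2 := mem_center_iff.1 (hc b c) (a * c * a⁻¹ * c⁻¹)
  calc a * b * c * (a * b)⁻¹ * c⁻¹ = a * (b * c * b⁻¹ * c⁻¹) * (c * a⁻¹ * c⁻¹) := by group
    _ = b * c * b⁻¹ * c⁻¹ * a * (c * a⁻¹ * c⁻¹) := by rw [h1]
    _ = b * c * b⁻¹ * c⁻¹ * (a * c * a⁻¹ * c⁻¹) := by group
    _ = a * c * a⁻¹ * c⁻¹ * (b * c * b⁻¹ * c⁻¹) := by rw [h2]

include hc in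
/-- Knoche-type bound: with central commutators and all class sizes `1` or `p`, the commutators
lie in a subgroup of order at most `p`. -/
theorem exists_small_commutator [Finite Q] {p : ℕ} (hp : p.Prime)
    (HQ : ∀ a : Q, (centralizer ({a} : Set Q)).index = 1 ∨
      (centralizer ({a} : Set Q)).index = p) :
    ∃ Z : Subgroup Q, Nat.card Z ≤ p ∧ ∀ a b : Q, a * b * a⁻¹ * b⁻¹ ∈ Z := by
  have triv : ∀ a : Q, (centralizer ({a} : Set Q)).index = 1 → ∀ b, a * b * a⁻¹ * b⁻¹ = 1 := by
    intro a ha b
    have h1 : b ∈ centralizer ({a} : Set Q) := by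
      rw [index_eq_one.1 ha]; exact mem_top b
    rw [mem_centralizer_iff] at h1
    rw [h1 a rfl]; group
  by_cases hall1 : ∀ a : Q, (centralizer ({a} : Set Q)).index = 1
  · refine ⟨⊥, by rw [card_bot]; exact hp.one_lt.le, fun a b => ?_⟩
    rw [mem_bot]; exact triv a (hall1 a) b
  · push Not at hall1
    obtain ⟨a₀, ha₀⟩ := hall1
    have ha₀p : Nat.card (kappa hc a₀).range = p := by
      rw [card_range_kappa]; exact (HQ a₀).resolve_left ha₀
    have hd := dichotomy (I := {a : Q // Nat.card (kappa hc a).range = p})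
      (fun i => (kappa hc i.1).range) (fun i => (kappa hc i.1).ker)
      (fun i j => by
        by_cases hne : (kappa hc i.1).range = (kappa hc j.1).range
        · exact Or.inl hne
        · right
          apply ker_eq_of_range_ne hp (kappa hc i.1) (kappa hc j.1) (kappa hc (i.1 * j.1))
            (fun c => kappa_mul hc i.1 j.1 c) i.2 j.2 ?_ hne
          rw [card_range_kappa]
          rcases HQ (i.1 * j.1) with h | h
          · rw [h]; exact hp.one_lt.le
          · rw [h])
    rcases hd with hR | hK
    · refine ⟨(kappa hc a₀).range, ha₀p.le, fun a b => ?_⟩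
      rcases HQ a with h | h
      · rw [triv a h b]; exact one_mem _
      · have h1 : Nat.card (kappa hc a).range = p := by rw [card_range_kappa]; exact h
        have h2 := hR ⟨a, h1⟩ ⟨a₀, ha₀p⟩
        simp only at h2
        rw [← h2]
        exact ⟨b, rfl⟩
    · exfalso
      have htop : centralizer ({a₀} : Set Q) = ⊤ := by
        rw [eq_top_iff]
        intro a _
        rcases HQ a with h | h
        · have h1 : a₀ ∈ centralizer ({a} : Set Q) := by
            rw [index_eq_one.1 h]; exact mem_top _
          rw [mem_centralizer_iff] at h1 ⊢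
          intro x hx
          rw [Set.mem_singleton_iff] at hx; subst hx
          exact (h1 a rfl).symm
        · have h1 : Nat.card (kappa hc a).range = p := by rw [card_range_kappa]; exact h
          have h2 := hK ⟨a, h1⟩ ⟨a₀, ha₀p⟩
          simp only at h2
          rw [← ker_kappa hc, ← h2, MonoidHom.mem_ker, kappa_apply]
          group
      apply ha₀
      rw [htop, index_top]

end Kappa

section Main

variable {G : Type*} [Group G]

theorem le_of_prime_index [Finite G] {p : ℕ} (hp : p.Prime) (C D P : Subgroup G) (hCD : C ≤ D)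
    (hDP : D ≤ P) (hcard : Nat.card C * p = Nat.card P) (hne : ¬ D ≤ C) : P ≤ D := by
  obtain ⟨j, hj⟩ := card_dvd_of_le hCD
  have h1 : Nat.card D ∣ Nat.card P := card_dvd_of_le hDP
  rw [hj, ← hcard] at h1
  have h2 : j ∣ p := Nat.dvd_of_mul_dvd_mul_left Nat.card_pos h1
  rcases (Nat.dvd_prime hp).1 h2 with h | h
  · exfalso
    rw [h, mul_one] at hj
    exact hne (eq_of_le_of_card_ge hCD hj.le).ge
  · rw [h, hcard] at hj
    exact (eq_of_le_of_card_ge hDP hj.ge).ge

/-- If the normal Sylow `p`-subgroup `P` is nonabelian, every `p'`-element centralizes it. -/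
theorem commute_of_coprime_of_nonabelian [Finite G] {p : ℕ} [hp : Fact p.Prime] (hsf : SF G)
    (P : Sylow p G) [hPn : (P : Subgroup G).Normal]
    (hnab : ¬ ∀ a ∈ P, ∀ b ∈ P, a * b = b * a) (y : G) (hy : (orderOf y).Coprime p) :
    ∀ a ∈ P, y * a = a * y := by
  by_contra hcon
  have H := fun u => relIndex_centralizer_of_sf hsf (P : Subgroup G) P.2 u
  set C := (P : Subgroup G) ⊓ centralizer ({y} : Set G) with hC
  have hCP : C ≤ (P : Subgroup G) := inf_le_left
  have hrel : (centralizer ({y} : Set G)).relIndex P = p := by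
    refine (H y).resolve_left (fun h => hcon ?_)
    intro a ha
    have := relIndex_eq_one.1 h ha
    rw [mem_centralizer_iff] at this
    exact this y rfl
  have hcardC : Nat.card C * p = Nat.card (P : Subgroup G) := by
    have h0 := Cfsg.Agent.Lib.Helper67.ClassSize.card_eq_card_mul_relIndex hCP
    rw [hC, inf_relIndex_left, hrel] at h0
    exact h0
  have hCab : ∀ x ∈ C, ∀ c ∈ C, x * c = c * x := by
    intro x hx c hc
    have hxP : x ∈ (P : Subgroup G) := (mem_inf.1 hx).1
    have hxy : Commute x y := by
      have := (mem_inf.1 hx).2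
      rw [mem_centralizer_iff] at this
      exact (this y rfl).symm
    obtain ⟨k, hk⟩ := Cfsg.Agent.Lib.Helper69.PNil.pElem_of_mem_isPGroup P P.2 x hxP
    have hcop : (orderOf x).Coprime (orderOf y) := by
      rw [hk]; exact Nat.Coprime.pow_left k hy.symm
    have hcent := Cfsg.Agent.Lib.Helper69.ItoA.centralizer_mul_of_coprime x y hxy hcop
    have hCuC : (P : Subgroup G) ⊓ centralizer ({x * y} : Set G) ≤ C := by
      rw [hcent, hC]
      exact inf_le_inf_left _ inf_le_right
    have hrelu : (centralizer ({x * y} : Set G)).relIndex P = p := by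
      refine (H (x * y)).resolve_left (fun h => hcon ?_)
      intro a ha
      have h1 := relIndex_eq_one.1 h ha
      rw [hcent] at h1
      have h2 := (mem_inf.1 h1).2
      rw [mem_centralizer_iff] at h2
      exact h2 y rfl
    have hcardCu : Nat.card ↥((P : Subgroup G) ⊓ centralizer ({x * y} : Set G)) * p =
        Nat.card (P : Subgroup G) := by
      have h0 := Cfsg.Agent.Lib.Helper67.ClassSize.card_eq_card_mul_relIndex
        (inf_le_left : (P : Subgroup G) ⊓ centralizer ({x * y} : Set G) ≤ (P : Subgroup G))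
      rw [inf_relIndex_left, hrelu] at h0
      exact h0
    have hCuEq : (P : Subgroup G) ⊓ centralizer ({x * y} : Set G) = C :=
      eq_of_le_of_card_ge hCuC
        (Nat.eq_of_mul_eq_mul_right hp.out.pos (hcardC.trans hcardCu.symm)).le
    have hcCu : c ∈ (P : Subgroup G) ⊓ centralizer ({x * y} : Set G) := by
      rw [hCuEq]; exact hc
    have h3 := (mem_inf.1 hcCu).2
    rw [hcent] at h3
    have h4 := (mem_inf.1 h3).1
    rw [mem_centralizer_iff] at h4
    exact h4 x rfl
  have hcomm := commutator_mem_of_card_dvd (P : Subgroup G) C P.2 hCP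
    (by rw [← hcardC, mul_comm])
  have hw : ∀ a ∈ P, a⁻¹ * (y * a * y⁻¹) ∈ C := by
    intro a ha
    by_contra hwC
    have hwP : a⁻¹ * (y * a * y⁻¹) ∈ (P : Subgroup G) :=
      mul_mem (inv_mem ha) (hPn.conj_mem a ha y)
    have hwc : ∀ c ∈ C, a⁻¹ * (y * a * y⁻¹) * c = c * (a⁻¹ * (y * a * y⁻¹)) := by
      intro c hc
      have h1 : a * c * a⁻¹ ∈ C := by
        have h2 := C.mul_mem (hcomm a ha c (mem_inf.1 hc).1) hc
        have h3 : a * c * a⁻¹ * c⁻¹ * c = a * c * a⁻¹ := by group
        rwa [h3] at h2
      have h2 : y * (a * c * a⁻¹) = (a * c * a⁻¹) * y := by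
        have := (mem_inf.1 h1).2
        rw [mem_centralizer_iff] at this
        exact this y rfl
      have h3 : y * c = c * y := by
        have := (mem_inf.1 hc).2
        rw [mem_centralizer_iff] at this
        exact this y rfl
      have h3' : y⁻¹ * c = c * y⁻¹ := by
        calc y⁻¹ * c = y⁻¹ * (c * y) * y⁻¹ := by group
          _ = y⁻¹ * (y * c) * y⁻¹ := by rw [h3]
          _ = c * y⁻¹ := by group
      calc a⁻¹ * (y * a * y⁻¹) * c = a⁻¹ * y * a * (y⁻¹ * c) := by group
        _ = a⁻¹ * y * a * (c * y⁻¹) := by rw [h3']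
        _ = a⁻¹ * (y * (a * c * a⁻¹)) * a * y⁻¹ := by group
        _ = a⁻¹ * ((a * c * a⁻¹) * y) * a * y⁻¹ := by rw [h2]
        _ = c * (a⁻¹ * (y * a * y⁻¹)) := by group
    have hPD : (P : Subgroup G) ≤ (P : Subgroup G) ⊓ centralizer (C : Set G) := by
      apply le_of_prime_index hp.out C _ _ ?_ inf_le_left hcardC ?_
      · intro c hc
        refine mem_inf.2 ⟨hCP hc, ?_⟩
        rw [mem_centralizer_iff]
        intro h hh
        exact hCab h hh c hc
      · intro hle
        apply hwC
        apply hle
        refine mem_inf.2 ⟨hwP, ?_⟩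
        rw [mem_centralizer_iff]
        intro h hh
        exact (hwc h hh).symm
    have hPC : ∀ a' ∈ P, ∀ c ∈ C, c * a' = a' * c := by
      intro a' ha' c hc
      have := (mem_inf.1 (hPD ha')).2
      rw [mem_centralizer_iff] at this
      exact this c hc
    apply hnab
    intro a' ha' b' hb'
    by_cases ha'C : a' ∈ C
    · exact hPC b' hb' a' ha'C
    · have hPD' : (P : Subgroup G) ≤ (P : Subgroup G) ⊓ centralizer ({a'} : Set G) := by
        apply le_of_prime_index hp.out C _ _ ?_ inf_le_left hcardC ?_
        · intro c hc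
          refine mem_inf.2 ⟨hCP hc, ?_⟩
          rw [mem_centralizer_iff]
          intro h hh
          rw [Set.mem_singleton_iff] at hh; subst hh
          exact (hPC h ha' c hc).symm
        · intro hle
          apply ha'C
          apply hle
          refine mem_inf.2 ⟨ha', ?_⟩
          rw [mem_centralizer_iff]
          intro h hh
          rw [Set.mem_singleton_iff] at hh; subst hh
          rfl
      have := (mem_inf.1 (hPD' hb')).2
      rw [mem_centralizer_iff] at this
      exact this a' rfl
  apply hcon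
  intro a ha
  have hwC := hw a ha
  have hwy : y * (a⁻¹ * (y * a * y⁻¹)) = (a⁻¹ * (y * a * y⁻¹)) * y := by
    have := (mem_inf.1 hwC).2
    rw [mem_centralizer_iff] at this
    exact this y rfl
  have hya : y * a = a * (a⁻¹ * (y * a * y⁻¹)) * y := by group
  have hpow : ∀ k : ℕ, y ^ k * a = a * (a⁻¹ * (y * a * y⁻¹)) ^ k * y ^ k := by
    intro k
    induction k with
    | zero => simp
    | succ k ih =>
      have hc : Commute y (a⁻¹ * (y * a * y⁻¹)) := hwy
      have hck := (hc.pow_right k).eq
      calc y ^ (k + 1) * a = y * (y ^ k * a) := by rw [pow_succ']; group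
        _ = y * (a * (a⁻¹ * (y * a * y⁻¹)) ^ k * y ^ k) := by rw [ih]
        _ = (y * a) * (a⁻¹ * (y * a * y⁻¹)) ^ k * y ^ k := by group
        _ = a * (a⁻¹ * (y * a * y⁻¹)) * (y * (a⁻¹ * (y * a * y⁻¹)) ^ k) * y ^ k := by
            rw [hya]; group
        _ = a * (a⁻¹ * (y * a * y⁻¹)) * ((a⁻¹ * (y * a * y⁻¹)) ^ k * y) * y ^ k := by rw [hck]
        _ = a * (a⁻¹ * (y * a * y⁻¹)) ^ (k + 1) * y ^ (k + 1) := by
            have aux : ∀ w : G, a * w * (w ^ k * y) * y ^ k = a * w ^ (k + 1) * y ^ (k + 1) := by
              intro w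
              rw [pow_succ' w k, pow_succ' y k]
              simp only [mul_assoc]
            exact aux _
  have h1 := hpow (orderOf y)
  rw [pow_orderOf_eq_one, one_mul, mul_one] at h1
  have h2 : (a⁻¹ * (y * a * y⁻¹)) ^ orderOf y = 1 := by
    calc (a⁻¹ * (y * a * y⁻¹)) ^ orderOf y = a⁻¹ * (a * (a⁻¹ * (y * a * y⁻¹)) ^ orderOf y) := by
          group
      _ = 1 := by rw [← h1]; group
  have h3 := Cfsg.Agent.Lib.Helper69.PNil.eq_one_of_pElem_of_coprime (a⁻¹ * (y * a * y⁻¹))
    (Cfsg.Agent.Lib.Helper69.PNil.pElem_of_mem_isPGroup P P.2 _ (mem_inf.1 hwC).1) (orderOf y) hy h2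
  calc y * a = a * (a⁻¹ * (y * a * y⁻¹)) * y := hya
    _ = a * y := by rw [h3, mul_one]

end Main

section Bound

variable {G : Type*} [Group G]

/-- For a normal Sylow `p`-subgroup `P` of a group with squarefree class sizes,
`|G' ∩ P| ≤ p`. -/
theorem card_commutator_inf_sylow_le [Finite G] {p : ℕ} [hp : Fact p.Prime] (hsf : SF G)
    (P : Sylow p G) [hPn : (P : Subgroup G).Normal] :
    Nat.card ↥(commutator G ⊓ (P : Subgroup G)) ≤ p := by
  by_cases hab : ∀ a ∈ P, ∀ b ∈ P, a * b = b * a
  · have HP := fun g => card_range_phi_of_sf (P : Subgroup G) hab hsf P.2 g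
    have hcomm_phi : ∀ x ∈ P, ∀ u : G, x * u * x⁻¹ * u⁻¹ ∈
        (phi (P : Subgroup G) hab u).range.map (P : Subgroup G).subtype := by
      intro x hx u
      refine ⟨phi (P : Subgroup G) hab u ⟨x⁻¹, inv_mem hx⟩, ⟨_, rfl⟩, ?_⟩
      simp only [Subgroup.coe_subtype, phi_coe]
      group
    by_cases hall1 : ∀ g, Nat.card (phi (P : Subgroup G) hab g).range = 1
    · have h0 := card_commutator_inf_le_of_forall P ⊥ (fun x hx u => by
        have h1 := hcomm_phi x hx u
        rw [eq_bot_of_card_eq _ (hall1 u), Subgroup.map_bot] at h1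
        exact h1)
      rw [card_bot] at h0
      exact h0.trans hp.out.one_lt.le
    · push Not at hall1
      obtain ⟨g₀, hg₀⟩ := hall1
      have hg₀p := (HP g₀).resolve_left hg₀
      rcases exists_dichotomy (P : Subgroup G) hab hp.out HP with hR | hK
      · have h0 := card_commutator_inf_le_of_forall P
          ((phi (P : Subgroup G) hab g₀).range.map (P : Subgroup G).subtype) (fun x hx u => by
            have h1 := hcomm_phi x hx u
            rcases HP u with h | h
            · rw [eq_bot_of_card_eq _ h, Subgroup.map_bot, mem_bot] at h1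
              rw [h1]; exact one_mem _
            · rw [hR u g₀ h hg₀p] at h1; exact h1)
        rw [card_map_of_injective (P : Subgroup G).subtype_injective, hg₀p] at h0
        exact h0
      · have hcen : ∀ k ∈ (phi (P : Subgroup G) hab g₀).ker, ((k : P) : G) ∈ center G := by
          intro k hk
          rw [mem_center_iff]
          intro u
          rcases HP u with h | h
          · have h1 : phi (P : Subgroup G) hab u k ∈ (phi (P : Subgroup G) hab u).range :=
              ⟨k, rfl⟩
            rw [eq_bot_of_card_eq _ h, mem_bot] at h1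
            exact (mem_ker_phi (P : Subgroup G) hab u k).1 (MonoidHom.mem_ker.2 h1)
          · have h1 : k ∈ (phi (P : Subgroup G) hab u).ker := by
              rw [hK u g₀ h hg₀p]; exact hk
            exact (mem_ker_phi (P : Subgroup G) hab u k).1 h1
        have hcardH : Nat.card ((commutator G ⊓ (P : Subgroup G)).subgroupOf (P : Subgroup G)) =
            Nat.card ↥(commutator G ⊓ (P : Subgroup G)) :=
          Nat.card_congr (subgroupOfEquivOfLe inf_le_right).toEquiv
        have hinj : Function.Injective
            (fun h : (commutator G ⊓ (P : Subgroup G)).subgroupOf (P : Subgroup G) =>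
              ((h : P) : P ⧸ (phi (P : Subgroup G) hab g₀).ker)) := by
          intro h₁ h₂ heq
          have h1 : (h₁ : P)⁻¹ * (h₂ : P) ∈ (phi (P : Subgroup G) hab g₀).ker :=
            QuotientGroup.eq.1 heq
          have h2 : (((h₁ : P)⁻¹ * (h₂ : P) : P) : G) ∈ commutator G := by
            have h3 := mul_mem (inv_mem h₁.2) h₂.2
            rw [mem_subgroupOf] at h3
            exact (mem_inf.1 h3).1
          have h3 := eq_one_of_mem_center_of_mem_commutator P hab _ (SetLike.coe_mem _)
            (hcen _ h1) h2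
          have h4 : (h₁ : P)⁻¹ * (h₂ : P) = 1 := Subtype.ext h3
          exact Subtype.ext (inv_mul_eq_one.1 h4)
        have h5 := Nat.card_le_card_of_injective _ hinj
        rw [hcardH, ← index_eq_card, index_ker, hg₀p] at h5
        exact h5
  · have hc : ∀ a b : (P : Subgroup G), a * b * a⁻¹ * b⁻¹ ∈ center (P : Subgroup G) := by
      intro a b
      rw [mem_center_iff]
      intro g
      have h1 := sylow_commutator_mem_center (hsf.cs p) P a a.2 b b.2
      rw [mem_center_iff] at h1
      apply Subtype.ext
      simpa using h1 (g : G)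
    have HQ : ∀ a : (P : Subgroup G), (centralizer ({a} : Set (P : Subgroup G))).index = 1 ∨
        (centralizer ({a} : Set (P : Subgroup G))).index = p := by
      intro a
      have h1 : centralizer ({a} : Set (P : Subgroup G)) =
          (centralizer ({(a : G)} : Set G)).subgroupOf (P : Subgroup G) := by
        ext y
        rw [mem_subgroupOf, mem_centralizer_iff, mem_centralizer_iff]
        simp only [Set.mem_singleton_iff, forall_eq]
        constructor
        · intro h
          have := congrArg Subtype.val h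
          simpa using this
        · intro h
          exact Subtype.ext (by simpa using h)
      rw [h1]
      exact relIndex_centralizer_of_sf hsf (P : Subgroup G) P.2 (a : G)
    obtain ⟨Z, hZcard, hZ⟩ := exists_small_commutator hc hp.out HQ
    have hB2 := commute_of_coprime_of_nonabelian hsf P hab
    have h0 := card_commutator_inf_le_of_forall P (Z.map (P : Subgroup G).subtype)
      (fun x hx u => by
        obtain ⟨m, n, hm, hn, hmn⟩ := Cfsg.Agent.Lib.Helper69.PNil.exists_pow_decomp p u
        have hu1 : u ^ m ∈ (P : Subgroup G) := by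
          have hpg := Cfsg.Agent.Lib.Helper69.PNil.isPGroup_zpowers (u ^ m) hm
          obtain ⟨Q, hQ⟩ := hpg.exists_le_sylow
          have hQP : Q = P := by
            obtain ⟨g, hg⟩ := MulAction.exists_smul_eq G P Q
            rw [← hg]; exact Sylow.smul_eq_of_normal
          rw [← hQP]; exact hQ (mem_zpowers _)
        have hu2 := hB2 (u ^ n) hn
        have h1 : x * (u ^ m * u ^ n) * x⁻¹ * (u ^ m * u ^ n)⁻¹ =
            x * u ^ m * x⁻¹ * (u ^ m)⁻¹ := by
          have h2 := hu2 x⁻¹ (inv_mem hx)
          calc x * (u ^ m * u ^ n) * x⁻¹ * (u ^ m * u ^ n)⁻¹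
              = x * u ^ m * (u ^ n * x⁻¹) * (u ^ n)⁻¹ * (u ^ m)⁻¹ := by group
            _ = x * u ^ m * (x⁻¹ * u ^ n) * (u ^ n)⁻¹ * (u ^ m)⁻¹ := by rw [h2]
            _ = x * u ^ m * x⁻¹ * (u ^ m)⁻¹ := by group
        rw [hmn] at h1
        rw [h1]
        exact ⟨(⟨x, hx⟩ : (P : Subgroup G)) * ⟨u ^ m, hu1⟩ * (⟨x, hx⟩ : (P : Subgroup G))⁻¹ *
          (⟨u ^ m, hu1⟩ : (P : Subgroup G))⁻¹, hZ _ _, by simp⟩)
    rw [card_map_of_injective (P : Subgroup G).subtype_injective] at h0
    exact h0.trans hZcard

end Bound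

theorem SF.not_sq_dvd_aux (n : ℕ) :
    ∀ (X : Type u) [Group X] [Finite X], Nat.card X = n → SF X →
      ∀ p : ℕ, p.Prime → ¬ p ^ 2 ∣ Nat.card (commutator X) := by
  induction n using Nat.strong_induction_on with
  | _ n ih =>
    intro X _ _ hn hsf p hp hdvd
    have : Fact p.Prime := ⟨hp⟩
    have hX1 : Nat.card X ≠ 1 := by
      intro h1
      have hsub : Subsingleton X := (Nat.card_eq_one_iff_unique.1 h1).1
      have h2 : Nat.card (commutator X) = 1 :=
        Nat.card_eq_one_iff_unique.2 ⟨inferInstance, inferInstance⟩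
      rw [h2] at hdvd
      have h3 := Nat.le_of_dvd one_pos hdvd
      have h4 := hp.two_le
      nlinarith
    have hne : (Nat.card X).primeFactors.Nonempty :=
      Nat.nonempty_primeFactors.2 (by have := Nat.card_pos (α := X); omega)
    have hℓmem : (Nat.card X).primeFactors.max' hne ∈ (Nat.card X).primeFactors :=
      Finset.max'_mem _ _
    have hℓp : ((Nat.card X).primeFactors.max' hne).Prime := Nat.prime_of_mem_primeFactors hℓmem
    have hℓd : (Nat.card X).primeFactors.max' hne ∣ Nat.card X :=
      Nat.dvd_of_mem_primeFactors hℓmem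
    have hmax : ∀ q : ℕ, q.Prime → q ∣ Nat.card X → q ≤ (Nat.card X).primeFactors.max' hne :=
      fun q hq hd => Finset.le_max' _ q (Nat.mem_primeFactors.2 ⟨hq, hd, Nat.card_pos.ne'⟩)
    generalize (Nat.card X).primeFactors.max' hne = ℓ at hℓp hℓd hmax
    have : Fact ℓ.Prime := ⟨hℓp⟩
    obtain ⟨P⟩ : Nonempty (Sylow ℓ X) := inferInstance
    have hPn : (P : Subgroup X).Normal :=
      Cfsg.Agent.Lib.Helper9.SSHall.sylow_normal_of_supersolvable hsf.supersolvable ℓ hℓd hmax P
    by_cases hpl : p = ℓ
    · subst hpl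
      obtain ⟨Q, hQ⟩ := Sylow.exists_subgroup_card_pow_prime p hdvd
      have hQle : Q.map (commutator X).subtype ≤ commutator X ⊓ (P : Subgroup X) := by
        apply le_inf (map_subtype_le _)
        have hpg : IsPGroup p (Q.map (commutator X).subtype) := (IsPGroup.of_card hQ).map _
        obtain ⟨Q', hQ'⟩ := hpg.exists_le_sylow
        have hQP : Q' = P := by
          obtain ⟨g, hg⟩ := MulAction.exists_smul_eq X P Q'
          rw [← hg]; exact Sylow.smul_eq_of_normal
        rw [← hQP]; exact hQ'
      have h1 := card_le_of_le hQle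
      rw [card_map_of_injective (commutator X).subtype_injective, hQ] at h1
      have h2 := card_commutator_inf_sylow_le hsf P
      have h3 := hp.two_le
      nlinarith
    · have hlt : Nat.card (X ⧸ (P : Subgroup X)) < n := by
        rw [← hn, ← index_eq_card]
        have h2 := card_mul_index (P : Subgroup X)
        have h3 : 1 < Nat.card (P : Subgroup X) := by
          have h5 := Nat.le_of_dvd Nat.card_pos (P.dvd_card_of_dvd_card hℓd)
          have h6 := hℓp.two_le
          omega
        have h4 : 0 < (P : Subgroup X).index := Nat.pos_of_ne_zero index_ne_zero_of_finite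
        nlinarith
      apply ih _ hlt (X ⧸ (P : Subgroup X)) rfl (hsf.quotient _) p hp
      have hmap : (commutator X).map (QuotientGroup.mk' (P : Subgroup X)) =
          commutator (X ⧸ (P : Subgroup X)) := by
        rw [_root_.commutator_def, _root_.commutator_def, map_commutator,
          map_top_of_surjective _ (QuotientGroup.mk'_surjective _)]
      rw [← hmap]
      have hrange : ((QuotientGroup.mk' (P : Subgroup X)).comp (commutator X).subtype).range =
          (commutator X).map (QuotientGroup.mk' (P : Subgroup X)) := by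
        rw [MonoidHom.range_comp, range_subtype]
      have hker : ((QuotientGroup.mk' (P : Subgroup X)).comp (commutator X).subtype).ker =
          (P : Subgroup X).subgroupOf (commutator X) := by
        ext a
        rw [MonoidHom.mem_ker, mem_subgroupOf]
        simp
      have hcard : Nat.card ((QuotientGroup.mk' (P : Subgroup X)).comp
          (commutator X).subtype).ker * Nat.card ((QuotientGroup.mk' (P : Subgroup X)).comp
          (commutator X).subtype).range = Nat.card (commutator X) := by
        rw [← index_ker, card_mul_index]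
      rw [← hrange]
      have hcop : (p ^ 2).Coprime (Nat.card ((QuotientGroup.mk' (P : Subgroup X)).comp
          (commutator X).subtype).ker) := by
        have h1 : Nat.card ((QuotientGroup.mk' (P : Subgroup X)).comp
            (commutator X).subtype).ker ∣ Nat.card (P : Subgroup X) := by
          rw [hker]; exact card_comap_dvd_of_injective _ _ (subtype_injective _)
        obtain ⟨k, hk⟩ := IsPGroup.iff_card.1 P.2
        rw [hk] at h1
        obtain ⟨j, -, hj⟩ := (Nat.dvd_prime_pow hℓp).1 h1
        rw [hj]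
        exact Nat.Coprime.pow _ _ ((Nat.coprime_primes hp hℓp).2 hpl)
      rw [← hcard] at hdvd
      exact hcop.dvd_of_dvd_mul_left hdvd

/-- In a finite group with squarefree class sizes the order of the derived subgroup is
squarefree. -/
theorem SF.squarefree_card_commutator {X : Type u} [Group X] [Finite X] (h : SF X) :
    Squarefree (Nat.card (commutator X)) := by
  rw [Nat.squarefree_iff_prime_squarefree]
  intro p hp hd
  exact SF.not_sq_dvd_aux (Nat.card X) X rfl h p hp (by rwa [sq])

end Cfsg.Agent.Lib.Helper63.SFDerived
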