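import Mathlib
import Cfsg.Prelude.Def_Solvable

/-!
# A solvable subgroup central in every solvable overgroup is central

`main`: given Frobenius' theorem with a solvable kernel (as a hypothesis `hF`, supplied from
S0035 and S0042), if `A` is a solvable subgroup of a finite group `G` that is central in every
solvable subgroup containing it, then `A ≤ Z(G)`.

Proof: minimal counterexample.  Every proper subgroup containing `A` centralizes `A`; `Z(G) = 1`
(pass to `G/Z(G)`); `M = C_G(A)` is a Frobenius complement; the kernel `N` is solvable and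
normal, so `N A` is solvable and `N ≤ M`, a contradiction.
-/

set_option autoImplicit false

namespace Cfsg.Agent.Lib.Helper63.SolvCentral

open scoped Pointwise

universe u

theorem mem_conj_smul {G : Type*} [Group G] {H : Subgroup G} {c y : G} :
    y ∈ MulAut.conj c • H ↔ c⁻¹ * y * c ∈ H := by
  rw [Subgroup.mem_pointwise_smul_iff_inv_smul_mem]
  simp [MulAut.smul_def]

/-- the preimage of a solvable subgroup under the quotient by a solvable normal subgroup is
solvable -/
theorem solvable_comap_mk {G : Type*} [Group G] (N : Subgroup G) [N.Normal]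
    (hN : Group.IsSolvable N) (T : Subgroup (G ⧸ N)) (hT : Group.IsSolvable T) :
    Group.IsSolvable (T.comap (QuotientGroup.mk' N)) := by
  have hle : N ≤ T.comap (QuotientGroup.mk' N) := by
    intro n hn
    rw [Subgroup.mem_comap]
    have : (QuotientGroup.mk' N) n = 1 := (QuotientGroup.eq_one_iff n).mpr hn
    rw [this]; exact T.one_mem
  refine Group.isSolvable_of_ker_le_range (Subgroup.inclusion hle)
    ((QuotientGroup.mk' N).subgroupComap T) ?_
  intro x hx
  rw [MonoidHom.mem_ker] at hx
  have h1 : (QuotientGroup.mk' N) (x : G) = 1 := congrArg Subtype.val hx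
  have h2 : (x : G) ∈ N := (QuotientGroup.eq_one_iff _).mp h1
  exact ⟨⟨x, h2⟩, Subtype.ext rfl⟩

/-- an abelian subgroup together with an element normalizing it lies in a solvable subgroup -/
theorem exists_solvable_of_normalizes {G : Type*} [Group G] (B : Subgroup G)
    (hB : ∀ x ∈ B, ∀ y ∈ B, x * y = y * x) (g : G)
    (hg : g ∈ Subgroup.normalizer (B : Set G)) :
    ∃ S : Subgroup G, Group.IsSolvable S ∧ B ≤ S ∧ g ∈ S := by
  let N : Subgroup G := Subgroup.normalizer (B : Set G)
  have hBN : B ≤ N := Subgroup.le_normalizer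
  have hn : (B.subgroupOf N).Normal := Subgroup.normal_in_normalizer
  have hBs : Group.IsSolvable (B.subgroupOf N) := Group.isSolvable_of_comm (fun a b => by
    apply Subtype.ext; apply Subtype.ext
    exact hB _ (Subgroup.mem_subgroupOf.mp a.2) _ (Subgroup.mem_subgroupOf.mp b.2))
  let T : Subgroup (N ⧸ B.subgroupOf N) := Subgroup.zpowers (QuotientGroup.mk ⟨g, hg⟩)
  have hT : Group.IsSolvable T := Group.isSolvable_of_comm (fun a b =>
    (Subgroup.zpowers_isMulCommutative _).is_comm.comm a b)
  have hS' := solvable_comap_mk (B.subgroupOf N) hBs T hT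
  refine ⟨(T.comap (QuotientGroup.mk' (B.subgroupOf N))).map N.subtype, ?_, ?_, ?_⟩
  · exact Group.isSolvable_of_surjective (MonoidHom.subgroupMap_surjective N.subtype _)
  · intro b hb
    refine ⟨⟨b, hBN hb⟩, ?_, rfl⟩
    rw [SetLike.mem_coe, Subgroup.mem_comap]
    have : (QuotientGroup.mk' (B.subgroupOf N)) ⟨b, hBN hb⟩ = 1 :=
      (QuotientGroup.eq_one_iff _).mpr (Subgroup.mem_subgroupOf.mpr hb)
    rw [this]; exact T.one_mem
  · refine ⟨⟨g, hg⟩, ?_, rfl⟩
    rw [SetLike.mem_coe, Subgroup.mem_comap]
    exact Subgroup.mem_zpowers _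

/-- in a finite group, one-sided normalization suffices -/
theorem mem_normalizer_of_conj_mem {G : Type*} [Group G] [Finite G] (g : G) (B : Subgroup G)
    (h : ∀ b ∈ B, g * b * g⁻¹ ∈ B) : g ∈ Subgroup.normalizer (B : Set G) := by
  rw [Subgroup.mem_normalizer_iff]
  intro x
  refine ⟨h x, fun hx => ?_⟩
  let φ : B → B := fun b => ⟨g * b * g⁻¹, h b b.2⟩
  have hinj : Function.Injective φ := by
    intro b c hbc
    have h1 : g * (b : G) * g⁻¹ = g * (c : G) * g⁻¹ := congrArg Subtype.val hbc
    apply Subtype.ext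
    exact mul_left_cancel (mul_right_cancel h1)
  obtain ⟨b, hb⟩ := Finite.surjective_of_injective hinj ⟨g * x * g⁻¹, hx⟩
  have h1 : g * (b : G) * g⁻¹ = g * x * g⁻¹ := congrArg Subtype.val hb
  have h2 : (b : G) = x := mul_left_cancel (mul_right_cancel h1)
  rw [← h2]; exact b.2

theorem main
    (hF : ∀ (G : Type u) [Group G] [Finite G] (H : Subgroup G), Cfsg.IsFrobeniusComplement H →
      ∃ N : Subgroup G, N.Normal ∧ Group.IsSolvable N ∧ N ⊔ H = ⊤) :
    ∀ (n : ℕ) (G : Type u) [Group G] [Finite G], Nat.card G = n → ∀ (A : Subgroup G),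
      Group.IsSolvable A →
      (∀ S : Subgroup G, A ≤ S → Group.IsSolvable S → ∀ a ∈ A, ∀ s ∈ S, a * s = s * a) →
      A ≤ Subgroup.center G := by
  intro n
  induction n using Nat.strong_induction_on with
  | _ n ih =>
  intro G _ _ hn A hA hc
  by_contra hnot
  have hab : ∀ a ∈ A, ∀ b ∈ A, a * b = b * a := hc A le_rfl hA
  -- proper subgroups containing `A` centralize `A`
  have hsub : ∀ H : Subgroup G, H ≠ ⊤ → A ≤ H → ∀ a ∈ A, ∀ h ∈ H, a * h = h * a := by
    intro H hH hAH a ha h hh
    have hcard : Nat.card H < n := by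
      rw [← hn]
      exact lt_of_le_of_ne (Subgroup.card_le_card_group H)
        (fun e => hH (Subgroup.eq_top_of_card_eq H e))
    have hsol : Group.IsSolvable (A.subgroupOf H) :=
      Group.isSolvable_of_isSolvable_injective
        (f := (Subgroup.subgroupOfEquivOfLe hAH).toMonoidHom)
        (Subgroup.subgroupOfEquivOfLe hAH).injective
    have key := ih (Nat.card H) hcard H rfl (A.subgroupOf H) hsol (by
      intro S' hS' hsolS' a' ha' s' hs'
      have hsolS : Group.IsSolvable (S'.map H.subtype) :=
        Group.isSolvable_of_surjective (MonoidHom.subgroupMap_surjective H.subtype S')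
      have hAS : A ≤ S'.map H.subtype := by
        intro b hb
        exact ⟨⟨b, hAH hb⟩, hS' (Subgroup.mem_subgroupOf.mpr hb), rfl⟩
      have h1 := hc (S'.map H.subtype) hAS hsolS (a' : G) (Subgroup.mem_subgroupOf.mp ha')
        (s' : G) ⟨s', hs', rfl⟩
      exact Subtype.ext h1)
    have h1 := key (Subgroup.mem_subgroupOf.mpr ha : (⟨a, hAH ha⟩ : H) ∈ A.subgroupOf H)
    rw [Subgroup.mem_center_iff] at h1
    have h2 := h1 ⟨h, hh⟩
    exact (congrArg Subtype.val h2).symm
  -- the centre is trivial
  have hZ : Subgroup.center G = ⊥ := by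
    by_contra hZne
    apply hnot
    have hcard : Nat.card (G ⧸ Subgroup.center G) < n := by
      have h1 := Subgroup.card_eq_card_quotient_mul_card_subgroup (Subgroup.center G)
      have h2 : 1 < Nat.card (Subgroup.center G) :=
        (Subgroup.one_lt_card_iff_ne_bot (Subgroup.center G)).mpr hZne
      have h3 : 0 < Nat.card (G ⧸ Subgroup.center G) := Nat.card_pos
      rw [← hn, h1]; nlinarith
    have hZs : Group.IsSolvable (Subgroup.center G) := Group.isSolvable_of_comm (fun a b => by
      apply Subtype.ext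
      exact Subgroup.mem_center_iff.mp b.2 a)
    have hsolA : Group.IsSolvable (A.map (QuotientGroup.mk' (Subgroup.center G))) :=
      Group.isSolvable_of_surjective (MonoidHom.subgroupMap_surjective _ A)
    have key := ih _ hcard (G ⧸ Subgroup.center G) rfl
      (A.map (QuotientGroup.mk' (Subgroup.center G))) hsolA (by
      intro S' hS' hsolS' a' ha' s' hs'
      obtain ⟨a, ha, rfl⟩ := ha'
      obtain ⟨s, rfl⟩ := QuotientGroup.mk'_surjective (Subgroup.center G) s'
      have hS := solvable_comap_mk (Subgroup.center G) hZs S' hsolS'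
      have hAS : A ≤ S'.comap (QuotientGroup.mk' (Subgroup.center G)) :=
        Subgroup.map_le_iff_le_comap.mp hS'
      have h1 := hc _ hAS hS a ha s hs'
      rw [← map_mul, ← map_mul, h1])
    intro a ha
    rw [Subgroup.mem_center_iff]
    intro x
    obtain ⟨S', hS'sol, hcS', hxS'⟩ := exists_solvable_of_normalizes
      (Subgroup.center (G ⧸ Subgroup.center G))
      (fun x hx y _ => (Subgroup.mem_center_iff.mp hx y).symm)
      (QuotientGroup.mk' (Subgroup.center G) x)
      (by rw [Subgroup.normalizer_eq_top]; exact Subgroup.mem_top _)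
    have hS := solvable_comap_mk (Subgroup.center G) hZs S' hS'sol
    have hAS : A ≤ S'.comap (QuotientGroup.mk' (Subgroup.center G)) :=
      fun b hb => hcS' (key (Subgroup.mem_map_of_mem _ hb))
    exact (hc _ hAS hS a ha x hxS').symm
  set M := Subgroup.centralizer (A : Set G) with hM
  have hAM : A ≤ M := fun a ha => Subgroup.mem_centralizer_iff.mpr (fun b hb => hab b hb a ha)
  have hMtop : M ≠ ⊤ := by
    intro h
    apply hnot
    intro a ha
    rw [Subgroup.mem_center_iff]
    intro x
    have hx : x ∈ M := h ▸ Subgroup.mem_top x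
    exact (Subgroup.mem_centralizer_iff.mp hx a ha).symm
  have hMbot : M ≠ ⊥ := by
    intro h
    apply hnot
    have h1 : A = ⊥ := le_bot_iff.mp (h ▸ hAM)
    rw [h1]; exact bot_le
  have hcomm_of : ∀ H : Subgroup G, H ≠ ⊤ → A ≤ H → H ≤ M := by
    intro H hH hAH h hh
    exact Subgroup.mem_centralizer_iff.mpr (fun a ha => hsub H hH hAH a ha h hh)
  -- two conjugates of `A` by an element outside `M` generate `G`
  have hgen : ∀ g : G, g ∉ M → A ⊔ A.map (MulAut.conj g).toMonoidHom = ⊤ := by
    intro g hg
    by_contra hne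
    apply hg
    have hH := hcomm_of _ hne le_sup_left
    have h1 : ∀ a ∈ A, g * a * g⁻¹ ∈ M := fun a ha =>
      hH ((le_sup_right : A.map (MulAut.conj g).toMonoidHom ≤ _) ⟨a, ha, by simp⟩)
    have h2 : ∀ a ∈ A, g⁻¹ * a * g ∈ M := by
      intro a ha
      rw [Subgroup.mem_centralizer_iff]
      intro b hb
      have h3 := Subgroup.mem_centralizer_iff.mp (h1 b hb) a ha
      calc b * (g⁻¹ * a * g) = g⁻¹ * ((g * b * g⁻¹) * a) * g := by group
        _ = g⁻¹ * (a * (g * b * g⁻¹)) * g := by rw [h3]
        _ = g⁻¹ * a * g * b := by group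
    have hMg_top : M.map (MulAut.conj g).toMonoidHom ≠ ⊤ := by
      intro h
      apply hMtop
      rw [eq_top_iff]
      intro x _
      have h3 : g * x * g⁻¹ ∈ M.map (MulAut.conj g).toMonoidHom := h ▸ Subgroup.mem_top _
      obtain ⟨m, hm, hmx⟩ := h3
      have h4 : g * m * g⁻¹ = g * x * g⁻¹ := by simpa using hmx
      have h5 : m = x := mul_left_cancel (mul_right_cancel h4)
      exact h5 ▸ hm
    have hAMg : A ≤ M.map (MulAut.conj g).toMonoidHom := by
      intro a ha
      refine ⟨g⁻¹ * a * g, h2 a ha, ?_⟩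
      simp only [MulEquiv.toMonoidHom_eq_coe, MonoidHom.coe_coe, MulAut.conj_apply]
      group
    have h3 := hcomm_of _ hMg_top hAMg
    have h4 : ∀ m ∈ M, g * m * g⁻¹ ∈ M := fun m hm => h3 ⟨m, hm, by simp⟩
    have hgN : g ∈ Subgroup.normalizer (M : Set G) := mem_normalizer_of_conj_mem g M h4
    have hB : ∀ x ∈ Subgroup.centralizer (M : Set G) ⊓ M,
        ∀ y ∈ Subgroup.centralizer (M : Set G) ⊓ M, x * y = y * x := by
      intro x hx y hy
      exact (Subgroup.mem_centralizer_iff.mp (Subgroup.mem_inf.mp hx).1 y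
        (Subgroup.mem_inf.mp hy).2).symm
    have hgB : g ∈ Subgroup.normalizer
        ((Subgroup.centralizer (M : Set G) ⊓ M : Subgroup G) : Set G) := by
      apply mem_normalizer_of_conj_mem
      intro b hb
      obtain ⟨hb1, hb2⟩ := Subgroup.mem_inf.mp hb
      refine Subgroup.mem_inf.mpr ⟨?_, h4 b hb2⟩
      rw [Subgroup.mem_centralizer_iff]
      intro m hm
      have hm' : g⁻¹ * m * g ∈ M := (Subgroup.mem_normalizer_iff''.mp hgN m).mp hm
      have h5 := Subgroup.mem_centralizer_iff.mp hb1 _ hm'
      calc m * (g * b * g⁻¹) = g * ((g⁻¹ * m * g) * b) * g⁻¹ := by group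
        _ = g * (b * (g⁻¹ * m * g)) * g⁻¹ := by rw [h5]
        _ = g * b * g⁻¹ * m := by group
    obtain ⟨S, hSsol, hBS, hgS⟩ := exists_solvable_of_normalizes _ hB g hgB
    have hAB : A ≤ Subgroup.centralizer (M : Set G) ⊓ M := by
      intro a ha
      refine Subgroup.mem_inf.mpr ⟨?_, hAM ha⟩
      rw [Subgroup.mem_centralizer_iff]
      intro m hm
      exact (Subgroup.mem_centralizer_iff.mp hm a ha).symm
    rw [Subgroup.mem_centralizer_iff]
    intro a ha
    exact hc S (hAB.trans hBS) hSsol a ha g hgS
  -- `M` is a Frobenius complement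
  have hFrob : Cfsg.IsFrobeniusComplement M := by
    refine ⟨hMbot, hMtop, fun g hg => ?_⟩
    rw [eq_bot_iff]
    intro y hy
    obtain ⟨hy1, hy2⟩ := Subgroup.mem_inf.mp hy
    have hy3 : g⁻¹ * y * g ∈ M := mem_conj_smul.mp hy2
    have hle : A ⊔ A.map (MulAut.conj g).toMonoidHom ≤ Subgroup.centralizer {y} := by
      apply sup_le
      · intro a ha
        rw [Subgroup.mem_centralizer_iff]
        intro z hz
        rw [Set.mem_singleton_iff] at hz
        rw [hz]
        exact (Subgroup.mem_centralizer_iff.mp hy1 a ha).symm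
      · rintro _ ⟨a, ha, rfl⟩
        rw [Subgroup.mem_centralizer_iff]
        intro z hz
        rw [Set.mem_singleton_iff] at hz
        rw [hz]
        have h3 := Subgroup.mem_centralizer_iff.mp hy3 a ha
        simp only [MulEquiv.toMonoidHom_eq_coe, MonoidHom.coe_coe, MulAut.conj_apply]
        calc y * (g * a * g⁻¹) = g * ((g⁻¹ * y * g) * a) * g⁻¹ := by group
          _ = g * (a * (g⁻¹ * y * g)) * g⁻¹ := by rw [h3]
          _ = g * a * g⁻¹ * y := by group
    rw [hgen g hg] at hle
    have hyc : y ∈ Subgroup.center G := by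
      rw [Subgroup.mem_center_iff]
      intro x
      exact (Subgroup.mem_centralizer_iff.mp (hle (Subgroup.mem_top x)) y rfl).symm
    rw [hZ] at hyc
    exact hyc
  -- the kernel is solvable and normal, hence centralized by `A`
  obtain ⟨N, hNn, hNs, hNM⟩ := hF G M hFrob
  have hsolT : Group.IsSolvable (A.map (QuotientGroup.mk' N)) :=
    Group.isSolvable_of_surjective (MonoidHom.subgroupMap_surjective _ A)
  have hS := solvable_comap_mk N hNs _ hsolT
  have hAS : A ≤ (A.map (QuotientGroup.mk' N)).comap (QuotientGroup.mk' N) :=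
    Subgroup.le_comap_map _ _
  have hNS : N ≤ (A.map (QuotientGroup.mk' N)).comap (QuotientGroup.mk' N) := by
    intro x hx
    rw [Subgroup.mem_comap]
    have h1 : (QuotientGroup.mk' N) x = 1 := (QuotientGroup.eq_one_iff x).mpr hx
    rw [h1]; exact Subgroup.one_mem _
  have hNle : N ≤ M := by
    intro x hx
    rw [Subgroup.mem_centralizer_iff]
    intro a ha
    exact hc _ hAS hS a ha x (hNS hx)
  apply hMtop
  rw [← hNM]
  exact (sup_eq_right.mpr hNle).symm

end Cfsg.Agent.Lib.Helper63.SolvCentral
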